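import Cfsg.Agent.Fl.I

/-! Slice C0 of `S5277`: the index lemma and (U). -/

set_option autoImplicit false

namespace Cfsg.Agent.Fl

open Subgroup Cfsg.Agent.H1 Cfsg.Agent.L Cfsg.Agent.FT
open scoped Pointwise commutatorElement

section
variable {Γ : Type*} [Group Γ] [Finite Γ]

theorem cml {X Y T : Subgroup Γ} (hX : X ≤ T) (hY : Y ≤ T) : #|X| * #|Y| ≤ #|T| * #|X ⊓ Y| := by
  rw [← card_set_mul_mul_card_inf X Y]
  refine Nat.mul_le_mul_right _ ?_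
  have hs : (X : Set Γ) * (Y : Set Γ) ⊆ T := by
    rintro _ ⟨a, ha, b, hb, rfl⟩; exact T.mul_mem (hX ha) (hY hb)
  exact Nat.card_mono (Set.toFinite _) hs

theorem index_lemma {K H R : Subgroup Γ} (hR : R ≤ 𝐍(K)) (hc : (#|R|).Coprime #|K|)
    (hs : Group.IsSolvable R) (hH : H ≤ K) (hRH : R ≤ 𝐍(H))
    (h : ∀ t : ℕ, t.Prime → ∃ T, IsSylowIn t T K ∧ R ≤ 𝐍(T) ∧ ⁅T, R⁆ ≤ H) : ⁅K, R⁆ ≤ ⁅H, R⁆ := by
  have hcH : (#|R|).Coprime #|H| := hc.coprime_dvd_right (card_dvd_of_le' hH)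
  have key : #|K| * #|H ⊓ 𝐂(R)| ∣ #|H| * #|K ⊓ 𝐂(R)| := by
    rw [← Nat.factorization_prime_le_iff_dvd (Nat.mul_pos Nat.card_pos Nat.card_pos).ne'
      (Nat.mul_pos Nat.card_pos Nat.card_pos).ne']
    intro t ht
    haveI := Fact.mk ht
    obtain ⟨T, hT, hRT, hTH⟩ := h t ht
    obtain ⟨U, hU, hTU, hRU⟩ := exists_invariant_isSylowIn_ge hRH hcH (Or.inl hs) (U := T ⊓ H) inf_le_right
      (IsPGroup.le' hT.isPGroup inf_le_left) (le_normalizer_inf hRT hRH)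
    have e1 := hT.card_eq
    have e2 := hU.card_eq
    have e3 := (isSylowIn_inf_centralizer hR hc (Or.inl hs) hT hRT).card_eq
    have e4 := (isSylowIn_inf_centralizer hRH hcH (Or.inl hs) hU hRU).card_eq
    have hp : SetProd (T ⊓ H) (T ⊓ 𝐂(R)) T := ⟨inf_le_left, inf_le_left, fun x hx => by
      obtain ⟨n, hn, c, hc', rfl⟩ := exists_mul_centralizer_commutator hRT
        (hc.coprime_dvd_right (card_dvd_of_le' hT.le)) (Or.inl hs) hx
      exact ⟨n, ⟨comm_le_left hRT hn, hTH hn⟩, c, hc', rfl⟩⟩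
    have c1 := hp.card
    have c2 := cml hTU (inf_le_left : U ⊓ 𝐂(R) ≤ U)
    have c3 : T ⊓ H ⊓ (U ⊓ 𝐂(R)) = T ⊓ H ⊓ (T ⊓ 𝐂(R)) := by
      apply le_antisymm
      · exact fun x hx => ⟨hx.1, hx.1.1, hx.2.2⟩
      · exact fun x hx => ⟨hx.1, hTU hx.1, hx.2.2⟩
    rw [c3] at c2
    have c4 : #|T| * #|U ⊓ 𝐂(R)| ≤ #|U| * #|T ⊓ 𝐂(R)| := by
      have hpos : 0 < #|T ⊓ H ⊓ (T ⊓ 𝐂(R))| := Nat.card_pos
      refine Nat.le_of_mul_le_mul_right ?_ hpos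
      calc #|T| * #|U ⊓ 𝐂(R)| * #|T ⊓ H ⊓ (T ⊓ 𝐂(R))|
          = (#|T ⊓ H| * #|U ⊓ 𝐂(R)|) * #|T ⊓ 𝐂(R)| := by rw [mul_right_comm, c1]; ring
        _ ≤ (#|U| * #|T ⊓ H ⊓ (T ⊓ 𝐂(R))|) * #|T ⊓ 𝐂(R)| := Nat.mul_le_mul_right _ c2
        _ = _ := by ring
    rw [e1, e2, e3, e4, ← pow_add, ← pow_add, Nat.pow_le_pow_iff_right ht.one_lt] at c4
    rw [Nat.factorization_mul Nat.card_pos.ne' Nat.card_pos.ne',
      Nat.factorization_mul Nat.card_pos.ne' Nat.card_pos.ne']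
    exact c4
  have hp : SetProd H (K ⊓ 𝐂(R)) K := by
    refine SetProd.of_card hH inf_le_left ?_
    rw [← inf_assoc, inf_eq_left.2 hH]
    exact Nat.le_of_dvd (Nat.mul_pos Nat.card_pos Nat.card_pos) key
  refine commutator_le_of_mul_centralizer fun k hk => ?_
  obtain ⟨a, ha, b, hb, rfl⟩ := hp.2.2 k hk
  exact ⟨a, ha, b, hb.2, rfl⟩

variable {p : ℕ} {G R : Subgroup Γ}

namespace Core

omit [Finite Γ] in
theorem sol (h : Core p G R) : Group.IsSolvable R := sol_of_comm (comm_of_cyclic (cyclic_of_prime h.rp))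

omit [Finite Γ] in
theorem cop' (h : Core p G R) {H : Subgroup Γ} (hH : H ≤ G) : (#|R|).Coprime #|H| :=
  h.cop.coprime_dvd_right (card_dvd_of_le' hH)

omit [Finite Γ] in
theorem eq_of_norm (h : Core p G R) {N : Subgroup Γ} (hN : N ≤ G) (hn : G ≤ 𝐍(N)) : N = ⊥ ∨ N = G := by
  haveI := h.simple
  haveI := (show N ⊴ G from ⟨hN, hn⟩).normal_subgroupOf
  rcases IsSimpleGroup.eq_bot_or_eq_top_of_normal (N.subgroupOf G) inferInstance with h1 | h1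
  · left
    rw [subgroupOf_eq_bot] at h1
    exact le_bot_iff.1 (h1 le_rfl hN)
  · right
    exact le_antisymm hN (subgroupOf_eq_top.1 h1)

omit [Finite Γ] in
theorem ne_bot (h : Core p G R) : G ≠ ⊥ := by
  haveI := h.simple
  exact (nontrivial_iff_ne_bot G).1 inferInstance

omit [Finite Γ] in
theorem norm_lt (h : Core p G R) {X : Subgroup Γ} (hX : X < G) (h1 : X ≠ ⊥) : G ⊓ 𝐍(X) < G := by
  refine lt_of_le_of_ne inf_le_left fun e => ?_
  rcases h.eq_of_norm hX.le (inf_eq_left.1 e) with h2 | h2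
  · exact h1 h2
  · exact hX.ne h2

omit [Finite Γ] in
theorem not_cent (h : Core p G R) : ¬ G ≤ 𝐂(R) := fun e => h.ne_bot (h.gen ▸ comm_eq_bot_iff.2 e)

theorem not_two (h : Core p G R) : ¬ IsPGroup 2 G := by
  intro h2
  obtain ⟨z, hz, ho⟩ := exists_mem_orderOf_eq Nat.prime_two (pgroup_dvd_card Nat.prime_two
    (IsPGroup.le' h2 (zent_le G)) (zent_ne_bot (pgroup_nil Nat.prime_two h2) h.ne_bot))
  have hz1 : z ≠ 1 := by rintro rfl; simp at ho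
  have hle : zpowers z ≤ zent G := (zpowers_le).2 hz
  have e : zpowers z = G := (h.eq_of_norm (hle.trans (zent_le G)) (NormalIn.of_le_zent hle).norm).resolve_left
    (ne_bot_of_mem (mem_zpowers z) hz1)
  apply h.not_cent
  rw [← e, zpowers_le, mem_cent]
  intro a ha
  have h3 : a * z * a⁻¹ ∈ zpowers z := by
    rw [e]; exact le_norm_iff.1 h.nG a ha z (zent_le G hz)
  have hc : Nat.card (zpowers z) = 2 := by rw [Nat.card_zpowers, ho]
  obtain ⟨y, -, hy⟩ := (Nat.card_eq_two_iff' (1 : zpowers z)).1 hc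
  have h4 : (⟨_, h3⟩ : zpowers z) = ⟨z, mem_zpowers z⟩ := by
    rw [hy ⟨_, h3⟩, hy ⟨z, mem_zpowers z⟩]
    · exact fun e => hz1 (congrArg Subtype.val e)
    · exact fun e => hz1 (by simpa using congrArg Subtype.val e)
  have h5 : a * z * a⁻¹ = z := congrArg Subtype.val h4
  exact mul_inv_eq_iff_eq_mul.1 h5

theorem lt_of_two (h : Core p G R) {X : Subgroup Γ} (hX : X ≤ G) (h2 : IsPGroup 2 X) : X < G :=
  lt_of_le_of_ne hX fun e => h.not_two (e ▸ h2)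

/-- odd `p'` Sylow subgroups are centralized -/
theorem comm_odd (h : Core p G R) {T : Subgroup Γ} {t : ℕ} (ht : t.Prime) (h2 : t ≠ 2) (hp : t ≠ p)
    (hT : IsPGroup t T) (hG : T ≤ G) (hR : R ≤ 𝐍(T)) : ⁅T, R⁆ = ⊥ := by
  obtain ⟨n, hn⟩ := pgroup_card ht hT
  refine comm_eq_bot_iff.2 (h.odd T hG hR ?_ ?_)
  · rw [hn]; exact (ht.odd_of_ne_two h2).pow
  · rw [hn]; exact fun e => hp ((Nat.prime_dvd_prime_iff_eq h.pp ht).1 (h.pp.dvd_of_dvd_pow e)).symm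

/-- an invariant `p'`-subgroup `H`: `[H, R] = [U, R]` -/
theorem comm_eq (h : Core p G R) {H U : Subgroup Γ} (hG : H ≤ G) (hR : R ≤ 𝐍(H)) (hp : ¬ p ∣ #|H|)
    (hU : IsSylowIn 2 U H) (hRU : R ≤ 𝐍(U)) : ⁅H, R⁆ = ⁅U, R⁆ := by
  refine le_antisymm ?_ (commutator_mono hU.le le_rfl)
  refine index_lemma hR (h.cop' hG) h.sol hU.le hRU fun t ht => ?_
  haveI := Fact.mk ht
  by_cases h2 : t = 2
  · subst h2
    exact ⟨U, hU, hRU, comm_le_left hRU⟩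
  obtain ⟨T, hT, hRT⟩ := exists_invariant_isSylowIn t hR (h.cop' hG) (Or.inl h.sol)
  refine ⟨T, hT, hRT, ?_⟩
  by_cases h3 : t = p
  · subst h3
    rw [(sylow_eq_bot_iff ht hT).2 hp]; simp
  · rw [h.comm_odd ht h2 h3 hT.isPGroup (hT.le.trans hG) hRT]; exact bot_le

theorem comm_two (h : Core p G R) {H : Subgroup Γ} (hG : H ≤ G) (hR : R ≤ 𝐍(H)) (hp : ¬ p ∣ #|H|) :
    IsPGroup 2 (⁅H, R⁆ : Subgroup Γ) := by
  obtain ⟨U, hU, hRU⟩ := exists_invariant_isSylowIn 2 hR (h.cop' hG) (Or.inl h.sol)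
  rw [h.comm_eq hG hR hp hU hRU]
  exact IsPGroup.le' hU.isPGroup (comm_le_left hRU)

/-- a proper invariant subgroup cannot contain `[Y, R]` and `[P, R]` -/
theorem not_both (h : Core p G R) {H Y P : Subgroup Γ} (hG : H < G) (hR : R ≤ 𝐍(H)) (hY : IsSylowIn 2 Y G)
    (hRY : R ≤ 𝐍(Y)) (hP : IsSylowIn p P G) (hRP : R ≤ 𝐍(P)) (h1 : ⁅Y, R⁆ ≤ H) (h2 : ⁅P, R⁆ ≤ H) : False := by
  refine hG.not_ge (h.gen.ge.trans ((index_lemma h.nG h.cop h.sol hG.le hR fun t ht => ?_).trans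
    (comm_le_left hR)))
  haveI := Fact.mk ht
  by_cases h2 : t = 2
  · subst h2
    exact ⟨Y, hY, hRY, h1⟩
  by_cases h3 : t = p
  · subst h3
    exact ⟨P, hP, hRP, ‹_›⟩
  obtain ⟨T, hT, hRT⟩ := exists_invariant_isSylowIn t h.nG h.cop (Or.inl h.sol)
  exact ⟨T, hT, hRT, by rw [h.comm_odd ht h2 h3 hT.isPGroup hT.le hRT]; exact bot_le⟩

/-- a proper invariant subgroup of order divisible by `p` normalizes an invariant Sylow `p`-subgroup up to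
enlarging it -/
theorem exists_sylow (h : Core p G R) {H : Subgroup Γ} (hG : H < G) (hR : R ≤ 𝐍(H)) (hp : p ∣ #|H|) :
    ∃ P, IsSylowIn p P G ∧ R ≤ 𝐍(P) ∧ P ≠ ⊥ ∧ H ≤ 𝐍(P) := by
  haveI := Fact.mk h.pp
  obtain ⟨L, hHL, hL⟩ := (Set.toFinite {L : Subgroup Γ | L < G ∧ R ≤ 𝐍(L)}).exists_le_maximal
    (a := H) ⟨hG, hR⟩
  obtain ⟨P, hP, hn⟩ := h.pcl L hL.1.1 hL.1.2
  have h1 : P ≠ ⊥ := sylow_ne_bot h.pp hP (hp.trans (card_dvd_of_le' hHL))
  have hRP : R ≤ 𝐍(P) := by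
    rw [sylow_eq_core h.pp hP hn]; exact le_norm_core hL.1.2 _
  have hlt := h.norm_lt (lt_of_le_of_lt hP.le hL.1.1) h1
  have hle : L ≤ G ⊓ 𝐍(P) := le_inf hL.1.1.le hn
  have e : G ⊓ 𝐍(P) ≤ L := hL.2 ⟨hlt, le_normalizer_inf h.nG (hRP.trans (norm_le_norm_norm P))⟩ hle
  rw [← le_antisymm e hle] at hP
  exact ⟨P, sylow_of_sylow_norm h.pp (hP.le.trans inf_le_left) hP, hRP, h1, hHL.trans hn⟩

theorem exists_ce (h : Core p G R) : ∃ Y E A M, CE p G R Y E A M := by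
  haveI := Fact.mk h.pp
  obtain ⟨Y, hY, hRY⟩ := exists_invariant_isSylowIn 2 h.nG h.cop (Or.inl h.sol)
  have hEY : ⁅Y, R⁆ ≤ Y := comm_le_left hRY
  have hne : ⁅Y, R⁆ ≠ ⊥ := by
    intro e
    obtain ⟨P, hP, hRP⟩ := exists_invariant_isSylowIn p h.nG h.cop (Or.inl h.sol)
    exact h.not_both (lt_of_le_of_ne hP.le fun e => h.np (e ▸ hP.isPGroup)) hRP hY hRY hP hRP (e ▸ bot_le)
      (comm_le_left hRP)
  refine ⟨Y, _, _, _, h, hY, hRY, rfl, rfl, rfl, hne, h.norm_lt (h.lt_of_two (hEY.trans hY.le)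
    (IsPGroup.le' hY.isPGroup hEY)) hne, fun H hH hR hE => ?_⟩
  have hp : ¬ p ∣ #|H| := by
    intro hp
    obtain ⟨P, hP, hRP, h1, hn⟩ := h.exists_sylow hH hR hp
    exact h.not_both (h.norm_lt (lt_of_le_of_ne hP.le fun e => h.np (e ▸ hP.isPGroup)) h1)
      (le_normalizer_inf h.nG (hRP.trans (norm_le_norm_norm P))) hY hRY hP hRP
      (le_inf (hE.trans hH.le) (hE.trans hn)) ((comm_le_left hRP).trans (le_inf hP.le le_normalizer))
  have e : ⁅H, R⁆ = ⁅Y, R⁆ := by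
    have h2 := h.comm_two hH.le hR hp
    have h3 : ⁅Y, R⁆ ≤ ⁅H, R⁆ := by
      rw [← commutator_commutator_eq hRY (h.cop' hY.le) (Or.inl h.sol)]
      exact commutator_mono hE le_rfl
    obtain ⟨U, hU, hHU, hRU⟩ := exists_invariant_isSylowIn_ge h.nG h.cop (Or.inl h.sol)
      ((comm_le_left hR).trans hH.le) h2 (right_le_norm_comm H R)
    obtain ⟨c, hc, hcU⟩ := exists_centralizer_conj_isSylowIn h.nG h.cop (Or.inl h.sol) hY hU hRY hRU
    refine (eq_of_le_of_card_le h3 ?_).symm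
    have h4 : ⁅H, R⁆ ≤ c ⋆ ⁅Y, R⁆ := by
      rw [conj_comm, hcU, conj_of_mem_norm (cent_le_norm R hc.2),
        ← commutator_commutator_eq hR (h.cop' hH.le) (Or.inl h.sol)]
      exact commutator_mono hHU le_rfl
    exact (card_le_of_le' h4).trans (card_conj _ _).le
  exact ⟨le_inf hH.le (e ▸ left_le_norm_comm H R), e, hp⟩

end Core

end

instance coreF_of [h1 : C1] [h2 : C2] [h3 : C3] : CoreF where
  out h := by
    obtain ⟨Y, E, A, M, hc⟩ := h.exists_ce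
    exact h3.out hc (h1.out hc) (h2.out hc)

end Cfsg.Agent.Fl
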