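import Cfsg.Agent.Fl.C2c

/-! Slice C2 of `S5277`: the elements of `A#` fix a unique point. -/

set_option autoImplicit false
set_option linter.unusedSectionVars false

namespace Cfsg.Agent.Fl

open Subgroup Cfsg.Agent.H1 Cfsg.Agent.L Cfsg.Agent.FT Cfsg.Agent.FT.B9
open scoped Pointwise commutatorElement

variable {Γ : Type*} [Group Γ] [Finite Γ] {p : ℕ} {G R R' Y E A M Y' E' A' M' X X' : Subgroup Γ}
  {a c e f g t x y w : Γ}

/-- the conclusion of the two subcases -/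
def Star (G R E A M E' A' M' : Subgroup Γ) : Prop :=
  ∃ X, Thin G R X ∧ X ≤ E ⊓ 𝐂(A' ⊓ M) ∧ ∀ y ∈ E' ⊓ 𝐂(A ⊓ M'), ∀ x ∈ X, ⁅x, y⁆ ∈ A

theorem norm_sup_of {Z : Subgroup Γ} (h1 : ∀ z ∈ Z, ∀ x ∈ X, ⁅z, x⁆ ∈ X ⊔ X') (h2 : ∀ z ∈ Z, ∀ x ∈ X', ⁅z, x⁆ ∈ X ⊔ X') :
    Z ≤ 𝐍(X ⊔ X') := by
  refine le_norm_of_conj fun z hz => ?_
  have hc : ∀ x, ⁅z, x⁆ * x = z * x * z⁻¹ := fun x => by simp only [commutatorElement_def]; group
  rw [conj_sup]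
  refine sup_le (fun y hy => ?_) fun y hy => ?_ <;> obtain ⟨x, hx, rfl⟩ := mem_conj'.1 hy <;> rw [← hc]
  · exact mul_mem (h1 z hz x hx) (mem_sup_left hx)
  · exact mul_mem (h2 z hz x hx) (mem_sup_right hx)

namespace CE

theorem quad (h : CE p G R Y E A M) (h' : CE p G R' Y' E' A' M') (ha : a ∈ A ⊓ M') (hy : y ∈ A') :
    ⁅a, y⁆ ∈ A' ⊓ M := by
  have h1 := commEl_mem_right (h'.MA ha.2) hy
  refine ⟨h1, ?_⟩
  by_cases a1 : a = 1
  · simp [a1]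
  refine h.memM ha.1 a1 (h'.EG (h'.AE h1)) ?_
  have h2 := h.sqA ha.1
  rw [eq_comm, ← mul_inv_eq_iff_eq_mul, ← inv_eq_of_mul_eq_one_right (h'.sqA h1)]
  nth_rewrite 1 [inv_eq_of_mul_eq_one_right (h'.sqA h1)]
  simp only [commutatorElement_def, mul_inv_rev, inv_inv, inv_eq_of_mul_eq_one_right h2, mul_assoc]
  rw [← mul_assoc a a, h2, one_mul]

theorem fpf (h : CE p G R Y E A M) (h' : CE p G R' Y' E' A' M') (hy : y ∈ A') (hy' : y ∉ M) :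
    A ⊓ M' ⊓ 𝐂[y] = ⊥ := eq_bot_iff.2 fun _ ha => by
  by_contra a1
  exact hy' (h.memM ha.1.1 a1 (h'.EG (h'.AE hy)) (mem_cent1.1 ha.2).symm)

theorem card0 (h : CE p G R Y E A M) (h' : CE p G R' Y' E' A' M') (hn : ¬ A' ≤ M) : #|A ⊓ M'| ≤ #|A' ⊓ M| := by
  obtain ⟨y, hy, hy'⟩ := SetLike.not_le_iff_exists.1 hn
  have := card_le_comm fun a ha => h.quad h' ha hy
  rwa [h.fpf h' hy hy', card_bot, mul_one] at this

theorem s2 (h : CE p G R Y E A M) (h' : CE p G R' Y' E' A' M') (hne : E ≠ E') (hA : A ≠ ⊥) (ht : t ∈ A')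
    (ht' : t ∈ M) (t1 : t ≠ 1) (hn : ¬ A ≤ M') (hn' : ¬ A' ≤ M) : Star G R E A M E' A' M' := by
  obtain ⟨a, ha, ha', a1⟩ := h.ex0 h' hA ht ht' t1
  obtain ⟨X, hX, h1, h2⟩ := h.l2 (B := A' ⊓ M) inf_le_right (ne_bot_of_mem ⟨ht, ht'⟩ t1)
    (fun s hs => h'.sqA hs.1) (fun s hs e => h.ci h' hne hA hs.1 hs.2 E.one_mem (by simpa using e))
    (fun s hs s1 f hf => mem_cent.2 fun b hb => by
      have hf' := h'.MA (h'.memM hs.1 s1 (h.EG hf.1) (mem_cent1.1 hf.2))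
      obtain ⟨y, hy, hy', e⟩ := exists_central_mod (L := A' ⊔ zpowers f) (C := A') (N := M)
        (pgroup_nil Nat.prime_two (pgroup_sup (IsPGroup.le' h'.two h'.AE) (IsPGroup.le' h.two (zpowers_le.2 hf.1))
          (Or.inr (zpowers_le.2 hf')))) le_sup_left (sup_le le_normalizer (zpowers_le.2 hf')) hn'
      obtain ⟨z, hz, rfl⟩ := surj_comm (fun a ha => h.quad h' ha hy) (h.fpf h' hy hy') (h'.card0 h hn) hb
      have e1 := comm_mem_symm (e f (mem_sup_right (mem_zpowers f)))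
      have e2 := commEl_mem_right hf' hy
      rw [eq_comm, ← mul_inv_eq_iff_eq_mul, conjugate_commutatorElement, h.ac hz.1 hf.1, mul_inv_cancel_right,
        show f * y * f⁻¹ = ⁅f, y⁆ * y by simp only [commutatorElement_def]; group,
        cmul_right (h'.ac hb.1 (h'.AE e2)), commEl_eq_one_iff.2 (h.c0 h' hne hz.1 hz.2 e2 e1), one_mul])
    (fun f hf => by
      by_contra f1
      have hf' := h'.MA (h'.memM ht t1 (h.EG hf.1) (mem_cent.1 hf.2 t ⟨ht, ht'⟩).symm)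
      obtain ⟨y, hy, hy'⟩ := SetLike.not_le_iff_exists.1 hn'
      have e1 : ⁅y, a⁆ = ⁅f * y * f⁻¹, a⁆ := by
        have := mem_cent.1 hf.2 _ (comm_mem_symm (h.quad h' ⟨ha, ha'⟩ hy))
        rw [eq_comm, ← mul_inv_eq_iff_eq_mul, conjugate_commutatorElement, h.ac ha hf.1,
          mul_inv_cancel_right] at this
        exact this.symm
      have e2 := mul_mem (inv_mem hy) (conj_mem_of_mem_normalizer hf' hy)
      have e3 := mem_cent.1 hf.2 _ ⟨e2, h.memM ha a1 (h'.EG (h'.AE e2)) (mem_cent1.1 (comm_eq_iff.1 e1))⟩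
      have e4 := h'.sqA e2
      refine hy' (h.memM (h.sq hf.1) f1 (h'.EG (h'.AE hy)) ?_)
      have e5 : f * y = y * (y⁻¹ * (f * y * f⁻¹)) * f := by group
      generalize y⁻¹ * (f * y * f⁻¹) = s at e3 e4 e5
      calc y * (f * f) = y * (s * s) * (f * f) := by rw [e4, mul_one]
        _ = y * s * (s * f) * f := by group
        _ = (y * s * f) * s * f := by rw [e3]; group
        _ = f * (y * s * f) := by nth_rewrite 1 [← e5]; group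
        _ = _ := by rw [← e5, mul_assoc])
    (le_trans (card_le_of_le' (K := A ⊓ M') fun b hb => ⟨hb.1, h'.memM ht t1 (h.EG (h.AE hb.1))
      (mem_cent.1 hb.2 t ⟨ht, ht'⟩).symm⟩) (h.card0 h' hn'))
  refine ⟨X, hX, h1, fun y hy x hx => ?_⟩
  have hyM := h.memM ha a1 (h'.EG hy.1) (mem_cent.1 hy.2 a ⟨ha, ha'⟩).symm
  obtain ⟨w, hw, w1⟩ := exists_mem_ne_one hX.ne
  exact h.nx hX (h1.trans inf_le_left) hyM (mem_sup_left hw) (fun e => w1 (h.thin_inf hX hw (h.AR e)))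
    (h2 ⟨conj_mem_of_mem_normalizer (h.MN hyM) (h1 hw).1, conj_mem_of_mem_normalizer
      (le_normalizer (cent_anti inf_le_left (le_cent_symm h'.AC hy.1))) (h1 hw).2⟩) hx

theorem triv (h : CE p G R Y E A M) (h' : CE p G R' Y' E' A' M') (hne : E ≠ E') (hA : A ≠ ⊥) (h1 : A ≤ M')
    (ht : t ∈ A') (ht' : t ∈ M) (he : e ∈ E) : ⁅e, t⁆ ∈ A := by
  by_contra hn
  obtain ⟨X, -, -, e1, e2⟩ := h.la ht' (IsPGroup.le' h'.two (zpowers_le.2 (h'.AE ht)))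
    (mem_cent.2 fun a ha => h.c0 h' hne ha (h1 ha) ht ht') he hn
  obtain ⟨x, hx, e3, e4⟩ := h.dec2 ht' (h'.sqA ht)
  obtain ⟨d, hd, a, ha, e5⟩ := e2 x (e1 x hx (by rw [commEl_eq_one_iff.2 e4]; exact A.one_mem))
  refine hn ?_
  rw [h.ci h' hne hA ht ht' hd ?_]
  · simp
  have : d * t * d⁻¹ = a⁻¹ * (x * x) * (x⁻¹ * t) := by
    rw [show a⁻¹ * (x * x) * (x⁻¹ * t) = a⁻¹ * x * t by group, e5]
    simp only [commutatorElement_def]; group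
  rw [this]
  exact mul_mem (h.AR (mul_mem (inv_mem ha) (h.sq hx))) e3

theorem decC (h : CE p G R Y E A M) (ht : t ∈ M) (hc : ∀ e ∈ E, ⁅e, t⁆ ∈ A) :
    ∃ x ∈ E, ∃ c ∈ 𝐂(R) ⊓ 𝐂(E), t = x * c := by
  obtain ⟨x, hx, c, hc', rfl⟩ := h.decM ht
  exact ⟨x, hx, c, ⟨hc'.2, le_cent1_iff.1 (h.ER.ge.trans (h.hom le_rfl h.nE hc'.2 fun e he =>
    (h.cm_iff hx he).1 (hc e he)))⟩, rfl⟩

theorem noCent (h : CE p G R Y E A M) (h' : CE p G R' Y' E' A' M') (hne : E ≠ E') (hA : A ≠ ⊥)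
    (ht : t ∈ A') (ht' : t ∈ M) (hc : t ∈ 𝐂(E)) : t = 1 := by
  obtain ⟨x, hx, c, hc', e⟩ := h.decC ht' fun e he => by
    rw [commEl_eq_one_iff.2 (mem_cent.1 hc e he)]; exact A.one_mem
  refine h.ci h' hne hA ht ht' E.one_mem ?_
  rw [one_mul, inv_one, mul_one, e]
  have h2 : c ∈ 𝐂(E) := hc'.2
  exact mul_mem (h.AR (h.zE hA hx ((mul_mem_cancel_right h2).1 (e ▸ hc)))) hc'.1

theorem s1b (h : CE p G R Y E A M) (h' : CE p G R' Y' E' A' M') (hne : E ≠ E') (hA : A ≠ ⊥) (hA' : A' ≠ ⊥)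
    (h1 : A ≤ M') (h2 : A' ≤ M) (hc : #|A| ≤ #|A'|) : ∃ f ∈ E ⊓ 𝐂(A'), ∃ e ∈ E', ⁅e, f⁆ ∉ A' := by
  by_contra hn
  push Not at hn
  obtain ⟨t, ht, t1⟩ := exists_mem_ne_one hA'
  have hsq : ∀ f ∈ E ⊓ 𝐂(A'), f * f = 1 := fun f hf => by
    obtain ⟨x, hx, c, hc', e⟩ := h'.decC (h'.memM ht t1 (h.EG hf.1) (mem_cent.1 hf.2 t ht).symm) (hn f hf)
    refine h'.noCent h hne.symm hA' (h.sq hf.1) (h1 (h.sq hf.1)) ?_
    rw [e, show x * c * (x * c) = x * (c * x) * c by group, ← mem_cent.1 hc'.2 x hx,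
      show x * (x * c) * c = x * x * (c * c) by group]
    exact mul_mem (h'.AC (h'.sq hx)) (mul_mem hc'.2 hc'.2)
  have k1 : ∀ s ∈ A', s ≠ 1 → E ⊓ 𝐂[s] ≤ 𝐂(A') := fun s hs s1 f hf => mem_cent.2 fun b hb =>
    (commEl_eq_one_iff.1 (h.ti h' hne (h.triv h' hne hA h1 hb (h2 hb) hf.1) (commEl_mem_right
      (h'.MA (h'.memM hs s1 (h.EG hf.1) (mem_cent1.1 hf.2))) hb))).symm
  have k2 : #|A ⊓ 𝐂(A')| ≤ #|A'| := (card_le_of_le' inf_le_left).trans hc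
  obtain ⟨X, hX, e1, -⟩ := h.l2 h2 hA' (fun s hs => h'.sqA hs)
    (fun s hs e => h.ci h' hne hA hs (h2 hs) E.one_mem (by simpa using e)) k1 hsq k2
  have hAF : A ≤ E ⊓ 𝐂(A') := fun a ha => ⟨h.AE ha, mem_cent.2 fun b hb =>
    (h.c0 h' hne ha (h1 ha) hb (h2 hb)).symm⟩
  have hQ : E ⊓ 𝐂(A') ⊔ A' ≤ M := sup_le (inf_le_left.trans h.EM) h2
  have hab : E ⊓ 𝐂(A') ⊔ A' ≤ 𝐂(E ⊓ 𝐂(A') ⊔ A') := by
    rw [cent_sup]
    exact sup_le (le_inf (cent_of_sq hsq) inf_le_right)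
      (le_inf (le_cent_symm inf_le_right) (h'.AC.trans (cent_anti h'.AE)))
  have n1 : E' ≤ 𝐍(E ⊓ 𝐂(A') ⊔ A') := norm_sup_of (fun e he f hf => mem_sup_right (hn f hf e he))
    fun e he b hb => mem_sup_right (commEl_mem_right (h'.EA he) hb)
  have n2 : E ≤ 𝐍(E ⊓ 𝐂(A') ⊔ A') := norm_sup_of (fun e he f hf => mem_sup_left (hAF (h.cm he hf.1)))
    fun e he b hb => mem_sup_left (hAF (h.triv h' hne hA h1 hb (h2 hb) he))
  have n3 : X ≤ E ⊓ 𝐂(A') ⊔ A' := e1.trans le_sup_left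
  have hE : E' ≤ M := (le_inf h'.EG n1).trans (h.uniN (lt_of_le_of_lt hQ h.lt) (ne_bot_of_le hA' le_sup_right)
    (h.thin_norm hX n3 (le_inf (hQ.trans h.MG) (hab.trans (cent_anti n3)))) n2).1
  obtain ⟨a, ha, a1⟩ := exists_mem_ne_one hA
  exact a1 (h'.noCent h hne.symm hA' ha (h1 ha) (mem_cent.2 fun e he => commEl_eq_one_iff.1
    (h.ti h' hne (commEl_mem_right (h.MA (hE he)) ha) (h'.triv h hne.symm hA' h2 ha (h1 ha) he))))

theorem s1 (h : CE p G R Y E A M) (h' : CE p G R' Y' E' A' M') (hne : E ≠ E') (hA : A ≠ ⊥) (hA' : A' ≠ ⊥)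
    (h1 : A ≤ M') (h2 : A' ≤ M) (hc : #|A'| ≤ #|A|) : Star G R E A M E' A' M' := by
  obtain ⟨f, hf, e, he, hn⟩ := h'.s1b h hne.symm hA' hA h2 h1 hc
  obtain ⟨a, ha, a1⟩ := exists_mem_ne_one hA
  have hM : ∀ y ∈ E' ⊓ 𝐂(A), y ∈ M := fun y hy => h.memM ha a1 (h'.EG hy.1) (mem_cent.1 hy.2 a ha).symm
  obtain ⟨X, hX, hE, e1, -⟩ := h.la (hM f hf) (IsPGroup.le' h'.two (zpowers_le.2 hf.1)) hf.2 he hn
  have key : ∀ t ∈ A', ∃ x ∈ E, ∃ c ∈ 𝐂(R) ⊓ 𝐂(E), t = x * c ∧ ∀ y ∈ E' ⊓ 𝐂(A), ⁅x, y⁆ ∈ A := by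
    intro t ht
    obtain ⟨x, hx, c, hc', e⟩ := h.decC (h2 ht) fun e he => h.triv h' hne hA h1 ht (h2 ht) he
    refine ⟨x, hx, c, hc', e, fun y hy => ?_⟩
    have hy' := h.MN (hM y hy)
    have e2 := h'.ac ht hy.1
    have e3 : x⁻¹ * (y * x * y⁻¹) = c * (y * c * y⁻¹)⁻¹ := by
      rw [e] at e2
      calc x⁻¹ * (y * x * y⁻¹) = x⁻¹ * (y * (x * c)) * c⁻¹ * y⁻¹ := by group
        _ = _ := by rw [e2]; group
    have e4 := h.zE hA (mul_mem (inv_mem hx) (conj_mem_of_mem_normalizer hy' hx)) (e3 ▸ mul_mem hc'.2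
      (inv_mem (conj_mem_of_mem_normalizer (norm_le_norm_cent E hy') hc'.2)))
    convert conj_mem_of_mem_normalizer (h.EA hx) (inv_mem e4) using 1
    simp only [commutatorElement_def]; group
  rw [Star, inf_eq_left.2 h1, inf_eq_left.2 h2]
  refine ⟨X, hX, le_inf hE (le_cent_symm fun t ht => ?_), fun y hy x hx => ?_⟩
  · obtain ⟨x, hx, c, hc', e, e2⟩ := key t ht
    exact e ▸ mul_mem (cent_anti le_sup_left (h.XA_cent hX hE (e1 x hx (e2 f hf)))) (cent_anti hE hc'.2)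
  · obtain ⟨t, ht, t1⟩ := exists_mem_ne_one hA'
    obtain ⟨w, hw, c, hc', e, e2⟩ := key t ht
    have e3 := e1 w hw (e2 f hf)
    refine h.nx hX hE (hM y hy) e3 (fun e4 => t1 (h.ci h' hne hA ht (h2 ht) E.one_mem ?_)) ?_ hx
    · rw [one_mul, inv_one, mul_one, e]
      exact mul_mem (h.AR e4) hc'.1
    · rw [show y * w * y⁻¹ = ⁅y, w⁆ * w by simp only [commutatorElement_def]; group]
      exact mul_mem (mem_sup_right (comm_mem_symm (e2 y hy))) e3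

theorem main (h : CE p G R Y E A M) (h' : CE p G R' Y' E' A' M') (hc : #|A| = #|A'|) (ht : t ∈ A')
    (ht' : t ∈ M) (t1 : t ≠ 1) : E = E' := by
  by_contra hne
  have hA' := ne_bot_of_mem ht t1
  have hA : A ≠ ⊥ := fun e => hA' (by rw [← card_eq_one, ← hc, e, card_bot])
  obtain ⟨a, ha, ha', a1⟩ := h.ex0 h' hA ht ht' t1
  obtain ⟨⟨X, hX, e1, e2⟩, ⟨X', hX', e3, e4⟩⟩ : Star G R E A M E' A' M' ∧ Star G R' E' A' M' E A M := by
    by_cases h1 : A ≤ M' <;> by_cases h2 : A' ≤ M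
    · exact ⟨h.s1 h' hne hA hA' h1 h2 hc.ge, h'.s1 h (Ne.symm hne) hA' hA h2 h1 hc.le⟩
    · have := h.card0 h' h2
      rw [inf_eq_left.2 h1, hc] at this
      exact absurd (inf_eq_left.1 (eq_of_le_of_card_le inf_le_left this)) h2
    · have := h'.card0 h h1
      rw [inf_eq_left.2 h2, ← hc] at this
      exact absurd (inf_eq_left.1 (eq_of_le_of_card_le inf_le_left this)) h1
    · exact ⟨h.s2 h' hne hA ht ht' t1 h1 h2, h'.s2 h (Ne.symm hne) hA' ha ha' a1 h2 h1⟩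
  obtain ⟨e, he, e5⟩ := h.lq h'.toCore hX (e1.trans inf_le_left) hX' (fun y hy => mem_cent.2 fun x hx =>
    commEl_eq_one_iff.1 (h.ti h' hne (e2 y (e3 hy) x hx) (comm_mem_symm (e4 x (e1 hx) y hy)))) ha a1
    (mem_cent.2 fun y hy => (mem_cent.1 (e3 hy).2 a ⟨ha, ha'⟩).symm)
  refine t1 (h.ci h' hne hA ht ht' (inv_mem he) ?_)
  have := h'.AR ht
  rw [← e5, ← conj_cent, mem_conj] at this
  rwa [inv_inv]

end CE

instance instC2 : C2 where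
  out := fun {_ _ _ _ G R Y E A M} h a ha a1 g hg e => by
    have := h.main (h.conj hg) (card_conj g A).symm (conj_mem_conj g ha) e (by simpa using a1)
    exact h.eM ▸ ⟨hg, conj_eq_self_iff.1 this.symm⟩

end Cfsg.Agent.Fl
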