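import Cfsg.Agent.Fl.I

/-! A Gauss sum for groups of class two. -/

set_option autoImplicit false

namespace Cfsg.Agent.Fl

open Subgroup Cfsg.Agent.H1 Cfsg.Agent.L Cfsg.Agent.FT
open scoped Pointwise commutatorElement

theorem sum_hom_int {K : Type*} [Group K] [Fintype K] (f : K → ℤ) (h : ∀ a b, f (a * b) = f a * f b) :
    (∑ a, f a = Fintype.card K ∧ ∀ a, f a = 1) ∨ (∑ a, f a = 0 ∧ ∃ a, f a ≠ 1) := by
  by_cases e : ∀ a, f a = 1
  · exact Or.inl ⟨by simp [e], e⟩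
  push Not at e
  obtain ⟨b, hb⟩ := e
  refine Or.inr ⟨?_, b, hb⟩
  have := Fintype.sum_equiv (Equiv.mulLeft b) (fun a => f (b * a)) f fun _ => rfl
  simp only [h, ← Finset.mul_sum] at this
  have h2 : (f b - 1) * ∑ a, f a = 0 := by rw [sub_mul, this]; ring
  exact (mul_eq_zero.1 h2).resolve_left (sub_ne_zero.2 hb)

variable {Γ : Type*} [Group Γ] {E A B : Subgroup Γ}

theorem cmul_left {x y w : Γ} (h : x * ⁅y, w⁆ = ⁅y, w⁆ * x) : ⁅x * y, w⁆ = ⁅y, w⁆ * ⁅x, w⁆ := by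
  calc ⁅x * y, w⁆ = x * ⁅y, w⁆ * x⁻¹ * ⁅x, w⁆ := by group
    _ = _ := by rw [h]; group

theorem cmul_right {x y w : Γ} (h : x * ⁅w, y⁆ = ⁅w, y⁆ * x) : ⁅w, x * y⁆ = ⁅w, x⁆ * ⁅w, y⁆ := by
  calc ⁅w, x * y⁆ = ⁅w, x⁆ * (x * ⁅w, y⁆) * x⁻¹ := by group
    _ = _ := by rw [h]; group

theorem gauss [Finite Γ] (hc : A ≤ 𝐂(E)) (hi : B.relIndex A = 2)
    (hs : ∀ x ∈ E, x * x ∈ A) (hd : ⁅E, E⁆ ≤ A) :
    ∃ Rd ≤ E, (∀ y, y ∈ Rd ↔ y ∈ E ∧ ∀ x ∈ E, ⁅x, y⁆ ∈ B) ∧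
      (((Nat.card {x // x ∈ E ∧ x * x ∈ B} : ℤ) - Nat.card {x // x ∈ E ∧ x * x ∉ B}) ^ 2 = #|E| * #|Rd| ∨
      ((Nat.card {x // x ∈ E ∧ x * x ∈ B} : ℤ) = Nat.card {x // x ∈ E ∧ x * x ∉ B} ∧
        ∃ y ∈ Rd, y * y ∉ B)) := by
  classical
  have cm : ∀ {x y}, x ∈ E → y ∈ E → ⁅x, y⁆ ∈ A := fun hx hy => hd (commutator_mem_commutator hx hy)
  have cc : ∀ {x a}, x ∈ E → a ∈ A → x * a = a * x := fun hx ha => hc ha _ hx
  let ψ : Γ → ℤ := fun a => if a ∈ B then 1 else -1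
  have ψm : ∀ {a b}, a ∈ A → b ∈ A → ψ (a * b) = ψ a * ψ b := fun {a b} ha hb => by
    have := (mul_mem_iff_of_index_two (H := B.subgroupOf A) hi (a := ⟨a, ha⟩) (b := ⟨b, hb⟩))
    simp only [mem_subgroupOf, coe_mul] at this
    by_cases h1 : a ∈ B <;> by_cases h2 : b ∈ B <;> simp [ψ, this, h1, h2]
  have ψ1 : ∀ {a}, ψ a = 1 ↔ a ∈ B := fun {a} => by by_cases h : a ∈ B <;> simp [ψ, h]
  have ψs : ∀ a, ψ a * ψ a = 1 := fun a => by by_cases h : a ∈ B <;> simp [ψ, h]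
  let Rd : Subgroup Γ :=
    { carrier := {y | y ∈ E ∧ ∀ x ∈ E, ⁅x, y⁆ ∈ B}
      mul_mem' := fun {a b} ha hb => ⟨E.mul_mem ha.1 hb.1, fun x hx => by
        rw [cmul_right (cc ha.1 (cm hx hb.1))]; exact B.mul_mem (ha.2 x hx) (hb.2 x hx)⟩
      one_mem' := ⟨E.one_mem, fun x _ => by simp⟩
      inv_mem' := fun {a} ha => ⟨E.inv_mem ha.1, fun x hx => by
        have := cmul_right (w := x) (cc ha.1 (cm hx (E.inv_mem ha.1)))
        rw [mul_inv_cancel, commutatorElement_one_right, eq_comm, mul_eq_one_iff_eq_inv'] at this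
        rw [this]; exact B.inv_mem (ha.2 x hx)⟩ }
  refine ⟨Rd, fun y hy => hy.1, fun y => Iff.rfl, ?_⟩
  haveI := Fintype.ofFinite E
  haveI := Fintype.ofFinite Rd
  have em : ∀ {x y}, x ∈ E → y ∈ E →
      ψ (x⁻¹ * y * (x⁻¹ * y)) = ψ (x * x) * ψ (y * y) * ψ ⁅x, y⁆ := fun {x y} hx hy => by
    have : x⁻¹ * y * (x⁻¹ * y) = (x * x)⁻¹ * (⁅x, y⁆ * (y * y)) := by group
    rw [this, ψm (A.inv_mem (hs x hx)) (A.mul_mem (cm hx hy) (hs y hy)), ψm (cm hx hy) (hs y hy)]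
    simp only [ψ, inv_mem_iff]; ring
  have hS : (Nat.card {x // x ∈ E ∧ x * x ∈ B} : ℤ) - Nat.card {x // x ∈ E ∧ x * x ∉ B} =
      ∑ x : E, ψ (x * x) := by
    simp only [ψ, Finset.sum_ite, Finset.sum_const, ← Fintype.card_subtype, ← Nat.card_eq_fintype_card,
      Nat.card_congr (Equiv.subtypeSubtypeEquivSubtypeInter (· ∈ E) fun x => x * x ∈ B).symm,
      Nat.card_congr (Equiv.subtypeSubtypeEquivSubtypeInter (· ∈ E) fun x => x * x ∉ B).symm]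
    simp [sub_eq_add_neg]
  have h2 : (∑ x : E, ψ (x * x)) ^ 2 = #|E| * ∑ y : Rd, ψ (y * y) := by
    calc _ = ∑ x : E, ∑ y : E, ψ (y * y) * ψ ⁅(x : Γ), (y : Γ)⁆ := by
          rw [sq, Finset.sum_mul]
          refine Finset.sum_congr rfl fun x _ => ?_
          rw [← Fintype.sum_equiv (Equiv.mulLeft x⁻¹) (fun y : E => ψ (((x⁻¹ * y : E) : Γ) * (x⁻¹ * y : E)))
            (fun y => ψ (y * y)) fun _ => rfl, Finset.mul_sum]
          refine Finset.sum_congr rfl fun y _ => ?_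
          rw [coe_mul, coe_inv, em x.2 y.2, ← mul_assoc, ← mul_assoc, ψs, one_mul]
      _ = ∑ y : E, if (y : Γ) ∈ Rd then #|E| * ψ (y * y) else 0 := by
          rw [Finset.sum_comm]
          refine Finset.sum_congr rfl fun y _ => ?_
          rw [← Finset.mul_sum]
          rcases sum_hom_int (fun x : E => ψ ⁅(x : Γ), (y : Γ)⁆) (fun a b => by
            simp only [coe_mul]
            rw [cmul_left (cc a.2 (cm b.2 y.2)), ψm (cm b.2 y.2) (cm a.2 y.2), mul_comm]) with ⟨h1, h3⟩ | ⟨h1, a, h3⟩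
          · rw [h1, if_pos ⟨y.2, fun x hx => ψ1.1 (h3 ⟨x, hx⟩)⟩, Nat.card_eq_fintype_card, mul_comm]
          · rw [h1, if_neg fun h => h3 (ψ1.2 (h.2 a a.2)), mul_zero]
      _ = _ := by
          rw [← Finset.sum_filter, Finset.mul_sum]
          exact Finset.sum_bij (fun y hy => ⟨y, (Finset.mem_filter.1 hy).2⟩) (by simp)
            (fun a _ b _ e => Subtype.ext (congrArg (fun y : Rd => y.1) e))
            (fun b _ => ⟨⟨b, b.2.1⟩, by simp, rfl⟩) fun _ _ => rfl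
  rcases sum_hom_int (fun y : Rd => ψ (y * y)) (fun a b => by
    have := em (E.inv_mem a.2.1) b.2.1
    rw [inv_inv, ψ1.2 (b.2.2 _ (E.inv_mem a.2.1)), mul_one, ← mul_inv_rev] at this
    simpa only [coe_mul, ψ, inv_mem_iff] using this) with ⟨h1, -⟩ | ⟨h1, a, h3⟩
  · left; rw [hS, h2, h1, Nat.card_eq_fintype_card (α := Rd)]
  · right
    rw [h1, mul_zero, sq_eq_zero_iff, ← hS, sub_eq_zero] at h2
    exact ⟨h2, a, a.2, fun h => h3 (ψ1.2 h)⟩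

end Cfsg.Agent.Fl
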