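import Cfsg.Agent.Fl.C0
import Cfsg.Agent.Fl.Gauss
import Cfsg.Agent.FT.B9

/-! Slice C2 of `S5277`, part a: one configuration. -/

set_option autoImplicit false
set_option linter.unusedSectionVars false

namespace Cfsg.Agent.Fl

open Subgroup Cfsg.Agent.H1 Cfsg.Agent.L Cfsg.Agent.FT Cfsg.Agent.FT.B9
open scoped Pointwise commutatorElement

variable {Γ : Type*} [Group Γ] [Finite Γ] {p : ℕ} {G R R' Y E A M X P Q H L : Subgroup Γ} {a c e f g t x y : Γ}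

theorem PCl.conj (h : PCl p H) (hp : p.Prime) (g : Γ) : PCl p (g ⋆ H) := by
  obtain ⟨P, h1, h2⟩ := h
  exact ⟨g ⋆ P, sylow_conj hp h1 g, conj_norm g P ▸ conj_mono g h2⟩

theorem Thin.conj (h : Thin G R X) (g : Γ) : Thin (g ⋆ G) (g ⋆ R) (g ⋆ X) :=
  ⟨conj_mono g h.le, pgroup_conj h.two g, conj_norm g X ▸ conj_mono g h.nr, by rw [← conj_comm, h.cm],
    conj_ne_bot g h.ne, conj_cent g X ▸ conj_mono g h.ab⟩

theorem Thin.of_conj (h : Thin (g ⋆ G) (g ⋆ R) (g ⋆ X)) : Thin G R X := by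
  simpa using h.conj g⁻¹

theorem ex_conj (g : Γ) (H : Subgroup Γ) : ∃ K, H = g ⋆ K := ⟨g⁻¹ ⋆ H, by simp⟩

theorem Core.conj' (h : Core p G R) (g : Γ) : Core p (g ⋆ G) (g ⋆ R) where
  pp := h.pp
  p2 := h.p2
  rp := by rw [card_conj]; exact h.rp
  r2 := by rw [card_conj]; exact h.r2
  top := by rw [← conj_sup, h.top, conj_top]
  nG := conj_norm g G ▸ conj_mono g h.nG
  cop := by rw [card_conj, card_conj]; exact h.cop
  simple := by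
    haveI := h.simple
    rw [conj_eq_map]
    exact (G.equivMapOfInjective _ (conj_inj g)).symm.isSimpleGroup
  gen := by rw [← conj_comm, h.gen]
  np := fun e => h.np (inv_conj_conj g G ▸ pgroup_conj e g⁻¹)
  pC := by rw [← conj_cent, ← conj_inf, card_conj]; exact h.pC
  pcl := fun H h1 h2 => by
    obtain ⟨K, rfl⟩ := ex_conj g H
    rw [← conj_norm, conj_le_conj_iff] at h2
    exact (h.pcl K (conj_lt_conj_iff.1 h1) h2).conj h.pp g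
  odd := fun H h1 h2 h3 h4 => by
    obtain ⟨K, rfl⟩ := ex_conj g H
    rw [← conj_norm, conj_le_conj_iff] at h2
    rw [card_conj] at h3 h4
    rw [← conj_cent, conj_le_conj_iff]
    exact h.odd K (conj_le_conj_iff.1 h1) h2 h3 h4
  spec := fun H h1 h2 h3 h4 => by
    obtain ⟨K, rfl⟩ := ex_conj g H
    rw [← conj_norm, conj_le_conj_iff] at h3
    rw [← conj_comm, conj_eq_conj_iff] at h4
    obtain ⟨a1, a2, a3, a4⟩ := h.spec K (conj_le_conj_iff.1 h1) (inv_conj_conj g K ▸ pgroup_conj h2 g⁻¹) h3 h4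
    rw [← conj_cent, ← conj_cent, ← conj_inf, ← conj_comm, conj_le_conj_iff, conj_le_conj_iff]
    refine ⟨a1, fun x hx => ?_, a3, fun x hx => ?_⟩
    · obtain ⟨y, hy, rfl⟩ := mem_conj'.1 hx
      rw [mem_conj]
      convert a2 y hy using 1
      group
    · obtain ⟨y, hy, rfl⟩ := mem_conj'.1 hx
      rw [show g * y * g⁻¹ * (g * y * g⁻¹) = g * (y * y) * g⁻¹ by group, a4 y hy]
      group
  thinC := fun H h1 => by
    obtain ⟨K, rfl⟩ := ex_conj g H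
    rw [← conj_cent, ← conj_inf, ← conj_comm, conj_le_conj_iff]
    exact h.thinC K h1.of_conj
  thinN := fun H h1 => by
    obtain ⟨K, rfl⟩ := ex_conj g H
    rw [← conj_cent, ← conj_cent, ← conj_norm, ← conj_inf, ← conj_inf, conj_le_conj_iff]
    exact h.thinN K h1.of_conj

theorem CE.conj (h : CE p G R Y E A M) (hg : g ∈ G) : CE p G (g ⋆ R) (g ⋆ Y) (g ⋆ E) (g ⋆ A) (g ⋆ M) := by
  have e := conj_of_mem hg
  refine ⟨e ▸ h.toCore.conj' g, sylow_conj_mem Nat.prime_two h.syl hg, conj_norm g Y ▸ conj_mono g h.nY,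
    by rw [← conj_comm, h.eE], by rw [← conj_cent, ← conj_inf, h.eA],
    by rw [← conj_norm, h.eM, conj_inf, e], conj_ne_bot g h.ne, e ▸ conj_lt_conj_iff.2 h.lt,
    fun H h1 h2 h3 => ?_⟩
  obtain ⟨K, rfl⟩ := ex_conj g H
  rw [← conj_norm, conj_le_conj_iff] at h2
  rw [← e] at h1
  rw [← conj_comm, conj_le_conj_iff, conj_eq_conj_iff, card_conj]
  exact h.uni K (conj_lt_conj_iff.1 h1) h2 (conj_le_conj_iff.1 h3)

theorem Core.sd (h : Core p G R) : SDProd G R ⊤ :=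
  h.top ▸ SDProd.mk_sup h.nG (inf_eq_bot_of_coprime' h.cop.symm)

theorem Core.conjR (h : Core p G R) (h' : Core p G R') (h1 : R ≤ L) (h2 : R' ≤ L) : ∃ k ∈ G ⊓ L, k ⋆ R = R' :=
  (h.sd.inf_left h1).exists_conj_eq (h'.sd.inf_left h2) (h.cop' inf_le_left).symm (Or.inr h.sol)

theorem Core.dec (h : Core p G R) (hG : H ≤ G) (hR : R ≤ 𝐍(H)) (hx : x ∈ H) :
    ∃ n ∈ ⁅H, R⁆, ∃ c ∈ H ⊓ 𝐂(R), x = n * c :=
  exists_mul_centralizer_commutator hR (h.cop' hG) (Or.inl h.sol) hx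

theorem Core.cc (h : Core p G R) (hG : H ≤ G) (hR : R ≤ 𝐍(H)) : ⁅⁅H, R⁆, R⁆ = ⁅H, R⁆ :=
  commutator_commutator_eq hR (h.cop' hG) (Or.inl h.sol)

theorem Core.thin_inf (h : Core p G R) (hX : Thin G R X) (hx : x ∈ X) (hc : x ∈ 𝐂(R)) : x = 1 := by
  haveI := comm_iff_le_cent.2 hX.ab
  have := inf_centralizer_inf_commutator_eq_bot hX.nr (h.cop' hX.le)
  rw [hX.cm] at this
  exact (mem_bot.1 (this ▸ (⟨⟨hx, hc⟩, hx⟩ : x ∈ X ⊓ 𝐂(R) ⊓ X)))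

theorem Core.thin_norm (h : Core p G R) (hX : Thin G R X) (h1 : X ≤ Q) (h2 : Q ≤ G ⊓ 𝐂(X)) : R ≤ 𝐍(Q) :=
  comm_le_left_iff.1 (((commutator_mono h2 le_rfl).trans (h.thinC X hX)).trans h1)

theorem Core.thin_le (h : Core p G R) (hX : Thin G R X) (h1 : Q ≤ G ⊓ 𝐂(X)) (h2 : ⁅Q, R⁆ = Q) : Q ≤ X :=
  h2.ge.trans ((commutator_mono h1 le_rfl).trans (h.thinC X hX))

theorem Core.cent_lt (h : Core p G R) (ha : a ∈ G) (h1 : a ≠ 1) (h2 : a * a = 1) : G ⊓ 𝐂[a] < G := by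
  refine lt_of_le_of_ne inf_le_left fun e => ?_
  have h3 : IsPGroup 2 (zpowers a) := by
    refine pgroup_of_card_prime ?_
    rw [Nat.card_zpowers]
    exact orderOf_eq_prime (by rw [pow_two, h2]) h1
  exact (h.norm_lt (h.lt_of_two (zpowers_le.2 ha) h3) (ne_bot_of_mem (mem_zpowers a) h1)).ne
    (inf_eq_left.2 (le_norm_zpowers_of_cent (inf_eq_left.1 e)))

theorem norm_cent1 (hG : R ≤ 𝐍(H)) (hc : c ∈ 𝐂(R)) : R ≤ 𝐍(H ⊓ 𝐂[c]) :=
  le_normalizer_inf hG ((le_cent1_iff.2 hc).trans le_normalizer)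

namespace CE

theorem EY (h : CE p G R Y E A M) : E ≤ Y := h.eE ▸ comm_le_left h.nY
theorem EG (h : CE p G R Y E A M) : E ≤ G := h.EY.trans h.syl.le
theorem two (h : CE p G R Y E A M) : IsPGroup 2 E := IsPGroup.le' h.syl.isPGroup h.EY
theorem nE (h : CE p G R Y E A M) : R ≤ 𝐍(E) := h.eE ▸ right_le_norm_comm Y R
theorem ER (h : CE p G R Y E A M) : ⁅E, R⁆ = E := h.eE ▸ h.toCore.cc h.syl.le h.nY
theorem AE (h : CE p G R Y E A M) : A ≤ E := h.eA ▸ inf_le_left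
theorem AR (h : CE p G R Y E A M) : A ≤ 𝐂(R) := h.eA ▸ inf_le_right
theorem memA (h : CE p G R Y E A M) (h1 : x ∈ E) (h2 : x ∈ 𝐂(R)) : x ∈ A := h.eA ▸ ⟨h1, h2⟩
theorem AC (h : CE p G R Y E A M) : A ≤ 𝐂(E) := h.eA ▸ (h.spec E h.EG h.two h.nE h.ER).1
theorem ac (h : CE p G R Y E A M) (ha : a ∈ A) (hx : x ∈ E) : x * a = a * x := mem_cent.1 (h.AC ha) x hx
theorem sq (h : CE p G R Y E A M) (hx : x ∈ E) : x * x ∈ A :=
  h.memA (E.mul_mem hx hx) ((h.spec E h.EG h.two h.nE h.ER).2.1 x hx)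
theorem cm (h : CE p G R Y E A M) (hx : x ∈ E) (hy : y ∈ E) : ⁅x, y⁆ ∈ A :=
  h.memA (commEl_mem hx hy) ((h.spec E h.EG h.two h.nE h.ER).2.2.1 (commutator_mem_commutator hx hy))
theorem sqA (h : CE p G R Y E A M) (ha : a ∈ A) : a * a = 1 :=
  (h.spec E h.EG h.two h.nE h.ER).2.2.2 a (h.eA ▸ ha)
theorem MG (h : CE p G R Y E A M) : M ≤ G := h.lt.le
theorem MN (h : CE p G R Y E A M) : M ≤ 𝐍(E) := h.eM ▸ inf_le_right
theorem EM (h : CE p G R Y E A M) : E ≤ M := h.eM ▸ le_inf h.EG le_normalizer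
theorem nM (h : CE p G R Y E A M) : R ≤ 𝐍(M) :=
  h.eM ▸ le_normalizer_inf h.nG (h.nE.trans (norm_le_norm_norm E))
theorem EA (h : CE p G R Y E A M) : E ≤ 𝐍(A) := (le_cent_symm h.AC).trans (cent_le_norm A)
theorem RA (h : CE p G R Y E A M) : R ≤ 𝐍(A) := (le_cent_symm h.AR).trans (cent_le_norm A)

theorem decM (h : CE p G R Y E A M) (ht : t ∈ M) : ∃ e ∈ E, ∃ c ∈ M ⊓ 𝐂(R), t = e * c := by
  have := h.toCore.dec h.MG h.nM ht
  rwa [(h.uni M h.lt h.nM h.EM).2.1] at this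

theorem MA (h : CE p G R Y E A M) : M ≤ 𝐍(A) := fun t ht => by
  obtain ⟨e, he, c, hc, rfl⟩ := h.decM ht
  refine mul_mem (h.EA he) ?_
  rw [h.eA]
  exact le_normalizer_inf (zpowers_le.2 (h.MN hc.1)) (zpowers_le.2 (le_normalizer hc.2)) (mem_zpowers c)

theorem uniC (h : CE p G R Y E A M) (ha : a ∈ A) (h1 : a ≠ 1) : G ⊓ 𝐂[a] ≤ M ∧ ⁅G ⊓ 𝐂[a], R⁆ = E := by
  have := h.uni _ (h.cent_lt (h.EG (h.AE ha)) h1 (h.sqA ha)) (norm_cent1 h.nG (h.AR ha))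
    (le_inf h.EG (le_cent1_iff.2 (h.AC ha)))
  exact ⟨this.1, this.2.1⟩

theorem memM (h : CE p G R Y E A M) (ha : a ∈ A) (h1 : a ≠ 1) (hx : x ∈ G) (hc : x * a = a * x) : x ∈ M :=
  (h.uniC ha h1).1 ⟨hx, mem_cent1.2 hc⟩

/-- Lemma N -/
theorem uniN (h : CE p G R Y E A M) (hQ : Q < G) (h1 : Q ≠ ⊥) (hR : R ≤ 𝐍(Q)) (hE : E ≤ 𝐍(Q)) :
    G ⊓ 𝐍(Q) ≤ M ∧ ⁅G ⊓ 𝐍(Q), R⁆ = E := by
  have := h.uni _ (h.norm_lt hQ h1) (le_normalizer_inf h.nG (hR.trans (norm_le_norm_norm Q))) (le_inf h.EG hE)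
  exact ⟨this.1, this.2.1⟩

/-- the homomorphism trick -/
theorem hom (h : CE p G R Y E A M) (hP : P ≤ E) (hR : R ≤ 𝐍(P)) (hc : c ∈ 𝐂(R)) (hm : ∀ x ∈ P, ⁅x, c⁆ ∈ A) :
    ⁅P, R⁆ ≤ 𝐂[c] := by
  refine commutator_le.2 fun x hx r hr => mem_cent1.2 ?_
  have h1 := mem_cent.1 hc r hr
  have h2 := mem_cent.1 (h.AR (hm x hx)) r hr
  have h3 := h.ac (hm x hx) (hP (commEl_mem_left hx (hR hr)))
  have h4 : x * c = ⁅x, c⁆ * c * x := by simp only [commutatorElement_def]; group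
  generalize ⁅x, c⁆ = b at h2 h3 h4
  have h5 : x⁻¹ * b * c = c * x⁻¹ := by
    rw [mul_assoc, eq_comm, ← mul_inv_eq_iff_eq_mul.2 h4]; group
  have h6 : r⁻¹ * c = c * r⁻¹ := by rw [inv_mul_eq_iff_eq_mul, ← mul_assoc, h1]; group
  have h7 : r⁻¹ * b = b * r⁻¹ := by rw [inv_mul_eq_iff_eq_mul, ← mul_assoc, h2]; group
  apply mul_left_cancel (a := b)
  rw [← mul_assoc, ← h3]
  simp only [commutatorElement_def]
  calc x * r * x⁻¹ * r⁻¹ * b * c = x * r * (x⁻¹ * (r⁻¹ * b) * c) := by group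
    _ = x * r * (x⁻¹ * b * (r⁻¹ * c)) := by rw [h7]; group
    _ = x * (r * (x⁻¹ * b * c)) * r⁻¹ := by rw [h6]; group
    _ = x * (r * c) * x⁻¹ * r⁻¹ := by rw [h5]; group
    _ = (x * c) * r * x⁻¹ * r⁻¹ := by rw [h1]; group
    _ = _ := by rw [h4]; group

theorem cm_iff (h : CE p G R Y E A M) (he : e ∈ E) (hx : x ∈ E) : ⁅x, e * c⁆ ∈ A ↔ ⁅x, c⁆ ∈ A := by
  rw [show ⁅x, e * c⁆ = ⁅x, e⁆ * (e * ⁅x, c⁆ * e⁻¹) by simp only [commutatorElement_def]; group,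
    mul_mem_cancel_left (h.cm hx he)]
  exact ((mem_normalizer_iff.1 (h.EA he)) _).symm

theorem nP (h : CE p G R Y E A M) (ht : t ∈ M) : R ≤ 𝐍(E ⊓ commMod A t) := by
  obtain ⟨e, he, c, hc, rfl⟩ := h.decM ht
  refine le_norm_iff.2 fun r hr x hx => ?_
  have h1 := le_norm_iff.1 h.nE r hr x hx.1
  refine ⟨h1, h.EA h1, (h.cm_iff he h1).2 ?_⟩
  have h2 := le_norm_iff.1 h.RA r hr _ ((h.cm_iff he hx.1).1 hx.2.2)
  have h3 : r * c * r⁻¹ = c := by rw [mem_cent.1 hc.2 r hr]; group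
  rw [← h3, ← conjugate_commutatorElement]
  exact h2

theorem dec2 (h : CE p G R Y E A M) (ht : t ∈ M) (h2 : t * t = 1) :
    ∃ x ∈ E, x⁻¹ * t ∈ 𝐂(R) ∧ x * t = t * x := by
  obtain ⟨e, he, c, hc, rfl⟩ := h.decM ht
  have h3 : c * c ∈ A := by
    refine h.memA ?_ (mul_mem hc.2 hc.2)
    have : c * c = e⁻¹ * (c⁻¹ * e⁻¹ * c)  := by
      rw [eq_inv_mul_iff_mul_eq, ← mul_assoc, mul_left_inj, eq_comm, ← mul_inv_rev, inv_eq_iff_mul_eq_one, h2]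
    rw [this]
    exact mul_mem (inv_mem he) (conj_mem_of_mem_normalizer' (h.MN hc.1) (inv_mem he))
  have h4 : ⁅e, c⁆ ∈ A := by
    have : ⁅e, c⁆ = e * c * (e * c) * (c⁻¹ * (e * e)⁻¹ * c) * (c * c)⁻¹ := by
      simp only [commutatorElement_def]; group
    rw [this, h2, one_mul]
    exact mul_mem (conj_mem_of_mem_normalizer' (h.MA hc.1) (inv_mem (h.sq he))) (inv_mem h3)
  have hR := h.nP ht
  obtain ⟨x, hx, a, ha, hxa⟩ := h.toCore.dec (inf_le_left.trans h.EG) hR (x := e)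
    ⟨he, h.EA he, (h.cm_iff he he).2 h4⟩
  have h5 := mem_cent1.1 (h.hom inf_le_left hR hc.2 (fun y hy => (h.cm_iff he hy.1).1 hy.2.2) hx)
  have hxE := (comm_le_left hR hx).1
  have h6 := h.ac (h.memA ha.1.1 ha.2) hxE
  refine ⟨x, hxE, ?_, ?_⟩
  · rw [hxa, show x⁻¹ * (x * a * c) = a * c by group]
    exact mul_mem ha.2 hc.2
  · rw [hxa]
    calc x * (x * a * c) = x * (a * x * c) := by rw [h6]
      _ = x * a * (x * c) := by group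
      _ = _ := by rw [h5]; group

theorem thin_of (h : CE p G R Y E A M) (hP : P ≤ E) (hR : R ≤ 𝐍(P)) (hab : P ≤ 𝐂(P)) (hA : ¬ P ≤ A) :
    Thin G R ⁅P, R⁆ := by
  have h1 := comm_le_left hR
  exact ⟨h1.trans (hP.trans h.EG), IsPGroup.le' h.two (h1.trans hP), right_le_norm_comm P R,
    h.toCore.cc (hP.trans h.EG) hR, fun e => hA fun x hx => h.memA (hP hx) (comm_eq_bot_iff.1 e hx),
    h1.trans (hab.trans (cent_anti h1))⟩

theorem thin_dec (h : CE p G R Y E A M) (hX : Thin G R X) (hx : x ∈ E) (hc : x ∈ 𝐂(X)) : x ∈ X ⊔ A := by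
  obtain ⟨n, hn, a, ha, rfl⟩ := h.toCore.dec (inf_le_left.trans h.EG) (le_norm_subcent h.nE hX.nr)
    (x := x) ⟨hx, hc⟩
  exact mul_mem_sup ((commutator_mono (inf_le_inf_right _ h.EG) le_rfl).trans (h.thinC X hX) hn)
    (h.memA ha.1.1 ha.2)

theorem XA_cent (h : CE p G R Y E A M) (hX : Thin G R X) (hE : X ≤ E) : X ⊔ A ≤ 𝐂(X ⊔ A) := by
  rw [cent_sup]
  exact sup_le (le_inf hX.ab (hE.trans (le_cent_symm h.AC)))
    (le_inf (h.AC.trans (cent_anti hE)) (h.AC.trans (cent_anti h.AE)))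

theorem zent_le (h : CE p G R Y E A M) (hP : P ≤ E) (hR : R ≤ 𝐍(P)) (hab : ¬ P ≤ 𝐂(P)) : P ⊓ 𝐂(P) ≤ A := by
  by_contra hA
  have hZ := le_norm_subcent hR hR
  have hX := h.thin_of (inf_le_left.trans hP) hZ (inf_le_right.trans (cent_anti inf_le_left)) hA
  have h1 := comm_le_left hZ
  have h2 : P ≤ ⁅P ⊓ 𝐂(P), R⁆ ⊔ A := fun x hx =>
    h.thin_dec hX (hP hx) (le_cent_symm (h1.trans inf_le_right) hx)
  exact hab (h2.trans ((h.XA_cent hX (h1.trans (inf_le_left.trans hP))).trans (cent_anti h2)))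

theorem zE (h : CE p G R Y E A M) (hA : A ≠ ⊥) (hx : x ∈ E) (hc : x ∈ 𝐂(E)) : x ∈ A := by
  refine h.zent_le le_rfl h.nE (fun hab => hA ?_) ⟨hx, hc⟩
  exact eq_bot_iff.2 fun a ha => mem_bot.2
    (h.thin_inf ⟨h.EG, h.two, h.nE, h.ER, h.ne, hab⟩ (h.AE ha) (h.AR ha))

theorem XA_norm (h : CE p G R Y E A M) (hE : X ≤ E) : E ≤ 𝐍(X ⊔ A) :=
  le_norm_of_der1_le (sup_le hE h.AE) (commutator_le.2 fun _ hx _ hy => mem_sup_right (h.cm hx hy))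

theorem comm_XA (h : CE p G R Y E A M) (hX : Thin G R X) (hE : X ≤ E) : ⁅X ⊔ A, R⁆ ≤ X :=
  (commutator_mono (le_inf ((sup_le hE h.AE).trans h.EG) ((h.XA_cent hX hE).trans (cent_anti le_sup_left)))
    le_rfl).trans (h.thinC X hX)

/-- Lemma NX -/
theorem nx (h : CE p G R Y E A M) (hX : Thin G R X) (hE : X ≤ E) (hy : y ∈ M) {w : Γ} (hw : w ∈ X ⊔ A)
    (hwA : w ∉ A) (hyw : y * w * y⁻¹ ∈ X ⊔ A) (hx : x ∈ X) : ⁅x, y⁆ ∈ A := by
  obtain ⟨e, he, c, hc, rfl⟩ := h.decM hy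
  have eR := conj_of_mem_norm (cent_le_norm R hc.2)
  have eA := conj_of_mem_norm (h.MA hc.1)
  have hX' : Thin G R (c ⋆ X) := by
    have := hX.conj c
    rwa [eR, conj_of_mem (h.MG hc.1)] at this
  have hE' : c ⋆ X ≤ E := conj_le_of_mem_norm (h.MN hc.1) hE
  have h1 : c * w * c⁻¹ ∈ X ⊔ A := by
    have := conj_mem_of_mem_normalizer' (h.XA_norm hE he) hyw
    convert this using 1
    group
  have h2 : c * w * c⁻¹ ∈ c ⋆ X ⊔ A := by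
    rw [← eA, ← conj_sup]; exact conj_mem_conj c hw
  have hD : R ≤ 𝐍((X ⊔ A) ⊓ (c ⋆ X ⊔ A)) :=
    le_normalizer_inf (le_normalizer_sup hX.nr h.RA) (le_normalizer_sup hX'.nr h.RA)
  have hT := h.thin_of (inf_le_left.trans (sup_le hE h.AE)) hD
    (inf_le_left.trans ((h.XA_cent hX hE).trans (cent_anti inf_le_left)))
    (fun e => hwA (conj_mem_conj_iff.1 (eA.symm ▸ e ⟨h1, h2⟩)))
  have h3 := (commutator_mono inf_le_left le_rfl : ⁅(X ⊔ A) ⊓ (c ⋆ X ⊔ A), R⁆ ≤ _).trans (h.comm_XA hX hE)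
  have h4 := (commutator_mono inf_le_right le_rfl : ⁅(X ⊔ A) ⊓ (c ⋆ X ⊔ A), R⁆ ≤ _).trans (h.comm_XA hX' hE')
  have h5 := (h.thin_le hT (le_inf hX.le (hX.ab.trans (cent_anti h3))) hX.cm).trans h4
  have h6 : c ∈ 𝐍(X) := conj_eq_self_iff.1 (eq_of_le_of_card_le h5 (card_conj _ _).le).symm
  have h7 := mem_cent.1 (h.thinN X hX ⟨⟨h.MG hc.1, hc.2⟩, h6⟩) x hx
  rw [h.cm_iff he (hE hx), commEl_eq_one_iff.2 h7]
  exact A.one_mem

end CE

end Cfsg.Agent.Fl
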