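import Cfsg.Agent.Fl.C2a

/-! Slice C2 of `S5277`, part b: counting lemmas. -/

set_option autoImplicit false
set_option linter.unusedSectionVars false

namespace Cfsg.Agent.Fl

open Subgroup Cfsg.Agent.H1 Cfsg.Agent.L Cfsg.Agent.FT Cfsg.Agent.FT.B9
open scoped Pointwise commutatorElement

variable {Γ : Type*} [Group Γ] [Finite Γ] {p : ℕ} {G R R' Y E A M X P Q H L B T F : Subgroup Γ}
  {a c e f g t x y w : Γ}

theorem comm_eq_iff : ⁅x, w⁆ = ⁅y, w⁆ ↔ x⁻¹ * y ∈ 𝐂[w] := by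
  rw [mem_cent1, commutatorElement_def, commutatorElement_def, mul_left_inj]
  constructor
  · intro h
    calc x⁻¹ * y * w = x⁻¹ * (y * w * y⁻¹) * y := by group
      _ = _ := by rw [← h]; group
  · intro h
    calc x * w * x⁻¹ = x * (w * (x⁻¹ * y)) * y⁻¹ := by group
      _ = _ := by rw [← h]; group

theorem card_le_comm (h : ∀ x ∈ P, ⁅x, w⁆ ∈ B) : #|P| ≤ #|B| * #|P ⊓ 𝐂[w]| := by
  rw [card_eq_card_quotient_mul_card_subgroup ((𝐂[w]).subgroupOf P), card_subgroupOf, inf_comm]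
  refine Nat.mul_le_mul_right _ (Nat.card_le_card_of_injective
    (fun q => (⟨⁅(q.out : Γ), w⁆, h _ q.out.2⟩ : B)) fun q q' e => ?_)
  rw [← q.out_eq, ← q'.out_eq]
  exact QuotientGroup.eq.2 (comm_eq_iff.1 (congrArg Subtype.val e))

theorem surj_comm (h : ∀ x ∈ P, ⁅x, w⁆ ∈ B) (h1 : P ⊓ 𝐂[w] = ⊥) (hc : #|B| ≤ #|P|) {b : Γ} (hb : b ∈ B) :
    ∃ x ∈ P, ⁅x, w⁆ = b := by
  have hi : Function.Injective fun x : P => (⟨⁅(x : Γ), w⁆, h _ x.2⟩ : B) := fun x y e =>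
    Subtype.ext (inv_mul_eq_one.1 (mem_bot.1 (h1 ▸ (⟨P.mul_mem (P.inv_mem x.2) y.2,
      comm_eq_iff.1 (congrArg Subtype.val e)⟩ : (x : Γ)⁻¹ * y ∈ P ⊓ 𝐂[w]))))
  obtain ⟨x, hx⟩ := (hi.bijective_of_nat_card_le hc).2 ⟨b, hb⟩
  exact ⟨x, x.2, congrArg Subtype.val hx⟩

theorem comm_of_sq (hx : x * x = 1) (hy : y * y = 1) (h : x * y * (x * y) = 1) : x * y = y * x := by
  rw [← inv_eq_of_mul_eq_one_right h, mul_inv_rev, inv_eq_of_mul_eq_one_right hx, inv_eq_of_mul_eq_one_right hy]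

theorem cent_of_sq (h : ∀ f ∈ F, f * f = 1) : F ≤ 𝐂(F) :=
  le_cent_iff.2 fun a ha b hb => comm_of_sq (h b hb) (h a ha) (h _ (mul_mem hb ha))

namespace CE

/-- L1 -/
theorem l1 (h : CE p G R Y E A M) (h1 : A ≤ T) (h2 : T ≤ F) (h3 : F ≤ P) (h4 : P ≤ E) (hR : R ≤ 𝐍(P))
    (hB : ∀ x ∈ P, ∀ w ∈ T, ⁅x, w⁆ ∈ B) (hc : #|B| * #|A| ≤ #|T|) (hT : ¬ T ≤ A) (hF : ∀ f ∈ F, f * f = 1)
    (hn : ∀ x ∈ P, ∀ w ∈ T, x * w = w * x → x ∈ F ∨ w ∈ A) : R ≤ 𝐍(F) := by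
  intro r hr
  by_contra hrF
  have hF1 : r ⋆ F ≤ P := conj_le_of_mem_norm (hR hr) h3
  have hsq : ∀ {K : Subgroup Γ}, (∀ f ∈ K, f * f = 1) → ∀ f ∈ r ⋆ K, f * f = 1 := fun hK f hf => by
    obtain ⟨y, hy, rfl⟩ := mem_conj'.1 hf
    rw [show r * y * r⁻¹ * (r * y * r⁻¹) = r * (y * y) * r⁻¹ by group, hK y hy]; group
  have hA1 : A ≤ r ⋆ F := conj_of_mem_norm (h.RA hr) ▸ conj_mono r (h1.trans h2)
  obtain ⟨y, hy, hyF⟩ := SetLike.not_le_iff_exists.1 fun e => hrF (mem_norm_of_conj_le (g := r) e)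
  obtain ⟨w, hw, hwA⟩ := SetLike.not_le_iff_exists.1 hT
  have e1 : T ⊓ (F ⊓ r ⋆ F) ≤ A := fun v hv =>
    (hn y (hF1 hy) v hv.1 (mem_cent.1 (cent_of_sq (hsq hF) hv.2.2) y hy)).resolve_left hyF
  have c1 : #|P| ≤ #|B| * #|F| := (card_le_comm fun x hx => hB x hx w hw).trans (Nat.mul_le_mul_left _
    (card_le_of_le' fun x hx => (hn x hx.1 w hw (mem_cent1.1 hx.2)).resolve_right hwA))
  have c2 : #|B| * #|F ⊓ r ⋆ F| ≤ #|F| := by
    refine Nat.le_of_mul_le_mul_right ?_ (Nat.card_pos (α := A))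
    calc #|B| * #|F ⊓ r ⋆ F| * #|A| = #|B| * #|A| * #|F ⊓ r ⋆ F| := by ring
      _ ≤ #|T| * #|F ⊓ r ⋆ F| := Nat.mul_le_mul_right _ hc
      _ ≤ _ := (cml h2 inf_le_left).trans (Nat.mul_le_mul_left _ (card_le_of_le' e1))
  have hp : SetProd F (r ⋆ F) P := by
    refine SetProd.of_card h3 hF1 ?_
    rw [card_conj]
    calc #|P| * #|F ⊓ r ⋆ F| ≤ #|B| * #|F| * #|F ⊓ r ⋆ F| := Nat.mul_le_mul_right _ c1
      _ = #|F| * (#|B| * #|F ⊓ r ⋆ F|) := by ring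
      _ ≤ _ := Nat.mul_le_mul_left _ c2
  have e2 : F ⊓ r ⋆ F ≤ A := by
    refine le_trans (le_inf (inf_le_left.trans h3) ?_) (h.zent_le h4 hR fun e => ?_)
    · rw [← hp.sup, cent_sup]
      exact inf_le_inf (cent_of_sq hF) (cent_of_sq (hsq hF))
    · exact (hn y (hF1 hy) w hw (mem_cent.1 (e (h3 (h2 hw))) y (hF1 hy))).elim hyF hwA
  have e3 : T = F := by
    refine eq_of_le_of_card_le h2 (le_trans ?_ hc)
    refine Nat.le_of_mul_le_mul_left ?_ (Nat.card_pos (α := F))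
    calc #|F| * #|F| = #|F| * #|r ⋆ F| := by rw [card_conj]
      _ ≤ #|P| * #|F ⊓ r ⋆ F| := cml h3 hF1
      _ ≤ #|B| * #|F| * #|A| := Nat.mul_le_mul c1 (card_le_of_le' e2)
      _ = _ := by ring
  subst e3
  have e4 : ∀ u ∈ r ⋆ r ⋆ T, u ∈ T ∨ u ∈ r ⋆ T := fun u hu => by
    have hs := hsq (hsq hF) u hu
    obtain ⟨f, hf, v, hv, rfl⟩ := hp.2.2 u (conj_le_of_mem_norm (hR hr) hF1 hu)
    rcases hn v (hF1 hv) f hf (comm_of_sq (hF f hf) (hsq hF v hv) hs).symm with h5 | h5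
    · exact Or.inl (mul_mem hf h5)
    · exact Or.inr (mul_mem (hA1 h5) hv)
  by_cases h5 : r ⋆ r ⋆ T ≤ r ⋆ T
  · exact hrF (mem_norm_of_conj_le (conj_le_conj_iff.1 h5))
  obtain ⟨v, hv, hv'⟩ := SetLike.not_le_iff_exists.1 h5
  have h6 : r ⋆ r ⋆ T ≤ T := fun u hu => by
    rcases e4 _ (mul_mem hu hv) with h7 | h7
    · exact (mul_mem_cancel_right ((e4 v hv).resolve_right hv')).1 h7
    · exact (e4 u hu).resolve_right fun h8 => hv' ((mul_mem_cancel_left h8).1 h7)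
  rw [← mul_conj] at h6
  obtain ⟨k, hk⟩ := h.r2
  have h7 : r ^ #|R| = 1 := orderOf_dvd_iff_pow_eq_one.1 (orderOf_dvd_natCard R hr)
  have h8 : r = ((r * r) ^ k)⁻¹ := by
    rw [eq_inv_iff_mul_eq_one, ← pow_two, ← pow_mul, ← pow_succ', ← hk, h7]
  exact hrF (h8 ▸ inv_mem (pow_mem (mem_norm_of_conj_le h6) k))

/-- L2 -/
theorem l2 (h : CE p G R Y E A M) (hM : B ≤ M) (h1 : B ≠ ⊥) (h2 : ∀ t ∈ B, t * t = 1)
    (h3 : ∀ t ∈ B, t ∈ 𝐂(R) → t = 1) (h4 : ∀ t ∈ B, t ≠ 1 → E ⊓ 𝐂[t] ≤ 𝐂(B))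
    (h5 : ∀ f ∈ E ⊓ 𝐂(B), f * f = 1) (hc : #|A ⊓ 𝐂(B)| ≤ #|B|) :
    ∃ X, Thin G R X ∧ X ≤ E ⊓ 𝐂(B) ∧ E ⊓ 𝐂(B) ≤ X ⊔ A := by
  have hab := cent_of_sq h5
  let T0 : Subgroup Γ :=
    { carrier := {x | x ∈ E ⊓ 𝐂(B) ∧ ∃ t ∈ B, x⁻¹ * t ∈ 𝐂(R)}
      one_mem' := ⟨one_mem _, 1, one_mem _, by simp⟩
      mul_mem' := by
        rintro x y ⟨hx, t, ht, e1⟩ ⟨hy, s, hs, e2⟩
        refine ⟨mul_mem hx hy, t * s, mul_mem ht hs, ?_⟩
        have := mul_mem e1 e2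
        rwa [mul_assoc, ← mul_assoc t, mem_cent.1 (inv_mem hy.2) t ht, ← mul_assoc, ← mul_assoc, ← mul_inv_rev,
          mem_cent.1 (hab hx) y hy, mul_assoc] at this
      inv_mem' := by
        rintro x ⟨hx, t, ht, e1⟩
        refine ⟨inv_mem hx, t⁻¹, inv_mem ht, ?_⟩
        have := inv_mem e1
        rwa [mul_inv_rev, mem_cent.1 (inv_mem (inv_mem hx.2)) _ (inv_mem ht)] at this }
  have hT0 : T0 ≤ E ⊓ 𝐂(B) := fun _ hx => hx.1
  have hdec : ∀ t ∈ B, ∃ x ∈ T0, x⁻¹ * t ∈ 𝐂(R) := fun t ht => by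
    by_cases h0 : t = 1
    · exact ⟨1, one_mem _, by simp [h0]⟩
    obtain ⟨x, hx, e1, e2⟩ := h.dec2 (hM ht) (h2 t ht)
    exact ⟨x, ⟨⟨hx, h4 t ht h0 ⟨hx, mem_cent1.2 e2⟩⟩, t, ht, e1⟩, e1⟩
  have hmem : ∀ {K : Subgroup Γ}, K ≤ E → ∀ x ∈ K ⊔ A, ∃ k ∈ K, ∃ a ∈ A, x = k * a := fun hK =>
    (setProd_sup (Or.inr (hK.trans h.EA))).2.2
  set P := E ⊓ ⨅ t : B, commMod A (t : Γ) with hP
  have mP : ∀ x, x ∈ P ↔ x ∈ E ∧ ∀ t ∈ B, ⁅x, t⁆ ∈ A := fun x => by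
    rw [hP, mem_inf, mem_iInf]
    exact ⟨fun e => ⟨e.1, fun t ht => (e.2 ⟨t, ht⟩).2⟩, fun e => ⟨e.1, fun t => ⟨h.EA e.1, e.2 t t.2⟩⟩⟩
  have hRP : R ≤ 𝐍(P) := le_norm_iff.2 fun r hr x hx => (mP _).2 ⟨le_norm_iff.1 h.nE r hr x hx.1, fun t ht =>
    (le_norm_iff.1 (h.nP (hM ht)) r hr x ⟨hx.1, h.EA hx.1, ((mP x).1 hx).2 t ht⟩).2.2⟩
  have hFP : E ⊓ 𝐂(B) ⊔ A ≤ P := sup_le (fun x hx => (mP x).2 ⟨hx.1, fun t ht => by
      rw [commEl_eq_one_iff.2 (mem_cent.1 hx.2 t ht).symm]; exact one_mem _⟩)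
    fun x hx => (mP x).2 ⟨h.AE hx, fun t ht => commEl_mem_left hx (h.MA (hM ht))⟩
  have hsq : ∀ f ∈ E ⊓ 𝐂(B) ⊔ A, f * f = 1 := fun f hf => by
    obtain ⟨k, hk, a, ha, rfl⟩ := hmem inf_le_left f hf
    rw [show k * a * (k * a) = k * (a * k) * a by group, ← h.ac ha hk.1,
      show k * (k * a) * a = k * k * (a * a) by group, h5 k hk, h.sqA ha, one_mul]
  -- elements of `[P, R]` commuting with `x` commute with `t`
  have key : ∀ n ∈ ⁅P, R⁆, ∀ t ∈ B, ∀ x ∈ E, x⁻¹ * t ∈ 𝐂(R) → n * x = x * n → n * t = t * n := by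
    intro n hn t ht x hx e1 e2
    have := mem_cent1.1 (h.hom inf_le_left hRP e1 (fun y hy =>
      (h.cm_iff (c := t) (inv_mem hx) hy.1).2 (((mP y).1 hy).2 t ht)) hn)
    calc n * t = n * x * (x⁻¹ * t) := by group
      _ = x * (n * (x⁻¹ * t)) := by rw [e2, mul_assoc]
      _ = _ := by rw [this]; group
  obtain ⟨t0, ht0, ht1⟩ := exists_mem_ne_one h1
  have hTA : ¬ T0 ⊔ A ≤ A := fun e => by
    obtain ⟨x, hx, e1⟩ := hdec t0 ht0
    exact ht1 (h3 t0 ht0 ((mul_mem_cancel_left (inv_mem (h.AR (e (mem_sup_left hx))))).1 e1))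
  have hN : R ≤ 𝐍(E ⊓ 𝐂(B) ⊔ A) := by
    refine h.l1 (T := T0 ⊔ A) (B := A ⊓ 𝐂(B)) le_sup_right (sup_le_sup_right hT0 A) hFP inf_le_left hRP
      (fun x hx w hw => ?_) ?_ hTA hsq fun x hx w hw e => ?_
    · have hw' := hFP (sup_le_sup_right hT0 A hw)
      refine ⟨h.cm hx.1 hw'.1, mem_cent.2 fun t ht => ?_⟩
      rw [← mul_inv_eq_iff_eq_mul, conjugate_commutatorElement]
      have e1 := comm_mem_symm (((mP x).1 hx).2 t ht)
      have e2 := comm_mem_symm (((mP w).1 hw').2 t ht)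
      rw [show t * x * t⁻¹ = ⁅t, x⁆ * x by simp only [commutatorElement_def]; group,
        show t * w * t⁻¹ = ⁅t, w⁆ * w by simp only [commutatorElement_def]; group]
      have hE := mul_mem (h.AE e1) hx.1
      rw [cmul_right (h.ac e2 (commEl_mem hE hw'.1)).symm, commEl_eq_one_iff.2 (h.ac e2 hE), one_mul,
        cmul_left (h.ac e1 (commEl_mem hx.1 hw'.1)).symm, commEl_eq_one_iff.2 (h.ac e1 hw'.1).symm, mul_one]
    · refine (Nat.mul_le_mul_right _ hc).trans (Nat.le_of_mul_le_mul_right ?_ (Nat.card_pos (α := 𝐂(R))))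
      have c1 := card_set_mul_mul_card_inf B 𝐂(R)
      have c2 := card_set_mul_mul_card_inf (T0 ⊔ A) 𝐂(R)
      have e1 : B ⊓ 𝐂(R) = ⊥ := eq_bot_iff.2 fun t ht => h3 t ht.1 ht.2
      have e2 : (T0 ⊔ A) ⊓ 𝐂(R) = A := le_antisymm
        (fun x hx => h.memA (sup_le (hT0.trans inf_le_left) h.AE hx.1) hx.2) (le_inf le_sup_right h.AR)
      rw [e1, card_bot, mul_one] at c1
      rw [e2] at c2
      rw [← c2, mul_right_comm, ← c1]
      refine Nat.mul_le_mul_right _ (Nat.card_mono (Set.toFinite _) ?_)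
      rintro _ ⟨t, ht, c, hc, rfl⟩
      obtain ⟨x, hx, e3⟩ := hdec t ht
      exact ⟨x, mem_sup_left hx, _, mul_mem e3 hc, by simp only; group⟩
    · obtain ⟨k, ⟨hk, t, ht, e1⟩, a, ha, rfl⟩ := hmem (hT0.trans inf_le_left) w hw
      by_cases h0 : t = 1
      · right
        rw [h0, mul_one, inv_mem_iff] at e1
        exact mul_mem (h.memA hk.1 e1) ha
      left
      obtain ⟨n, hn, b, hb, rfl⟩ := h.toCore.dec (inf_le_left.trans h.EG) hRP hx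
      have hb' := h.memA hb.1.1 hb.2
      have hnE := (comm_le_left hRP hn).1
      refine mul_mem_sup ⟨hnE, h4 t ht h0 ⟨hnE, mem_cent1.2 (key n hn t ht k hk.1 e1 ?_)⟩⟩ hb'
      apply mul_right_cancel (b := a * b)
      calc n * k * (a * b) = n * (k * a * b) := by group
        _ = n * b * (k * a) := by rw [h.ac hb' (mul_mem hk.1 (h.AE ha))]; group
        _ = k * (a * n) * b := by rw [e]; group
        _ = _ := by rw [← h.ac ha hnE]; group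
  have hFE : E ⊓ 𝐂(B) ⊔ A ≤ E := sup_le inf_le_left h.AE
  have hX := h.thin_of hFE hN (cent_of_sq hsq) fun e => hTA ((sup_le_sup_right hT0 A).trans e)
  have hXF := comm_le_left hN
  refine ⟨_, hX, fun n hn => ⟨hFE (hXF hn), mem_cent.2 fun t ht => ?_⟩, fun x hx =>
    h.thin_dec hX hx.1 (cent_anti hXF (cent_of_sq hsq (mem_sup_left hx)))⟩
  obtain ⟨x, hx, e1⟩ := hdec t ht
  exact (key n (commutator_mono hFP le_rfl hn) t ht x hx.1.1 e1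
    (mem_cent.1 (cent_of_sq hsq (mem_sup_left hx.1)) n (hXF hn))).symm

/-- (a) -/
theorem la (h : CE p G R Y E A M) (hf : f ∈ M) (h2 : IsPGroup 2 (zpowers f)) (hc : f ∈ 𝐂(A)) (he : e ∈ E)
    (hn : ⁅e, f⁆ ∉ A) : ∃ X, Thin G R X ∧ X ≤ E ∧ (∀ x ∈ E, ⁅x, f⁆ ∈ A → x ∈ X ⊔ A) ∧
      ∀ x ∈ X ⊔ A, ∃ e ∈ E, ∃ a ∈ A, x = a * ⁅e, f⁆ := by
  have hRP := h.nP hf
  have hfE := h.MN hf
  obtain ⟨d, hd, c, hc', hdc⟩ := h.decM hf
  have hcE := h.MN hc'.1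
  have hcA : c ∈ 𝐂(A) := (mul_mem_cancel_left (le_cent_symm h.AC hd)).1 (hdc ▸ hc)
  have rel : ∀ e ∈ E, ⁅e, f⁆ * ⁅e, c⁆⁻¹ ∈ A := fun e he => by
    have := mul_mem (h.cm he hd) (h.cm hd (commEl_mem_left he hcE))
    convert this using 1
    rw [hdc]; simp only [commutatorElement_def]; group
  let V : Subgroup Γ :=
    { carrier := {x | ∃ e ∈ E, x * ⁅e, c⁆⁻¹ ∈ A}
      one_mem' := ⟨1, one_mem _, by simp⟩
      mul_mem' := by
        rintro x y ⟨a, ha, e1⟩ ⟨b, hb, e2⟩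
        refine ⟨b * a, mul_mem hb ha, ?_⟩
        have h1 := commEl_mem_left ha hcE
        have := mul_mem (mul_mem e1 (conj_mem_of_mem_normalizer (h.EA h1) e2)) (h.cm h1 hb)
        convert this using 1
        simp only [commutatorElement_def]; group
      inv_mem' := by
        rintro x ⟨a, ha, e1⟩
        refine ⟨a, ha, ?_⟩
        have h1 := commEl_mem_left ha hcE
        have := mul_mem (conj_mem_of_mem_normalizer' (h.EA h1) (inv_mem e1)) (inv_mem (h.sq h1))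
        convert this using 1
        group }
  have hVE : V ≤ E := fun x ⟨a, ha, e1⟩ =>
    (mul_mem_cancel_right (inv_mem (commEl_mem_left ha hcE))).1 (h.AE e1)
  have hAV : A ≤ V := fun a ha => ⟨1, one_mem _, by simpa using ha⟩
  have hRV : R ≤ 𝐍(V) := le_norm_iff.2 fun r hr x ⟨a, ha, e1⟩ => ⟨r * a * r⁻¹, le_norm_iff.1 h.nE r hr a ha, by
    have h3 : r * c * r⁻¹ = c := by rw [mem_cent.1 hc'.2 r hr]; group
    rw [← h3, ← conjugate_commutatorElement]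
    convert le_norm_iff.1 h.RA r hr _ e1 using 1
    group⟩
  obtain ⟨v, hv, hvA, hv'⟩ := exists_central_mod (L := E ⊔ zpowers f) (C := V) (N := A)
    (pgroup_nil Nat.prime_two (pgroup_sup h.two h2 (Or.inr (zpowers_le.2 hfE)))) (hVE.trans le_sup_left)
    (sup_le (le_norm_of_der1_le hVE (commutator_le.2 fun _ hx _ hy => hAV (h.cm hx hy)))
      (zpowers_le.2 (mem_norm_of_comm fun a ha => comm_mem_symm ⟨a, hVE ha, rel a (hVE ha)⟩)))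
    fun e1 => hn (e1 ⟨e, he, rel e he⟩)
  have orth : E ⊓ commMod A f ≤ 𝐂(V) := fun x hx => mem_cent.2 fun y ⟨a, ha, e1⟩ => by
    have h3 : ⁅c⁻¹, x⁆ ∈ A := by
      have := conj_mem_of_mem_normalizer' (h.MA hc'.1) ((h.cm_iff hd hx.1).1 (hdc ▸ hx.2.2))
      convert this using 1
      simp only [commutatorElement_def]; group
    have h4 : ⁅x, c * a⁻¹ * c⁻¹⁆ = ⁅x, a⁻¹⁆ := by
      have h5 := h.cm hx.1 (inv_mem ha)
      rw [show x = c * (⁅c⁻¹, x⁆ * x) * c⁻¹ by simp only [commutatorElement_def]; group,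
        ← conjugate_commutatorElement, cmul_left (h.ac h3 (h.AE h5)).symm,
        commEl_eq_one_iff.2 (h.ac h3 (inv_mem ha)).symm, mul_one, ← mem_cent.1 hcA _ h5]
      simp only [commutatorElement_def]; group
    have h5 : ⁅x, ⁅a, c⁆⁆ = 1 := by
      rw [show ⁅a, c⁆ = a * (c * a⁻¹ * c⁻¹) by simp only [commutatorElement_def]; group,
        cmul_right (by rw [h4]; exact h.ac (h.cm hx.1 (inv_mem ha)) ha), h4,
        ← cmul_right (h.ac (h.cm hx.1 (inv_mem ha)) ha)]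
      simp
    rw [← inv_mul_cancel_right y ⁅a, c⁆, mul_assoc, ← commEl_eq_one_iff.1 h5, ← mul_assoc, ← h.ac e1 hx.1]
    group
  have hD := le_normalizer_inf hRV hRP
  have hX := h.thin_of (inf_le_left.trans hVE) hD (inf_le_right.trans (orth.trans (cent_anti inf_le_left)))
    fun e1 => hvA (e1 ⟨hv, hVE hv, h.EA (hVE hv), hv' f (mem_sup_right (mem_zpowers f))⟩)
  have hXV := (comm_le_left hD).trans inf_le_left
  refine ⟨_, hX, hXV.trans hVE, fun x hx e1 => h.thin_dec hX hx (cent_anti hXV (orth ⟨hx, h.EA hx, e1⟩)),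
    fun x hx => ?_⟩
  obtain ⟨a, ha, e1⟩ := sup_le hXV hAV hx
  exact ⟨a, ha, _, mul_mem e1 (inv_mem (rel a ha)), by group⟩

end CE

end Cfsg.Agent.Fl
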