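import Cfsg.Agent.Fl.C2b

/-! Slice C2 of `S5277`, part c: two configurations. -/

set_option autoImplicit false
set_option linter.unusedSectionVars false

namespace Cfsg.Agent.Fl

open Subgroup Cfsg.Agent.H1 Cfsg.Agent.L Cfsg.Agent.FT Cfsg.Agent.FT.B9
open scoped Pointwise commutatorElement

variable {Γ : Type*} [Group Γ] [Finite Γ] {p : ℕ} {G R R' Y E A M Y' E' A' M' X X' : Subgroup Γ}
  {a c e f g t x y w : Γ}

namespace CE

theorem ti (h : CE p G R Y E A M) (h' : CE p G R' Y' E' A' M') (hne : E ≠ E') (ha : a ∈ A) (ha' : a ∈ A') :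
    a = 1 := by
  by_contra h1
  obtain ⟨k, hk, e⟩ := h.toCore.conjR h'.toCore (le_cent1_iff.2 (h.AR ha)) (le_cent1_iff.2 (h'.AR ha'))
  apply hne
  rw [← (h'.uniC ha' h1).2, ← e, ← conj_of_mem hk, ← conj_comm, (h.uniC ha h1).2,
    conj_of_mem_norm (h.MN ((h.uniC ha h1).1 hk))]

theorem c0 (h : CE p G R Y E A M) (h' : CE p G R' Y' E' A' M') (hne : E ≠ E') (ha : a ∈ A) (ha' : a ∈ M')
    (ht : t ∈ A') (ht' : t ∈ M) : a * t = t * a :=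
  commEl_eq_one_iff.1 (h.ti h' hne (commEl_mem_left ha (h.MA ht')) (commEl_mem_right (h'.MA ha') ht))

theorem normQ (h : CE p G R Y E A M) (h' : CE p G R Y' E' A' M') (hne : E ≠ E') (ht : t ∈ A') (ht' : t ∈ M)
    (h1 : t ≠ 1) : E ≤ 𝐍(⁅E ⊓ E', R⁆ ⊔ (A ⊓ M' ⊔ A' ⊓ M)) := by
  have hX : ⁅E ⊓ E', R⁆ ≤ E ⊓ E' := comm_le_left (le_normalizer_inf h.nE h'.nE)
  have hab : ∀ x ∈ E ⊓ E', ∀ y ∈ E ⊓ E', x * y = y * x := fun x hx y hy =>
    commEl_eq_one_iff.1 (h.ti h' hne (h.cm hx.1 hy.1) (h'.cm hx.2 hy.2))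
  have key : ∀ e ∈ E, ∀ s ∈ A' ⊓ M, s ≠ 1 → ∃ n ∈ ⁅E ⊓ E', R⁆, ∃ a ∈ A ⊓ M', ⁅e, s⁆ = n * a := by
    intro e he s hs s1
    have hR := h.nP hs.2
    have hu := commEl_mem_left he (h.MN hs.2)
    have hss := h'.sqA hs.1
    have e1 : ⁅⁅e, s⁆, s⁆ = ⁅e, s⁆ * ⁅e, s⁆ := by
      simp only [commutatorElement_def, mul_inv_rev, inv_inv, inv_eq_of_mul_eq_one_right hss, mul_assoc]
      rw [← mul_assoc s s, hss, one_mul]
    obtain ⟨n, hn, a, ha, e2⟩ := h.toCore.dec (inf_le_left.trans h.EG) hR (x := ⁅e, s⁆)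
      ⟨hu, h.EA hu, e1 ▸ h.sq hu⟩
    have h2 := h.hom inf_le_left hR (h'.AR hs.1) fun y hy => hy.2.2
    have h3 := (comm_le_left hR).trans inf_le_left
    have h4 := h.toCore.cc (inf_le_left.trans h.EG) hR
    have h5 : ⁅E ⊓ commMod A s, R⁆ ≤ E' :=
      h4.ge.trans ((commutator_mono (le_inf (h3.trans h.EG) h2) le_rfl).trans (h'.uniC hs.1 s1).2.le)
    have hn' : n ∈ ⁅E ⊓ E', R⁆ := (h4.ge.trans (commutator_mono (le_inf h3 h5) le_rfl)) hn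
    have ha' := h.memA ha.1.1 ha.2
    refine ⟨n, hn', a, ⟨ha', h'.memM hs.1 s1 (h.EG ha.1.1) ?_⟩, e2⟩
    have h6 : n * n = 1 := h.ti h' hne (h.sq (hX hn').1) (h'.sq (hX hn').2)
    rw [e2, show n * a * (n * a) = n * (a * n) * a by group, ← h.ac ha' (hX hn').1,
      show n * (n * a) * a = n * n * (a * a) by group, h6, h.sqA ha', one_mul, commEl_eq_one_iff, mul_assoc,
      ← mul_assoc s, ← h'.ac hs.1 (hX hn').2, mul_assoc, mul_right_inj] at e1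
    exact e1
  refine le_norm_of_conj fun e he => ?_
  rw [conj_sup, conj_sup]
  have hc : ∀ x, ⁅e, x⁆ * x = e * x * e⁻¹ := fun x => by simp only [commutatorElement_def]; group
  refine sup_le (fun y hy => ?_) (sup_le (fun y hy => ?_) fun y hy => ?_) <;>
    obtain ⟨x, hx, rfl⟩ := mem_conj'.1 hy <;> rw [← hc]
  · refine mul_mem (mem_sup_right (mem_sup_left ⟨h.cm he (hX hx).1, h'.memM ht h1
      (commEl_mem (h.EG he) (h.EG (hX hx).1)) ?_⟩)) (mem_sup_left hx)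
    obtain ⟨n, hn, a, ha, e1⟩ := key e he t ⟨ht, ht'⟩ h1
    have hu := inv_mem (commEl_mem_left he (h.MN ht'))
    have e2 : ⁅e, t⁆⁻¹ * x = x * ⁅e, t⁆⁻¹ := mem_cent1.1 (inv_mem (e1 ▸ mul_mem
      (mem_cent1.2 (hab n (hX hn) x (hX hx))) (mem_cent1.2 (h.ac ha.1 (hX hx).1).symm)))
    rw [eq_comm, ← mul_inv_eq_iff_eq_mul, conjugate_commutatorElement, ← h'.ac ht (hX hx).2, mul_inv_cancel_right,
      show t * e * t⁻¹ = ⁅e, t⁆⁻¹ * e by simp only [commutatorElement_def]; group,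
      cmul_left (h.ac (h.cm he (hX hx).1) hu), commEl_eq_one_iff.2 e2, mul_one]
  · rw [commEl_eq_one_iff.2 (h.ac hx.1 he), one_mul]
    exact mem_sup_right (mem_sup_left hx)
  · refine mul_mem ?_ (mem_sup_right (mem_sup_right hx))
    by_cases x1 : x = 1
    · simp [x1]
    obtain ⟨n, hn, a, ha, e1⟩ := key e he x hx x1
    exact e1 ▸ mul_mem_sup hn (mem_sup_left ha)

theorem ex0 (h : CE p G R Y E A M) (h' : CE p G R' Y' E' A' M') (hA : A ≠ ⊥) (ht : t ∈ A')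
    (ht' : t ∈ M) (h1 : t ≠ 1) : ∃ a ∈ A, a ∈ M' ∧ a ≠ 1 := by
  obtain ⟨a, ha, a1⟩ := exists_mem_ne_one (inf_cent_ne_bot_of_pgroup Nat.prime_two (IsPGroup.le' h.two h.AE)
    (IsPGroup.le' h'.two (zpowers_le.2 (h'.AE ht))) (zpowers_le.2 (h.MA ht')) hA)
  exact ⟨a, ha.1, h'.memM ht h1 (h.EG (h.AE ha.1)) (mem_cent.1 ha.2 t (mem_zpowers t)).symm, a1⟩

theorem ci0 (h : CE p G R Y E A M) (h' : CE p G R Y' E' A' M') (hA : A ≠ ⊥) (ht : t ∈ A') (ht' : t ∈ M)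
    (h1 : t ≠ 1) : E = E' := by
  by_contra hne
  obtain ⟨a, ha, ha', a1⟩ := h.ex0 h' hA ht ht' h1
  have n1 := h.normQ h' hne ht ht' h1
  have n2 := h'.normQ h (Ne.symm hne) ha ha' a1
  rw [inf_comm E', sup_comm (A' ⊓ M)] at n2
  have hX : ⁅E ⊓ E', R⁆ ≤ E ⊓ E' := comm_le_left (le_normalizer_inf h.nE h'.nE)
  have q1 : ⁅E ⊓ E', R⁆ ⊔ (A ⊓ M' ⊔ A' ⊓ M) < G := lt_of_le_of_lt (sup_le (hX.trans (inf_le_left.trans h.EM))
    (sup_le (inf_le_left.trans (h.AE.trans h.EM)) inf_le_right)) h.lt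
  have q2 : ⁅E ⊓ E', R⁆ ⊔ (A ⊓ M' ⊔ A' ⊓ M) ≠ ⊥ := ne_bot_of_mem (mem_sup_right (mem_sup_right ⟨ht, ht'⟩)) h1
  have q3 : R ≤ 𝐍(⁅E ⊓ E', R⁆ ⊔ (A ⊓ M' ⊔ A' ⊓ M)) := le_normalizer_sup (right_le_norm_comm _ _)
    (le_norm_of_le_cent (le_cent_symm (sup_le (inf_le_left.trans h.AR) (inf_le_left.trans h'.AR))))
  exact hne ((h.uniN q1 q2 q3 n1).2.symm.trans (h'.uniN q1 q2 q3 n2).2)

/-- case (i) -/
theorem ci (h : CE p G R Y E A M) (h' : CE p G R' Y' E' A' M') (hne : E ≠ E') (hA : A ≠ ⊥) (ht : t ∈ A')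
    (ht' : t ∈ M) (he : e ∈ E) (hc : e * t * e⁻¹ ∈ 𝐂(R)) : t = 1 := by
  by_contra h1
  have h2 := h.conj (inv_mem (h.EG he))
  rw [conj_of_mem (inv_mem he), conj_of_mem_norm (h.EA (inv_mem he)), conj_of_mem (inv_mem (h.EM he))] at h2
  have h3 : t ∈ 𝐂(e⁻¹ ⋆ R) := by
    rw [← conj_cent, mem_conj, inv_inv]; exact hc
  obtain ⟨k, hk, e1⟩ := h'.toCore.conjR h2.toCore (le_cent1_iff.2 (h'.AR ht)) (le_cent1_iff.2 h3)
  have hk' := (h'.uniC ht h1).1 hk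
  have h4 := h'.conj hk.1
  rw [e1, conj_of_mem_norm (h'.MN hk'), conj_of_mem_norm (h'.MA hk'), conj_of_mem hk'] at h4
  exact hne (h2.ci0 h4 hA ht ht' h1)

/-- Lemma Q -/
theorem lq (h : CE p G R Y E A M) (h' : Core p G R') (hX : Thin G R X) (hE : X ≤ E) (hX' : Thin G R' X')
    (hc : X' ≤ 𝐂(X)) (ha : a ∈ A) (a1 : a ≠ 1) (ha' : a ∈ 𝐂(X')) : ∃ e ∈ E, e ⋆ R = R' := by
  haveI := Fact.mk h.pp
  have q2 : IsPGroup 2 (X ⊔ X' : Subgroup Γ) := pgroup_sup hX.two hX'.two (Or.inr (le_norm_of_le_cent hc))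
  have qG : X ⊔ X' ≤ G := sup_le hX.le hX'.le
  have n1 : R ≤ 𝐍(X ⊔ X') := h.thin_norm hX le_sup_left (le_inf qG (sup_le hX.ab hc))
  have n2 : R' ≤ 𝐍(X ⊔ X') := h'.thin_norm hX' le_sup_right (le_inf qG (sup_le (le_cent_symm hc) hX'.ab))
  obtain ⟨k, hk, ek⟩ := h.toCore.conjR h' n1 n2
  have hH := h.norm_lt (h.lt_of_two qG q2) (ne_bot_of_le hX.ne le_sup_left)
  have hQ : X ⊔ X' ⊴ G ⊓ 𝐍(X ⊔ X') := ⟨le_inf qG le_normalizer, inf_le_right⟩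
  have hR : R ≤ 𝐍(G ⊓ 𝐍(X ⊔ X')) := le_normalizer_inf h.nG (n1.trans (norm_le_norm_norm _))
  have haH : a ∈ G ⊓ 𝐍(X ⊔ X') := ⟨h.EG (h.AE ha), cent_le_norm _ (cent_sup X X' ▸ ⟨cent_anti hE (h.AC ha), ha'⟩)⟩
  generalize G ⊓ 𝐍(X ⊔ X') = H at *
  have hp : ¬ p ∣ #|H| := by
    obtain ⟨P, hP, hn⟩ := h.pcl H hH hR
    have hRP : R ≤ 𝐍(P) := by
      rw [sylow_eq_core h.pp hP hn]; exact le_norm_core hR _
    have cop := pgroup_coprime_pgroup h.pp Nat.prime_two h.p2 hP.isPGroup q2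
    have h1 : P ≤ G ⊓ 𝐂(X) := le_inf (hP.le.trans hH.le)
      ((NormalIn.le_cent_of_coprime ⟨hP.le, hn⟩ hQ cop).trans (cent_anti le_sup_left))
    have h2 : ⁅P, R⁆ = ⊥ := eq_bot_iff.2 ((le_inf (comm_le_left hRP) (((commutator_mono h1 le_rfl).trans
      (h.thinC X hX)).trans le_sup_left)).trans (inf_eq_bot_of_coprime' cop).le)
    rw [← sylow_eq_bot_iff h.pp hP]
    by_contra h3
    exact h.pC ((pgroup_dvd_card h.pp hP.isPGroup h3).trans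
      (card_dvd_of_le' (le_inf (hP.le.trans hH.le) (comm_eq_bot_iff.1 h2))))
  have t2 := h.comm_two hH.le hR hp
  have hcc := h.toCore.cc hH.le hR
  have hG := (comm_le_left hR).trans hH.le
  have hle : ⁅H, R⁆ ≤ E := by
    by_cases h1 : ⁅H, R⁆ ⊓ 𝐂(R) = ⊥
    · have h2 := (le_inf (der1_le _) (h.spec _ hG t2 (right_le_norm_comm H R) hcc).2.2.1).trans h1.le
      have h3 : X ≤ ⁅H, R⁆ := hX.cm.ge.trans (commutator_mono (le_sup_left.trans hQ.le) le_rfl)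
      exact (h.thin_le hX (le_inf hG ((comm_eq_bot_iff.1 (le_bot_iff.1 h2)).trans (cent_anti h3))) hcc).trans hE
    obtain ⟨U, hU, hHU, hRU⟩ := exists_invariant_isSylowIn_ge h.nG h.cop (Or.inl h.sol) hG t2
      (right_le_norm_comm H R)
    obtain ⟨c, hc, hcU⟩ := exists_centralizer_conj_isSylowIn h.nG h.cop (Or.inl h.sol) h.syl hU h.nY hRU
    have h2 := h.conj hc.1
    rw [conj_of_mem_norm (cent_le_norm R hc.2), hcU] at h2
    have h3 : ⁅H, R⁆ ≤ c ⋆ E := h2.eE ▸ hcc.ge.trans (commutator_mono hHU le_rfl)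
    by_contra h4
    obtain ⟨b, hb, b1⟩ := exists_mem_ne_one (inf_cent_ne_bot_of_pgroup Nat.prime_two (IsPGroup.le' t2 inf_le_left)
      (IsPGroup.le' h.two (zpowers_le.2 (h.AE ha))) (le_normalizer_inf (zpowers_le.2 (left_le_norm_comm H R haH))
        (zpowers_le.2 (le_normalizer (h.AR ha)))) h1)
    exact b1 (h.ci h2 (fun e => h4 (e ▸ h3)) (ne_bot_of_mem ha a1) (h2.memA (h3 hb.1.1) hb.1.2)
      (h.memM ha a1 (hG hb.1.1) (mem_cent.1 hb.2 a (mem_zpowers a)).symm) E.one_mem (by simpa using hb.1.2))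
  obtain ⟨n, hn, c, hc, rfl⟩ := h.toCore.dec hH.le hR hk
  exact ⟨n, hle hn, by rw [← ek, mul_conj, conj_of_mem_norm (cent_le_norm R hc.2)]⟩

end CE

end Cfsg.Agent.Fl
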