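import Cfsg.Agent.Fl.Fus1

/-! `S5277` from the slices `TB` and `TS`. -/

set_option autoImplicit false

namespace Cfsg.Agent.Fl

open Equiv Cfsg.Fus Cfsg.FusionSystem Cfsg.Agent.L

universe u

section
variable {Ω : Type*} [Group Ω] {S : Subgroup Ω} [Finite S] {F : FusionSystem S} {p r : ℕ} [Fact p.Prime]
  {a σ : Perm Ω} {P Q : Subgroup Ω}

theorem solvUp_of_normal (hS : IsPGroup p S) (hQ : F.IsNormal Q) : F.SolvUp Q := by
  haveI := Fus.finite_of_le hQ.le
  obtain ⟨n, hn⟩ := exists_zSer_eq (isPGroup_of_le hS hQ.le)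
  have : ∀ i, F.SolvUp (zSer Q i) := fun i => by
    induction i with
    | zero => rw [zSer_zero]; exact .bot
    | succ i ih =>
      exact .step ih (hQ.zSer _).stronglyClosed (zSer_mono Q i.le_succ)
        ((Subgroup.commutator_mono le_rfl (zSer_le Q _)).trans (commutator_zSer_le Q i))
  exact hn ▸ this n

theorem FH.factor {Ω' : Type*} [Group Ω'] {S' : Subgroup Ω'} {E : FusionSystem S'} {θ : S →* Ω'}
    (h : FH p r F a) (hQ : F.StronglyClosed Q) (ha : a ∈ setStab Q) (hE : F.IsFactorSystem Q θ E) :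
    ∃ b, FH p r E b := by
  haveI := hE.finite
  have key : ∀ x ∈ S, ∀ y ∈ S, extFun θ (a x) = extFun θ (a y) ↔ extFun θ x = extFun θ y := fun x hx y hy => by
    rw [hE.eq_iff hx hy, hE.eq_iff (h.mem hx) (h.mem hy), ← h.aut.1.map_inv hx,
      ← h.aut.1.map_mul (S.inv_mem hx) hy, ha]
  have ex : ∀ y ∈ S', ∃ x ∈ S, extFun θ x = y := fun y hy => by
    simpa only [hE.pre_top] using hE.exists_eq le_rfl hy
  obtain ⟨f, hf⟩ := exists_induced (θ := θ) (P := S) (f := a) fun x hx y hy => (key x hx y hy).2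
  obtain ⟨b, hb⟩ := exists_perm_of_injOn (f := f) (P := S') fun u hu v hv e => by
    obtain ⟨x, hx, rfl⟩ := ex u hu
    obtain ⟨y, hy, rfl⟩ := ex v hv
    rw [hf x hx, hf y hy] at e
    exact (key x hx y hy).1 e
  replace hb : ∀ x ∈ S, b (extFun θ x) = extFun θ (a x) := fun x hx => (hb _ (hE.mem hx)).trans (hf x hx)
  have hθ := homOn_extFun θ
  refine ⟨b, hE.isSaturated hQ.weaklyClosed h.sat h.pg, hE.isPGroup h.pg, ⟨fun u hu v hv => ?_,
    mem_setStab_of_finite fun u hu => ?_⟩, fun u hu => ?_, fun u hu e => ?_, fun P' σ' hσ' => ?_,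
    fun P' σ' hσ' => ?_⟩
  · obtain ⟨x, hx, rfl⟩ := ex u hu
    obtain ⟨y, hy, rfl⟩ := ex v hv
    rw [← hθ hx hy, hb _ (S.mul_mem hx hy), hb x hx, hb y hy, h.aut.1 hx hy, hθ (h.mem hx) (h.mem hy)]
  · obtain ⟨x, hx, rfl⟩ := ex u hu
    rw [hb x hx]; exact hE.mem (h.mem hx)
  · obtain ⟨x, hx, rfl⟩ := ex u hu
    rw [ind_pow h.aut.2 hb r x hx, h.pow x hx]
  · obtain ⟨x, hx, rfl⟩ := ex u hu
    rw [hb x hx, eq_comm, hE.eq_iff hx (h.mem hx)] at e
    exact (hE.eq_one_iff hx).2 (h.mem_of_inv_mul hQ.le (fun z hz => (ha z).2 hz) hx e)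
  · obtain ⟨σ, h1, h2⟩ := hE.exists_lift_perm hσ'
    have h3 := h.aut.1.mono h1.le
    have := hE.isMap_of_le (h.map _ _ h1) (f' := ⇑(b * σ' * b⁻¹))
      (h.img_eq hQ.le ha ▸ img_mono a (hE.le_pre P')) fun x hx => by
        obtain ⟨y, hy, rfl⟩ := h3.mem_img.1 hx
        simp only [Perm.mul_apply, ← hb y (h1.le hy), perm_inv_apply_self, h2 y hy, hb _ (h1.mem hy)]
    rwa [← img_induced h1.le h3 fun x hx => hb x (h1.le hx), hE.img_pre hσ'.le] at this
  · obtain ⟨σ, h1, h2⟩ := hE.exists_lift_iso hQ.weaklyClosed hσ'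
    obtain ⟨n, h3, h4⟩ := h.cop _ _ h1
    refine ⟨n, h3, fun u hu => ?_⟩
    obtain ⟨x, hx, rfl⟩ := hE.exists_eq hσ'.le_left hu
    rw [ind_pow h1.mem_setStab h2 n x hx, h4 x hx]

theorem not_dvd_of_sylow_bot {G : Type*} [Group G] [Finite G] {P H : Subgroup G} (h : IsSylowIn p P H)
    (hP : P = ⊥) : ¬ p ∣ Nat.card H := by
  have := h.not_dvd_relIndex
  rwa [hP, Subgroup.relIndex_bot_left] at this

theorem isSylowIn_aut (h : F.IsFullyAutomized p Q) : IsSylowIn p (autInducedBy S Q) (F.autGroup Q) :=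
  (isSylowIn_iff (F.autInducedBy_le_autGroup h.le)).2 h.2

theorem FH.not_dvd_cent (h : FH p r F a) (hr : r.Prime) (hQ : F.IsFullyAutomized p Q) (ha : a ∈ setStab Q) :
    ¬ p ∣ Nat.card (F.autGroup Q ⊓ Subgroup.centralizer {resAut Q a} : Subgroup _) := by
  haveI := Fus.finite_of_le hQ.le
  have h0 := h.autQ hQ.le ha
  have := H1.isSylowIn_inf_centralizer (A := Subgroup.zpowers (resAut Q a))
    (Subgroup.zpowers_le.2 (h.res_norm hQ.le ha))
    (Nat.Coprime.coprime_dvd_left (by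
      rw [Nat.card_zpowers]; exact orderOf_dvd_of_pow_eq_one (h.res_pow hQ.le ha))
      ((Nat.Prime.coprime_iff_not_dvd hr).2 (h.not_dvd hr hQ.le)))
    (.inl inferInstance) (isSylowIn_aut hQ) (Subgroup.zpowers_le.2 (mem_normalizer_of_finite fun β hβ => by
      obtain ⟨g, hg, e⟩ := mem_autInducedBy.1 hβ
      refine mem_autInducedBy.2 ⟨a g, h.mem hg, fun x => ?_⟩
      have hx : a⁻¹ x ∈ Q := ((setStab Q).inv_mem ha x).2 x.2
      rw [h.res_conj hQ.le ha, Perm.mul_apply, Perm.mul_apply, extAut_of_mem _ hx, e,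
        h.aut.1.map_conj hg (hQ.le hx), perm_apply_inv_self]))
  rw [Subgroup.zpowers_eq_closure, Subgroup.centralizer_closure] at this
  refine not_dvd_of_sylow_bot this (eq_bot_iff.2 fun β hβ => ?_)
  obtain ⟨g, hg, e⟩ := mem_autInducedBy.1 hβ.1
  have hc := Subgroup.mem_centralizer_singleton_iff.1 hβ.2
  have : g ∈ centralizerIn S Q := by
    refine h.mem_of_inv_mul (centralizerIn_le S Q) (fun z hz => ⟨h.mem hz.1, fun y hy => ?_⟩) hg
      ⟨S.mul_mem (S.inv_mem hg) (h.mem hg), fun y hy => ?_⟩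
    · have hx : a⁻¹ y ∈ Q := ((setStab Q).inv_mem ha y).2 hy
      have := congrArg a (hz.2 _ hx)
      rwa [h.aut.1 (hQ.le hx) hz.1, h.aut.1 hz.1 (hQ.le hx), perm_apply_inv_self] at this
    · have hx : a⁻¹ y ∈ Q := ((setStab Q).inv_mem ha y).2 hy
      have := congrArg (fun γ : MulAut Q => ((γ ⟨_, hx⟩ : Q) : Ω)) hc
      simp only [MulAut.mul_apply, e, resAut_apply h0, perm_apply_inv_self, h.aut.1.map_conj hg (hQ.le hx)] at this
      rw [← mul_assoc, show y * g⁻¹ = g⁻¹ * (g * y * g⁻¹) by group, this]; group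
  refine Subgroup.mem_bot.2 (MulEquiv.ext fun x => Subtype.ext ?_)
  rw [e, ← this.2 x x.2]; simp

end

section
variable {Ω : Type u} [Group Ω] {S : Subgroup Ω} [Finite S] {F : FusionSystem S} {p r : ℕ} [hp : Fact p.Prime]
  {a : Perm Ω} {Q : Subgroup Ω}

theorem FH.top_of_centric [TB.{u}] (h : FH p r F a) (hr : r.Prime) (hp2 : p ≠ 2) (hQ : F.IsNormal Q)
    (hc : F.IsCentric Q) (ha : a ∈ setStab Q) : F.IsNormal S := by
  haveI := Fus.finite_of_le hQ.le
  have hfa := hQ.stronglyClosed.isFullyNormalized.isFullyAutomized h.sat h.pg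
  obtain ⟨P', h1, h2⟩ := TB.out (F.autGroup Q) (resAut Q a) hp.out hp2 (isPGroup_of_le h.pg hQ.le) hr
    (h.res_pow hQ.le ha) (h.res_norm hQ.le ha) (h.not_dvd hr hQ.le) (h.res_fpf hQ.le ha) (h.not_dvd_cent hr hfa ha)
  have h3 := isSylowIn_aut hfa
  rw [← h1.maximal _ h3.isPGroup (h3.le_of_normalized h1.isPGroup h1.le h2) h3.le] at h2
  refine h.sat.isNormal_of_ext h.pg le_rfl fun P _ σ hσ => ?_
  obtain ⟨τ, h4, h5, h6⟩ := hQ.exists_ext hσ
  have hτ := (h4.mono le_sup_right).iso_of_setStab h6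
  obtain ⟨χ, h7, h8⟩ := (hc.isReceptive h.sat h.pg).exists_ext_of_le hτ (T := S) (le_inf le_rfl hQ.le_normalizer)
    fun g hg => by
      obtain ⟨h7, h8⟩ := mem_liftAut.1 (cj_mem_innS hg (hQ.le_normalizer hg))
      refine mem_liftAut.2 ⟨Subgroup.mul_mem _ (Subgroup.mul_mem _ hτ.mem_autStab h7)
        (Subgroup.inv_mem _ hτ.mem_autStab), ?_⟩
      rw [(homOn_resAut Q).map_conj hτ.mem_autStab h7]
      exact conj_mem_of_mem_normalizer (h2 hτ.resAut_mem) h8
  rw [sup_eq_right.2 hQ.le] at h7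
  obtain ⟨z, hz, -, h9⟩ := hc.exists_conj_of_eqOn h.sat h.pg le_sup_right (h7.mono h4.le) h4 h8
  exact ⟨χ * cj z, (F.iso_cj le_rfl (hQ.le hz) (Subgroup.le_normalizer (hQ.le hz))).trans
    (h7.iso_self fun _ hx => h7.mem hx), fun x hx => by
      rw [← h5 x hx, h9 x (Subgroup.mem_sup_left hx)]; rfl⟩

theorem FH.weaklyClosed [TS.{u}] (h : FH p r F a) (hr : r.Prime) (hp2 : p ≠ 2)
    (ha : a ∈ setStab (S ⊓ Subgroup.centralizer (S : Set Ω)))
    (hN : ∀ σ, F.Iso (thompsonSubgroupAOf S) (thompsonSubgroupAOf S) σ →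
      σ ∈ setStab (S ⊓ Subgroup.centralizer (S : Set Ω))) :
    F.WeaklyClosed (S ⊓ Subgroup.centralizer (S : Set Ω)) := by
  refine (H1.weaklyClosed_or_singer h.sat h.pg hp2 le_rfl hN).resolve_right ?_
  rintro ⟨X, h1, h2, h3, -, h4⟩
  have hT : S ⊓ Subgroup.centralizer (S : Set Ω) ≤ S := inf_le_left
  haveI := Fus.finite_of_le hT
  refine TS.out _ X _ hp.out hp2 (isPGroup_of_le h.pg hT) (fun x y => Subtype.ext (y.2.2 x x.2.1)) hr
    (h.res_pow hT ha) (h.res_norm hT ha) (h.not_dvd hr hT) ?_ (h.res_fpf hT ha) h1 h2 h3 h4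
  refine not_dvd_of_sylow_bot (isSylowIn_aut ((F.isFullyNormalized_of_le_normalizer hT fun g hg =>
    mem_normalizer_of_finite fun x hx => ?_).isFullyAutomized h.sat h.pg)) (eq_bot_iff.2 fun β hβ => ?_)
  · rwa [hx.2 g hg, mul_inv_cancel_right]
  · obtain ⟨g, hg, e⟩ := mem_autInducedBy.1 hβ
    refine Subgroup.mem_bot.2 (MulEquiv.ext fun x => Subtype.ext ?_)
    rw [e, x.2.2 g hg]; simp

end

theorem FH.isNormal_aux [TB.{u}] [TS.{u}] {p r : ℕ} [Fact p.Prime] (hr : r.Prime) (hp2 : p ≠ 2) (n : ℕ) :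
    ∀ {Ω : Type u} [Group Ω] {S : Subgroup Ω} [Finite S] {F : FusionSystem S} {a : Perm Ω},
      Nat.card S = n → FH p r F a → F.IsNormal S := by
  induction n using Nat.strong_induction_on with | _ n ih => ?_
  intro Ω _ S _ F a hn h
  by_cases hS : S = ⊥
  · exact (congrArg F.IsNormal hS).mpr F.isNormal_bot
  have A : ∀ {D : FusionSystem S} {Q : Subgroup Ω}, FH p r D a → D.IsNormal Q → Q ≠ ⊥ → a ∈ setStab Q →
      D.IsNormal S := fun {D Q} h hQ h1 ha => by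
    have hs := hQ.stronglyClosed
    haveI := hs.normal9
    obtain ⟨E, hE⟩ := D.exists_factorSystem_mk' hs
    obtain ⟨b, hb⟩ := h.factor hs ha hE
    have h2 := ih _ (by
      rw [← hn, Subgroup.card_top, ← Subgroup.index_eq_card, ← (Q.subgroupOf S).card_mul_index]
      refine lt_mul_of_one_lt_left (Nat.pos_of_ne_zero Subgroup.index_ne_zero_of_finite) ?_
      rw [Subgroup.one_lt_card_iff_ne_bot]
      exact fun e => h1 (by rwa [Subgroup.subgroupOf_eq_bot, disjoint_iff, inf_eq_left.2 hQ.le] at e)) rfl hb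
    have h3 := (solvUp_of_normal hb.pg h2).pre (hE.isMorphism hs h.sat h.pg)
      (hE.ker_eq.symm ▸ solvUp_of_normal h.pg hQ)
    rw [hE.pre_top] at h3
    obtain ⟨-, C, h4, h5⟩ := h3.isConstrained h.sat h.pg
    exact h.top_of_centric hr hp2 D.isNormal_core9 (h5.mono h4.le_core D.core_le) (h.core_inv hr)
  have hT : S ⊓ Subgroup.centralizer (S : Set Ω) ≠ ⊥ := by
    obtain ⟨z, h1, h2, -, h3⟩ := exists_central_of_ne_bot h.pg le_rfl le_rfl Subgroup.le_normalizer hS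
    exact fun e => h2 (Subgroup.mem_bot.1 (e ▸ (⟨h1, h3⟩ : z ∈ S ⊓ Subgroup.centralizer (S : Set Ω))))
  have cen : ∀ {σ : Perm Ω}, σ ∈ autStab S → σ ∈ setStab (S ⊓ Subgroup.centralizer (S : Set Ω)) := fun {σ} hσ =>
    haveI := Fus.finite_of_le (inf_le_left : S ⊓ Subgroup.centralizer (S : Set Ω) ≤ S)
    mem_setStab_of_finite fun z hz => ⟨(hσ.2 z).2 hz.1, fun y hy => by
      have hx : σ⁻¹ y ∈ S := ((setStab S).inv_mem hσ.2 y).2 hy
      have := congrArg σ (hz.2 _ hx)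
      rwa [hσ.1 hx hz.1, hσ.1 hz.1 hx, perm_apply_inv_self] at this⟩
  have hJ := H2.thompsonA_le S
  have hn := Subgroup.le_normalizer.trans (H2.normalizer_le_normalizer_thompsonA S)
  have haJ : img a (thompsonSubgroupAOf S) = thompsonSubgroupAOf S := by
    rw [H1.img_thompsonA h.aut.1 a.injective.injOn, h.img_eq le_rfl h.aut.2]
  have haJ' := (h.aut.1.mem_setStab_iff hJ).2 haJ
  obtain ⟨D, h1, h2, h3, h4⟩ := H2.exists_normalizer_sys (F := F) hJ hn
  have hD : D.IsNormal S := by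
    refine A (h.sub h1 (h4 p h.sat h.pg) fun P σ hσ => ?_) h2
      (fun e => hT (eq_bot_iff.2 (e ▸ H2.center_le_thompsonA S))) haJ'
    obtain ⟨-, τ, h5, h6, h7⟩ := nMap_iff_perm.1 ((h3 _ _).1 hσ)
    have h8 := h.map _ _ h5
    rw [(h.aut.1.mono h5.le).img_sup, haJ] at h8
    refine (h3 _ _).2 (nMap_iff_perm.2 ⟨(h.img_le hσ.le).trans (le_inf le_rfl hn), _, h8, fun x hx => ?_,
      Subgroup.mul_mem _ (Subgroup.mul_mem _ haJ' h7) (Subgroup.inv_mem _ haJ')⟩)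
    simp only [Perm.mul_apply, h6 _ ((h.aut.1.mono hσ.le).mem_img_perm.1 hx)]
  refine A h ((h.weaklyClosed hr hp2 (cen h.aut) fun σ hσ => ?_).isNormal_of_le_essential h.sat h.pg
    fun R hR => H1.center_le_of_centric hR.1) hT (cen h.aut)
  obtain ⟨τ, h5, h6, h7⟩ := hD.exists_ext ((h3 _ σ).2 (nMap_iff_perm.2 ⟨le_inf hJ Subgroup.le_normalizer, σ,
    by rw [sup_idem]; exact hσ.isMap, fun _ _ => rfl, hσ.mem_setStab⟩))
  haveI := Fus.finite_of_le (inf_le_left : S ⊓ Subgroup.centralizer (S : Set Ω) ≤ S)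
  refine mem_setStab_of_finite fun z hz => ?_
  rw [← h6 z (H2.center_le_thompsonA S hz)]
  exact (cen ⟨h5.homOn.mono le_sup_right, h7⟩ z).2 hz

/-- `S5277` from the two slices -/
theorem fus [TB.{u}] [TS.{u}] {Ω : Type u} [Group Ω] {S : Subgroup Ω} [Finite S] (p : ℕ) [Fact p.Prime]
    (hS : IsPGroup p S) (F : FusionSystem S) (hF : F.IsSaturated p) (hp : p ≠ 2) (α : S ≃* S)
    (hfix : ∀ x : S, α x = x → x = 1) (hmor : F.IsMorphism F (S.subtype.comp α.toMonoidHom)) (r : ℕ)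
    (hr : r.Prime) (hord : orderOf α = r)
    (hcr : ∀ R : Subgroup Ω, F.IsCentric R → F.IsRadical p R → ¬ r ∣ Nat.card (F.autGroup R)) : F.IsNormal S := by
  have e : ∀ x ∈ S, extFun (S.subtype.comp α.toMonoidHom) x = extAut S α x := fun x hx => by
    rw [extFun_of_mem _ hx, extAut_of_mem _ hx]; rfl
  refine FH.isNormal_aux hr hp _ rfl (a := extAut S α) ⟨hF, hS, extAut_mem_autStab α, ?_, fun x hx h => ?_,
    fun P σ hσ => ?_, fun P σ hσ => cop_of_cr hF hS hr hcr P hσ.le_left σ hσ⟩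
  · rw [← map_pow, extAut_mem_fixP, ← hord]; exact pow_orderOf_eq_one α
  · rw [extAut_of_mem _ hx] at h
    exact congrArg Subtype.val (hfix ⟨x, hx⟩ (Subtype.ext h))
  · rw [← img_congr fun x hx => e x (hσ.le hx)]
    exact hmor.isMap hσ fun x hx => by
      simp only [e x (hσ.le hx), e _ (hσ.mem hx), Perm.mul_apply, perm_inv_apply_self]

end Cfsg.Agent.Fl
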