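import Cfsg.Agent.Fl.I
import Cfsg.Agent.H1.WClosed
import Cfsg.Agent.H2.Sparse
import Cfsg.Agent.H7.More
import Cfsg.Agent.H9.FactorSat
import Cfsg.Agent.H1.FusJ
import Cfsg.Agent.H1.Coprime

/-! Fusion systems with a fixed-point-free automorphism: the basic lemmas. -/

set_option autoImplicit false

namespace Cfsg.Agent.Fl

open Equiv Cfsg.Fus Cfsg.FusionSystem

variable {Ω : Type*} [Group Ω] {S : Subgroup Ω} {F : FusionSystem S} {p r : ℕ} {a σ : Perm Ω}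
  {P Q Z : Subgroup Ω}

/-- `a` induces a fixed-point-free automorphism of `F` of order dividing `r`, and `F` has no automorphism of
order `r` -/
structure FH (p r : ℕ) (F : FusionSystem S) (a : Perm Ω) : Prop where
  sat : F.IsSaturated p
  pg : IsPGroup p S
  aut : a ∈ autStab S
  pow : a ^ r ∈ fixP S
  fpf : ∀ x ∈ S, a x = x → x = 1
  map : ∀ P (σ : Perm Ω), F.IsMap P σ → F.IsMap (img a P) ⇑(a * σ * a⁻¹)
  cop : ∀ P σ, F.Iso P P σ → ∃ n : ℕ, n.Coprime r ∧ σ ^ n ∈ fixP P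

theorem cop_of_cr [Finite S] [Fact p.Prime] (hF : F.IsSaturated p) (hS : IsPGroup p S) (hr : r.Prime)
    (hcr : ∀ R : Subgroup Ω, F.IsCentric R → F.IsRadical p R → ¬ r ∣ Nat.card (F.autGroup R)) :
    ∀ P ≤ S, ∀ σ, F.Iso P P σ → ∃ n : ℕ, n.Coprime r ∧ σ ^ n ∈ fixP P := by
  refine card_down_induction fun P hP ih σ hσ => ?_
  obtain ⟨P', φ, hφ, hn⟩ := F.exists_fullyNormalized hP
  suffices H : ∀ σ, F.Iso P' P' σ → ∃ n : ℕ, n.Coprime r ∧ σ ^ n ∈ fixP P' by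
    obtain ⟨n, h1, h2⟩ := H _ (hφ.conj hσ)
    refine ⟨n, h1, ?_⟩
    rw [conj_pow, ← hφ.conjP_fixP, conj_mem_conjP] at h2
    exact h2
  rw [hφ.card_eq] at ih
  clear hσ hφ hP σ φ P
  intro σ hσ
  have hP := hn.le
  have ha := hn.isFullyAutomized hF hS
  have hle : P' ≤ kN S P' (F.opStab p P') := fun g hg =>
    mem_kN.2 ⟨hP hg, Subgroup.le_normalizer hg,
      F.innS_self_le_opStab hS hP (cj_mem_innS hg (Subgroup.le_normalizer hg))⟩
  by_cases h : kN S P' (F.opStab p P') ≤ P'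
  · have hc := (hn.isFullyCentralized hF hS).isCentric hF hS
      ((centralizerIn_le_kN (F.fixP_le_opStab p P')).trans h)
    have hrad : F.IsRadical p P' := by
      refine isRadical_of_le hS hP fun τ hτ => ?_
      obtain ⟨g, hg, hgn, h1⟩ := mem_innS.1 (ha.opStab_le hτ)
      exact mem_innS_self.2 ⟨g, h (mem_kN.2 ⟨hg, hgn,
        mem_of_congr (F.fixP_le_opStab p P') hτ fun x hx => (h1 x hx).symm⟩), h1⟩
    refine ⟨_, ((Nat.Prime.coprime_iff_not_dvd hr).2 (hcr _ hc hrad)).symm, ?_⟩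
    rw [← resAut_eq_one_iff (Subgroup.pow_mem _ hσ.mem_autStab _),
      (homOn_resAut P').map_pow hσ.mem_autStab]
    exact congrArg Subtype.val (pow_card_eq_one' (x := (⟨_, hσ.resAut_mem⟩ : F.autGroup P')))
  · obtain ⟨τ, h1, h2⟩ := (hn.isReceptive hF hS).exists_ext_of_le hσ (kN_le_normalizerIn S P' (F.opStab p P'))
      fun g hg => ha.opStab_le (hσ.conj_mem_opStab (mem_kN.1 hg).2.2)
    rw [sup_eq_right.2 hle] at h1
    have hτ := hσ.congr h2
    obtain ⟨n, h3, h4⟩ := ih _ (kN_le _ _ _) (card_lt_of_lt_of_finite (lt_of_le_not_ge hle h)) τ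
      (h1.iso_self fun g hg => by
        have := h1.mem_kN hle (F.fixP_le_opStab p P') hg hg
        rwa [hτ.img_eq, hτ.conjP_opStab] at this)
    exact ⟨n, h3, fun x hx => (ind_pow (t := id) hτ.mem_setStab (fun y hy => (h2 y hy).symm) n x hx).trans
      (h4 x (hle hx))⟩

namespace FH

theorem autQ (h : FH p r F a) (hQ : Q ≤ S) (ha : a ∈ setStab Q) : a ∈ autStab Q := ⟨h.aut.1.mono hQ, ha⟩

theorem img_eq (h : FH p r F a) (hQ : Q ≤ S) (ha : a ∈ setStab Q) : img a Q = Q :=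
  (h.aut.1.mem_setStab_iff hQ).1 ha

theorem mem (h : FH p r F a) {x : Ω} (hx : x ∈ S) : a x ∈ S := (h.aut.2 x).2 hx

theorem img_le (h : FH p r F a) (hP : P ≤ S) : img a P ≤ S := img_le_iff.2 fun _ hx => h.mem (hP hx)

theorem iso (h : FH p r F a) (ha : a ∈ setStab P) (hσ : F.Iso P P σ) : F.Iso P P (a * σ * a⁻¹) := by
  have := h.map P σ hσ.isMap
  rw [h.img_eq hσ.le_left ha] at this
  exact this.iso_of_setStab (Subgroup.mul_mem _ (Subgroup.mul_mem _ ha hσ.mem_setStab) (Subgroup.inv_mem _ ha))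

theorem map_pow (h : FH p r F a) (hσ : F.IsMap P σ) (n : ℕ) :
    F.IsMap (img ⇑(a ^ n) P) ⇑(a ^ n * σ * (a ^ n)⁻¹) := by
  induction n with
  | zero => simpa using hσ
  | succ n ih =>
    have := h.map _ _ ih
    rw [← ((Subgroup.pow_mem _ h.aut n).1.mono hσ.le).img_perm_mul, ← pow_succ'] at this
    convert this using 2
    rw [pow_succ']; group

theorem map_inv (h : FH p r F a) (hr : r.Prime) (hσ : F.IsMap P σ) :
    F.IsMap (img ⇑a⁻¹ P) ⇑(a⁻¹ * σ * a) := by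
  obtain ⟨n, rfl⟩ : ∃ n, r = n + 1 := ⟨r - 1, by have := hr.pos; omega⟩
  have e : ∀ x ∈ S, (a ^ n) x = a⁻¹ x := fun x hx => by
    rw [Perm.eq_inv_iff_eq, ← Perm.mul_apply, ← pow_succ']; exact h.pow x hx
  have := h.map_pow hσ n
  rw [img_congr fun x hx => e x (hσ.le hx)] at this
  refine this.congr fun y hy => ?_
  obtain ⟨x, hx, rfl⟩ := (((autStab S).inv_mem h.aut).1.mono hσ.le).mem_img.1 hy
  have : (a ^ n)⁻¹ (a⁻¹ x) = x := by rw [← e x (hσ.le hx), perm_inv_apply_self]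
  simp only [Perm.mul_apply, perm_apply_inv_self, this, e _ (hσ.mem hx)]

theorem isNormal_img [Finite S] (h : FH p r F a) (hr : r.Prime) (hQ : F.IsNormal Q) :
    F.IsNormal (img a Q) := by
  refine isNormal_of_perm (h.img_le hQ.le) fun P σ hσ => ?_
  obtain ⟨τ, h1, h2, h3⟩ := hQ.exists_ext (h.map_inv hr hσ)
  have h4 := h.map _ _ h1
  have hi := ((autStab S).inv_mem h.aut).1.mono hσ.le
  rw [(h.aut.1.mono h1.le).img_sup] at h4
  have e : img a (img ⇑a⁻¹ P) = P := by simpa using hi.img_inv_img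
  rw [e] at h4
  refine ⟨_, h4, fun x hx => ?_, fun x hx => ?_⟩
  · simp only [Perm.mul_apply, h2 _ (mem_img_of_mem _ hx), perm_apply_inv_self]
  · exact mem_img_of_mem _ ((h3 _).2 ((h.aut.1.mono hQ.le).mem_img_perm.1 hx))

theorem core_inv [Finite S] (h : FH p r F a) (hr : r.Prime) : a ∈ setStab F.core :=
  haveI := finite_of_le F.core_le
  mem_setStab_of_finite fun _ hx => (h.isNormal_img hr F.isNormal_core9).le_core (mem_img_of_mem _ hx)

theorem mem_of_inv_mul [Finite S] (h : FH p r F a) (hZ : Z ≤ S) (ha : ∀ z ∈ Z, a z ∈ Z) {x : Ω} (hx : x ∈ S)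
    (h1 : x⁻¹ * a x ∈ Z) : x ∈ Z := by
  haveI := finite_of_le hZ
  have key : ∀ u ∈ S, ∀ v ∈ S, u⁻¹ * a u = v⁻¹ * a v → u = v := fun u hu v hv e => by
    have := h.fpf _ (S.mul_mem hv (S.inv_mem hu)) (by
      rw [h.aut.1.map_mul hv (S.inv_mem hu), h.aut.1.map_inv hu, ← mul_inv_cancel_left v (a v), ← e]; group)
    exact (mul_inv_eq_one.1 this).symm
  let f : Z → Z := fun z => ⟨(z : Ω)⁻¹ * a z, Z.mul_mem (Z.inv_mem z.2) (ha _ z.2)⟩
  obtain ⟨z, hz⟩ := Finite.surjective_of_injective (f := f)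
    (fun u v e => Subtype.ext (key _ (hZ u.2) _ (hZ v.2) (congrArg Subtype.val e))) ⟨_, h1⟩
  exact key _ (hZ z.2) _ hx (congrArg Subtype.val hz) ▸ z.2

theorem res_pow (h : FH p r F a) (hQ : Q ≤ S) (ha : a ∈ setStab Q) : resAut Q a ^ r = 1 := by
  rw [← (homOn_resAut Q).map_pow (h.autQ hQ ha), resAut_eq_one_iff (Subgroup.pow_mem _ (h.autQ hQ ha) _)]
  exact fixP_anti hQ h.pow

theorem res_fpf (h : FH p r F a) (hQ : Q ≤ S) (ha : a ∈ setStab Q) (x : Q) (hx : resAut Q a x = x) : x = 1 :=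
  Subtype.ext (h.fpf _ (hQ x.2) ((resAut_apply (h.autQ hQ ha) x).symm.trans (congrArg Subtype.val hx)))

theorem res_conj (h : FH p r F a) (hQ : Q ≤ S) (ha : a ∈ setStab Q) (β : MulAut Q) (x : Q) :
    (((resAut Q a * β * (resAut Q a)⁻¹) x : Q) : Ω) = (a * extAut Q β * a⁻¹) x := by
  have h1 := h.autQ hQ ha
  rw [← resAut_apply (Subgroup.mul_mem _ (Subgroup.mul_mem _ h1 (extAut_mem_autStab β)) (Subgroup.inv_mem _ h1)),
    (homOn_resAut Q).map_conj h1 (extAut_mem_autStab β), resAut_extAut]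

theorem res_norm [Finite S] (h : FH p r F a) (hQ : Q ≤ S) (ha : a ∈ setStab Q) :
    resAut Q a ∈ Subgroup.normalizer (F.autGroup Q : Set (MulAut Q)) :=
  haveI := finite_of_le hQ
  mem_normalizer_of_finite fun β hβ =>
    mem_autGroup_of_rep (h.iso ha ((mem_autGroup_iff hQ).1 hβ)).isMap (h.res_conj hQ ha β)

theorem not_dvd [Finite S] (h : FH p r F a) (hr : r.Prime) (hQ : Q ≤ S) : ¬ r ∣ Nat.card (F.autGroup Q) := fun H => by
  haveI := finite_of_le hQ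
  haveI := Fact.mk hr
  obtain ⟨β, hβ⟩ := exists_prime_orderOf_dvd_card' r H
  obtain ⟨n, h1, h2⟩ := h.cop _ _ ((mem_autGroup_iff hQ).1 β.2)
  rw [← _root_.map_pow, extAut_mem_fixP, ← Subgroup.coe_pow, OneMemClass.coe_eq_one, ← orderOf_dvd_iff_pow_eq_one,
    hβ] at h2
  exact (Nat.Prime.coprime_iff_not_dvd hr).1 h1.symm h2

theorem sub {D : FusionSystem S} (h : FH p r F a) (hD : D ≤ F) (hs : D.IsSaturated p)
    (hm : ∀ P (σ : Perm Ω), D.IsMap P σ → D.IsMap (img a P) ⇑(a * σ * a⁻¹)) : FH p r D a :=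
  ⟨hs, h.pg, h.aut, h.pow, h.fpf, hm, fun P σ hσ => h.cop P σ (IsSubsystemOf.iso hD hσ)⟩

end FH

end Cfsg.Agent.Fl
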