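import Cfsg.Agent.FT.Basic4
import Cfsg.Agent.FT.Bhelper2b

/-! Interface for `S5277` (see notes/fl.md). -/

set_option autoImplicit false

namespace Cfsg.Agent.Fl

open Subgroup Cfsg.Agent.H1 Cfsg.Agent.L Cfsg.Agent.FT Cfsg.Agent.FT.Rp
open scoped Pointwise commutatorElement

universe u

section
variable {Γ : Type*} [Group Γ]

/-- `p`-closed -/
def PCl (p : ℕ) (H : Subgroup Γ) : Prop := ∃ P, IsSylowIn p P H ∧ H ≤ 𝐍(P)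

/-- abelian `2`-subgroups `X = [X, R] ≠ 1` of `G` -/
structure Thin (G R X : Subgroup Γ) : Prop where
  le : X ≤ G
  two : IsPGroup 2 X
  nr : R ≤ 𝐍(X)
  cm : ⁅X, R⁆ = X
  ne : X ≠ ⊥
  ab : X ≤ 𝐂(X)

/-- the simple quotient of a minimal counterexample -/
structure Core (p : ℕ) (G R : Subgroup Γ) : Prop where
  pp : p.Prime
  p2 : p ≠ 2
  rp : (#|R|).Prime
  r2 : Odd #|R|
  top : G ⊔ R = ⊤
  nG : R ≤ 𝐍(G)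
  cop : (#|R|).Coprime #|G|
  simple : IsSimpleGroup G
  gen : ⁅G, R⁆ = G
  np : ¬ IsPGroup p G
  pC : ¬ p ∣ #|G ⊓ 𝐂(R)|
  pcl : ∀ H < G, R ≤ 𝐍(H) → PCl p H
  odd : ∀ K ≤ G, R ≤ 𝐍(K) → Odd #|K| → ¬ p ∣ #|K| → K ≤ 𝐂(R)
  spec : ∀ X ≤ G, IsPGroup 2 X → R ≤ 𝐍(X) → ⁅X, R⁆ = X → X ⊓ 𝐂(R) ≤ 𝐂(X) ∧ (∀ x ∈ X, x * x ∈ 𝐂(R)) ∧
    ⁅X, X⁆ ≤ 𝐂(R) ∧ ∀ a ∈ X ⊓ 𝐂(R), a * a = 1
  thinC : ∀ X, Thin G R X → ⁅G ⊓ 𝐂(X), R⁆ ≤ X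
  thinN : ∀ X, Thin G R X → G ⊓ 𝐂(R) ⊓ 𝐍(X) ≤ 𝐂(X)

/-- `Y` an invariant Sylow `2`-subgroup, `E = [Y, R]`, `A = C_E(R)`, `M = N_G(E)` -/
structure CE (p : ℕ) (G R Y E A M : Subgroup Γ) : Prop extends Core p G R where
  syl : IsSylowIn 2 Y G
  nY : R ≤ 𝐍(Y)
  eE : E = ⁅Y, R⁆
  eA : A = E ⊓ 𝐂(R)
  eM : M = G ⊓ 𝐍(E)
  ne : E ≠ ⊥
  lt : M < G
  /-- (U) -/
  uni : ∀ H < G, R ≤ 𝐍(H) → E ≤ H → H ≤ M ∧ ⁅H, R⁆ = E ∧ ¬ p ∣ #|H|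

end

/-- slice C1: the case `A = 1` (transfer) -/
class C1 : Prop where
  out : ∀ {Γ : Type} [Group Γ] [Finite Γ] {p : ℕ} {G R Y E A M : Subgroup Γ}, CE p G R Y E A M → A ≠ ⊥

/-- slice C2: the elements of `A#` fix a unique point of `G / M` -/
class C2 : Prop where
  out : ∀ {Γ : Type} [Group Γ] [Finite Γ] {p : ℕ} {G R Y E A M : Subgroup Γ}, CE p G R Y E A M →
    ∀ a ∈ A, a ≠ 1 → ∀ g ∈ G, g * a * g⁻¹ ∈ M → g ∈ M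

/-- slice C3: the endgame -/
class C3 : Prop where
  out : ∀ {Γ : Type} [Group Γ] [Finite Γ] {p : ℕ} {G R Y E A M : Subgroup Γ}, CE p G R Y E A M → A ≠ ⊥ →
    (∀ a ∈ A, a ≠ 1 → ∀ g ∈ G, g * a * g⁻¹ ∈ M → g ∈ M) → False

/-- the core configuration does not exist (C0 + C1 + C2 + C3) -/
class CoreF : Prop where
  out : ∀ {Γ : Type} [Group Γ] [Finite Γ] {p : ℕ} {G R : Subgroup Γ}, Core p G R → False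

/-- slice RepT: an extraspecial `2`-group `X = [X, R]` whose centre acts as `-1` -/
class RepT : Prop where
  out : ∀ {F Γ W : Type} [Field F] [IsAlgClosed F] [Group Γ] [Finite Γ] [AddCommGroup W] [Module F W]
    [FiniteDimensional F W] [Nontrivial W] (ρ : Representation F Γ W) {X R : Subgroup Γ} {z : Γ},
    (2 : F) ≠ 0 → (#|R|).Prime → Odd #|R| → (#|R| : F) ≠ 0 → IsPGroup 2 X → R ≤ 𝐍(X) → ⁅X, R⁆ = X →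
    z ∈ X → ρ z = -1 → (∀ x ∈ X ⊓ 𝐂(R), x = 1 ∨ x = z) → ⁅X, X⁆ ≤ 𝐂(R) → X ⊓ 𝐂(X) = X ⊓ 𝐂(R) →
    fixS ρ R = ⊥ → #|X| ≤ 2 * (#|R| - 1) ^ 2 ∧ ∀ g ∈ 𝐂(X), ∀ a ∈ R, ρ (a * g * a⁻¹) = ρ g

/-- slice RB: Flavell's Theorem B for representations -/
class RB : Prop where
  out : ∀ {F Γ W : Type} [Field F] [IsAlgClosed F] [Group Γ] [Finite Γ] [AddCommGroup W] [Module F W]
    [FiniteDimensional F W] (p : ℕ) [CharP F p] (ρ : Representation F Γ W) {G R : Subgroup Γ},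
    p.Prime → p ≠ 2 → (#|R|).Prime → #|R| ≠ p → R ≤ 𝐍(G) → (#|R|).Coprime #|G| → fixS ρ R = ⊥ →
    ¬ p ∣ #|G ⊓ 𝐂(R)| → ∀ x ∈ G, ∀ y ∈ G, ∀ i j : ℕ, x ^ p ^ i = 1 → y ^ p ^ j = 1 →
      ∃ k : ℕ, ρ ((x * y) ^ p ^ k) = 1

/-- slice TB: Theorem B for automorphism groups of `p`-groups -/
class TB : Prop where
  out : ∀ {Q : Type u} [Group Q] [Finite Q] {p r : ℕ} (A : Subgroup (MulAut Q)) (a : MulAut Q),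
    p.Prime → p ≠ 2 → IsPGroup p Q → r.Prime → a ^ r = 1 → a ∈ 𝐍(A) → ¬ r ∣ #|A| →
    (∀ x, a x = x → x = 1) → ¬ p ∣ #|A ⊓ 𝐂[a]| → PCl p A

/-- slice TS: the Singer case of `S5278` does not occur -/
class TS : Prop where
  out : ∀ {T : Type u} [Group T] [Finite T] {p r : ℕ} (H X : Subgroup (MulAut T)) (a : MulAut T),
    p.Prime → p ≠ 2 → IsPGroup p T → (∀ x y : T, x * y = y * x) → r.Prime → a ^ r = 1 → a ∈ 𝐍(H) →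
    ¬ r ∣ #|H| → ¬ p ∣ #|H| → (∀ x, a x = x → x = 1) → X ≤ H → X ≠ ⊥ → IsCyclic X →
    (∀ b c : T, b ∈ closure {y : T | ∃ ψ ∈ X, ∃ t : T, y = ψ t * t⁻¹} →
      c ∈ closure {y : T | ∃ ψ ∈ X, ∃ t : T, y = ψ t * t⁻¹} → b ≠ 1 → c ≠ 1 → ∃ ψ ∈ X, ψ b = c) → False

end Cfsg.Agent.Fl
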