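import Cfsg.Agent.Fl.Gauss
import Cfsg.Agent.FT.BG3a.A
import Cfsg.Agent.FT.BG1.C
import Cfsg.Agent.H5.GA

/-! Slice RB, part 1: lemmas on `2`-groups of class two. -/

set_option autoImplicit false
set_option linter.style.haveILetI false

namespace Cfsg.Agent.Fl.Rb

open Subgroup Cfsg.Agent.H1 Cfsg.Agent.L Cfsg.Agent.FT
open scoped Pointwise commutatorElement

variable {Γ : Type*} [Group Γ] {A R X : Subgroup Γ} {x y z : Γ}

theorem cpow_left (h : ⁅X, X⁆ ≤ 𝐂(X)) (hx : x ∈ X) (hy : y ∈ X) (n : ℕ) : ⁅x ^ n, y⁆ = ⁅x, y⁆ ^ n := by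
  have := B1.pow_mul_of_comm (x := y) (y := x) (c := ⁅x, y⁆) (by group)
    (h (commutator_mem_commutator hx hy) x hx).symm n
  rw [commutatorElement_def (x ^ n), this]; group

theorem cpow_right (h : ⁅X, X⁆ ≤ 𝐂(X)) (hx : x ∈ X) (hy : y ∈ X) (n : ℕ) : ⁅x, y ^ n⁆ = ⁅x, y⁆ ^ n := by
  rw [← commutatorElement_inv, cpow_left h hy hx, ← inv_pow, commutatorElement_inv]

variable [Finite Γ]

theorem spec0 (h2 : IsPGroup 2 X) (h : ∀ A ≤ X, A ≤ 𝐂(A) → 𝐍(X) ≤ 𝐍(A) → A ≤ 𝐂(X)) :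
    ⁅X, X⁆ ≤ 𝐂(X) ∧ (∀ x ∈ X, x * x ∈ 𝐂(X)) ∧ ∀ a ∈ ⁅X, X⁆, a * a = 1 := by
  have h1 : ⁅X, X⁆ ≤ 𝐂(X) := by
    obtain ⟨m, hm⟩ := nil_iff_lcs.1 (pgroup_nil Nat.prime_two h2)
    have : ∀ n, lcs X (n + 2) = ⊥ → lcs X 2 = ⊥ := fun n => by
      induction n with
      | zero => exact id
      | succ n ih =>
        refine fun e => ih (comm_eq_bot_iff.2 (h _ (lcs_le _ _) ?_ (norm_le_norm_lcs _ _)))
        exact (lcs_antitone X (Nat.le_add_left 1 n)).trans (comm_eq_bot_iff.1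
          (three_subgroups (X := X) (Y := lcs X (n + 1)) (Z := X) (by rw [commutator_comm X]; exact e) e))
    exact comm_eq_bot_iff.1 (this m (eq_bot_iff.2 (hm ▸ lcs_antitone X (Nat.le_add_right m 2))))
  have h3 : ∀ x ∈ X, x * x ∈ 𝐂(X) := by
    obtain ⟨m, hm⟩ := pgroup_card Nat.prime_two h2
    have : ∀ n, (∀ x ∈ X, x ^ 2 ^ (n + 1) ∈ 𝐂(X)) → ∀ x ∈ X, x ^ 2 ^ 1 ∈ 𝐂(X) := fun n => by
      induction n with
      | zero => exact id
      | succ n ih =>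
        refine fun e => ih fun x hx => h (closure {y | ∃ x ∈ X, y = x ^ 2 ^ (n + 1)}) ((closure_le _).2 ?_)
          ((closure_le _).2 ?_) (le_norm_closure ?_) (subset_closure ⟨x, hx, rfl⟩)
        · rintro _ ⟨x, hx, rfl⟩; exact pow_mem hx _
        · rintro _ ⟨x, hx, rfl⟩
          refine le_cent1_iff.1 ((closure_le _).2 ?_)
          rintro _ ⟨y, hy, rfl⟩
          refine mem_cent1.2 (commutatorElement_eq_one_iff_mul_comm.1 ?_)
          rw [cpow_left h1 hy (pow_mem hx _), cpow_right h1 hy hx, ← pow_mul,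
            show 2 ^ (n + 1) * 2 ^ (n + 1) = 2 ^ (n + 1 + 1) * 2 ^ n by ring, pow_mul, ← cpow_right h1 hy hx,
            commutatorElement_eq_one_iff_mul_comm.2 (e x hx y hy), one_pow]
        · rintro a ha _ ⟨x, hx, rfl⟩
          exact subset_closure ⟨_, conj_mem_of_mem_normalizer ha hx, conj_pow.symm⟩
    intro x hx
    have := this m (fun x hx => by
      rw [pow_succ, pow_mul, ← hm, show x ^ #|X| = 1 from congrArg Subtype.val (pow_card_eq_one' (x := (⟨x, hx⟩ : X))),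
        one_pow]; exact one_mem _) x hx
    rwa [pow_one, sq] at this
  refine ⟨h1, h3, fun a ha => (sq a).symm.trans (pow_eq_one_of_mem_omega (zent_comm X)
    (commutator_le.2 (fun x hx y hy => ?_) ha))⟩
  have := commutator_mem_commutator hx hy
  exact mem_omega ⟨der1_le X this, h1 this⟩ (by
    rw [← cpow_right h1 hx hy, sq, commutatorElement_eq_one_iff_mul_comm]; exact h3 y hy x hx)

theorem cent_le_der (hA : A ≤ 𝐍(X)) (hc : (#|A|).Coprime #|X|) (h : ⁅X, A⁆ = X) : X ⊓ 𝐂(A) ≤ ⁅X, X⁆ := by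
  have h1 := left_le_norm_comm X X
  have h2 := hA.trans (norm_le_norm_der1 X)
  haveI := (comm_quo_iff h1).2 le_rfl
  have := inf_centralizer_inf_commutator_eq_bot (mim_le_norm (coset ⁅X, X⁆) hA)
    ((hc.coprime_dvd_left (card_mim_dvd _ _)).coprime_dvd_right (card_mim_dvd _ _))
  rw [← mim_comm _ h1 h2, h, inf_right_comm, inf_idem] at this
  exact (quo_eq_bot_iff (inf_le_left.trans h1)).1 (eq_bot_iff.2 (this ▸ le_inf (mim_mono _ inf_le_left)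
    (mim_le_cent _ inf_le_right)))

/-- automorphisms trivial on `X / Z(X)` and on `Z(X)` are inner -/
theorem exists_inn (h2 : IsPGroup 2 X) (hz : z ∈ 𝐂(X)) (hzz : z * z = 1) (hd : ∀ a ∈ ⁅X, X⁆, a = 1 ∨ a = z)
    (hZ : X ⊓ 𝐂(X) ≤ ⁅X, X⁆) {g : Γ} (hg : ∀ x ∈ X, ⁅x, g⁆ = 1 ∨ ⁅x, g⁆ = z) :
    ∃ y ∈ X, y⁻¹ * g ∈ 𝐂(X) := by
  classical
  have cc : ∀ {x a}, x ∈ X → (a = 1 ∨ a = z) → x * a = a * x := by
    rintro x a hx (rfl | rfl)
    · simp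
    · exact hz x hx
  let f : ∀ g : Γ, (∀ x ∈ X, ⁅x, g⁆ = 1 ∨ ⁅x, g⁆ = z) → X →* ℂˣ := fun g hg => MonoidHom.mk'
    (fun x => if ⁅(x : Γ), g⁆ = 1 then 1 else -1) fun a b => by
      rw [coe_mul, cmul_left (cc a.2 (hg b b.2))]
      by_cases h1 : z = 1
      · rcases hg a a.2 with e | e <;> rcases hg b b.2 with e' | e' <;> simp [e, e', h1]
      · rcases hg a a.2 with e | e <;> rcases hg b b.2 with e' | e' <;> simp [e, e', h1, hzz]
  have ff : ∀ g hg g' hg', f g hg = f g' hg' → g⁻¹ * g' ∈ 𝐂(X) := fun g hg g' hg' e x hx => by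
    have h3 : (1 : ℂˣ) ≠ -1 := fun h => by have := congrArg Units.val h; norm_num at this
    have h4 : ⁅x⁻¹, g⁆ = ⁅x⁻¹, g'⁆ := by
      have h1 : (if ⁅x⁻¹, g⁆ = 1 then (1 : ℂˣ) else -1) = if ⁅x⁻¹, g'⁆ = 1 then 1 else -1 :=
        DFunLike.congr_fun e ⟨x⁻¹, inv_mem hx⟩
      rcases hg _ (inv_mem hx) with e | e <;> rcases hg' _ (inv_mem hx) with e' | e' <;> rw [e, e'] at h1 ⊢ <;>
        by_contra h <;> simp_all [h3.symm]
    calc x * (g⁻¹ * g') = g⁻¹ * (x * ⁅x⁻¹, g⁆) * g' := by group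
      _ = _ := by rw [h4]; group
  have hm : ∀ y : X, ∀ x ∈ X, ⁅x, (y : Γ)⁆ = 1 ∨ ⁅x, (y : Γ)⁆ = z := fun y x hx =>
    hd _ (commutator_mem_commutator hx y.2)
  obtain ⟨n, hn⟩ := pgroup_card Nat.prime_two h2
  have hl := (Rp.card_lin (F := ℂ) (A := X) (by rw [hn]; simp)).1
  haveI : Finite (X →* ℂˣ) := Nat.finite_of_card_ne_zero (hl ▸ index_ne_zero_of_finite)
  let φ : X ⧸ _root_.commutator X → X →* ℂˣ := fun q => f q.out (hm _)
  obtain ⟨q, hq⟩ := (Function.Injective.bijective_of_nat_card_le (f := φ) (fun a b e => by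
    have := hZ ⟨X.mul_mem (X.inv_mem a.out.2) b.out.2, ff _ (hm _) _ (hm _) e⟩
    rw [der1_eq_commutator] at this
    obtain ⟨c, hc, e'⟩ := this
    rw [← a.out_eq', ← b.out_eq', QuotientGroup.eq]
    exact (Subtype.ext e' : c = a.out⁻¹ * b.out) ▸ hc) hl.le).2 (f g hg)
  exact ⟨_, q.out.2, ff _ (hm _) _ hg hq⟩

theorem dvd_card_sq {s : ℕ} (hs : s.Prime) (hA : IsPGroup s A) (hn : A ≤ 𝐍(X))
    (h : ∀ x ∈ X ⊓ 𝐂(A), x * x = 1) : s ∣ Nat.card {x // x ∈ X ∧ x * x ∉ (⊥ : Subgroup Γ)} := by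
  classical
  haveI := Fact.mk hs
  haveI := Fintype.ofFinite Γ
  have := H5.sum_eq_sum_centralizer hA (A := ZMod s) (fun a => by simp)
    (fun x => if x ∈ X ∧ x * x ∉ (⊥ : Subgroup Γ) then 1 else 0) fun u hu x => by
      simp only [← mem_normalizer_iff.1 (hn hu) x, mem_bot, conj_mul, conj_eq_one_iff]
  rw [Finset.sum_eq_zero (s := Finset.filter _ _) fun x hx => if_neg fun e =>
    e.2 (h x ⟨e.1, (Finset.mem_filter.1 hx).2⟩), Finset.sum_boole, ZMod.natCast_eq_zero_iff] at this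
  rwa [Nat.card_eq_fintype_card, Fintype.card_subtype]

theorem num1 {r s n₁ n₂ m : ℕ} (hr : r.Prime) (hs : s.Prime) (hrs : r ≠ s) (h1 : Odd r) (h2 : Odd s)
    (h3 : r ∣ n₂) (h4 : s ∣ n₂) (h0 : n₂ ≠ 0) (h5 : n₁ + n₂ = 2 ^ m) (h6 : 2 ^ m ≤ 2 * (r - 1) ^ 2)
    (h7 : ((n₁ : ℤ) - n₂) ^ 2 = (2 ^ m : ℕ) * (2 : ℕ)) : False := by
  have h8 : ((n₁ : ℤ) - n₂).natAbs ^ 2 = 2 ^ (m + 1) := by
    rw [← Int.natAbs_pow, h7, ← Nat.cast_mul, Int.natAbs_natCast, pow_succ]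
  obtain ⟨k, -, hk⟩ := (Nat.dvd_prime_pow Nat.prime_two).1 ((dvd_pow_self _ two_ne_zero).trans h8.dvd)
  rw [hk, ← pow_mul] at h8
  obtain ⟨j, rfl, rfl⟩ : ∃ j, k = j + 1 ∧ m = j + j + 1 :=
    ⟨k - 1, by have := Nat.pow_right_injective le_rfl h8; omega⟩
  have hc : (r * s).Coprime (2 ^ j) :=
    (Nat.coprime_two_right.2 (h1.mul h2)).pow_right _
  have hd := ((Nat.coprime_primes hr hs).2 hrs).mul_dvd_of_dvd_of_dvd h3 h4
  rw [pow_succ, pow_add] at h5 h6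
  rw [pow_succ] at hk
  generalize 2 ^ j = q at *
  obtain ⟨t, rfl⟩ : ∃ t, r = t + 1 := ⟨r - 1, by have := hr.pos; omega⟩
  have h9 : q ≤ t := by rw [Nat.add_sub_cancel] at h6; nlinarith
  have h10 : 3 ≤ s := by have := hs.two_le; obtain ⟨a, rfl⟩ := h2; omega
  have key : ∀ u, n₂ = q * u → u ≤ q + 1 → False := fun u e hu => by
    have := Nat.le_of_dvd (Nat.pos_of_ne_zero fun e' => h0 (by rw [e, e', mul_zero]))
      (hc.dvd_of_dvd_mul_left (e ▸ hd))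
    nlinarith
  have h11 : (n₁ : ℤ) + n₂ = q * q * 2 := by exact_mod_cast h5
  rcases Int.natAbs_eq_iff.1 hk with e | e
  · obtain rfl | ⟨u, rfl⟩ : q = 0 ∨ ∃ u, q = u + 1 := by cases q <;> simp
    · omega
    · exact key u (by push_cast at e h11; zify; linarith) (by omega)
  · exact key (q + 1) (by push_cast at e h11; zify; linarith) le_rfl

end Cfsg.Agent.Fl.Rb
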