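import Cfsg.Agent.Fl.RB1

/-! Slice RB, part 2: the group theory of a minimal counterexample. -/

set_option autoImplicit false
set_option linter.style.haveILetI false
set_option linter.unusedSectionVars false

namespace Cfsg.Agent.Fl.Rb

open Subgroup Cfsg.Agent.H1 Cfsg.Agent.L Cfsg.Agent.FT
open scoped Pointwise commutatorElement

variable {Γ : Type} [Group Γ] {p : ℕ} {G K N R X Y : Subgroup Γ} {g z : Γ}

structure Pre (p : ℕ) (G R : Subgroup Γ) : Prop where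
  pp : p.Prime
  p2 : p ≠ 2
  rp : (#|R|).Prime
  r2 : Odd #|R|
  top : G ⊔ R = ⊤
  nG : R ≤ 𝐍(G)
  cop : (#|R|).Coprime #|G|
  pC : ¬ p ∣ #|G ⊓ 𝐂(R)|
  pcl : ∀ H < G, R ≤ 𝐍(H) → PCl p H
  ncl : ¬ PCl p G
  op : ∀ N ≤ G, IsPGroup p N → G ≤ 𝐍(N) → R ≤ 𝐍(N) → N = ⊥
  ab : ∀ K ≤ G, R ≤ 𝐍(K) → K ≤ 𝐂(K) → ¬ p ∣ #|K| → K ≤ 𝐂(R)
  odd : ∀ K ≤ G, R ≤ 𝐍(K) → Odd #|K| → ¬ p ∣ #|K| → K ≤ 𝐂(R)
  inv : zent G ≤ 𝐂(R) → ∀ a ∈ zent G, ∀ b ∈ zent G, a * a = 1 → b * b = 1 → a ≠ 1 → b = 1 ∨ b = a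
  rep : zent G ≤ 𝐂(R) → ∀ X ≤ G, ∀ z ∈ zent G, z * z = 1 → z ≠ 1 → IsPGroup 2 X → R ≤ 𝐍(X) → ⁅X, R⁆ = X →
    z ∈ X → (∀ x ∈ X ⊓ 𝐂(R), x = 1 ∨ x = z) → ⁅X, X⁆ ≤ 𝐂(R) → X ⊓ 𝐂(X) = X ⊓ 𝐂(R) →
    #|X| ≤ 2 * (#|R| - 1) ^ 2 ∧ G ⊓ 𝐂(X) ≤ 𝐂(R)

/-- `2`-subgroups `X = [X, R] ≠ 1` with `X' ≤ Z(G)` -/
structure Th (G R X : Subgroup Γ) : Prop where
  le : X ≤ G
  two : IsPGroup 2 X
  nr : R ≤ 𝐍(X)
  cm : ⁅X, R⁆ = X
  ne : X ≠ ⊥
  der : ⁅X, X⁆ ≤ 𝐂(G)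

variable [Finite Γ]

namespace Pre

variable (h : Pre p G R)
include h

theorem sol {Q : Prop} : Group.IsSolvable R ∨ Q := .inl (sol_of_comm (comm_of_cyclic (cyclic_of_prime h.rp)))

theorem cp (hK : K ≤ G) : (#|R|).Coprime #|K| := coprime_of_le h.cop le_rfl hK

theorem np (hN : N ⊴ G) (hR : R ≤ 𝐍(N)) (h1 : N ≠ G) : ¬ p ∣ #|N| := by
  obtain ⟨P, hP, hn⟩ := h.pcl N (hN.le.lt_of_ne h1) hR
  have := (sylow_hall h.pp hP).norm_le_norm hn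
  exact (sylow_eq_bot_iff h.pp hP).1 (h.op P (hP.le.trans hN.le) hP.isPGroup (hN.norm.trans this) (hR.trans this))

theorem pd : p ∣ #|G| := by
  by_contra e
  obtain ⟨P, hP⟩ := exists_isSylowIn p G
  exact h.ncl ⟨P, hP, (sylow_eq_bot_iff h.pp hP).2 e ▸ norm_bot.ge.trans' le_top⟩

theorem gen : ⁅G, R⁆ = G := by
  by_contra e
  have h1 := h.np ⟨comm_le_left h.nG, left_le_norm_comm G R⟩ (right_le_norm_comm G R) e
  have h2 := card_sup_dvd (H := G ⊓ 𝐂(R)) (N := ⁅G, R⁆) (inf_le_left.trans (left_le_norm_comm G R))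
  rw [sup_comm, commutator_sup_centralizer h.nG h.cop h.sol] at h2
  exact ((Nat.Prime.dvd_mul h.pp).1 (h.pd.trans h2)).elim h.pC h1

theorem cz (hN : G ≤ 𝐍(N)) (hR : N ≤ 𝐂(R)) : N ≤ 𝐂(G) := by
  have := three_subgroups (X := G) (Y := N) (Z := R) (comm_eq_bot_iff.2 ((comm_le_right hN).trans hR))
    (by rw [comm_eq_bot_iff.2 hR, commutator_bot_left])
  rw [commutator_comm R, h.gen] at this
  exact comm_eq_bot_iff'.1 this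

theorem zne : zent G ≠ G := fun e => by
  obtain ⟨P, hP⟩ := exists_isSylowIn p G
  exact h.ncl ⟨P, hP, (NormalIn.of_comm (zent_eq_self_iff.1 e) hP.le).norm⟩

theorem zp : ¬ p ∣ #|zent G| := h.np (zent_normal G) (h.nG.trans (norm_le_norm_zent G)) h.zne

theorem zR : zent G ≤ 𝐂(R) :=
  h.ab _ (zent_le G) (h.nG.trans (norm_le_norm_zent G)) (le_cent_self (zent_comm G)) h.zp

theorem two (h2 : IsPGroup 2 X) : ¬ p ∣ #|X| := fun e => by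
  obtain ⟨n, hn⟩ := pgroup_card Nat.prime_two h2
  exact h.p2 ((Nat.prime_dvd_prime_iff_eq h.pp Nat.prime_two).1 (h.pp.dvd_of_dvd_pow (hn ▸ e)))

theorem spec (hX : X ≤ G) (h2 : IsPGroup 2 X) (hR : R ≤ 𝐍(X)) (hc : ⁅X, R⁆ = X) :
    X ⊓ 𝐂(X) = X ⊓ 𝐂(R) ∧ (∀ x ∈ X, x * x ∈ 𝐂(R)) ∧ ⁅X, X⁆ ≤ 𝐂(R) ∧ (∀ a ∈ X ⊓ 𝐂(R), a * a = 1) ∧
      ∀ a ∈ ⁅X, X⁆, a * a = 1 := by
  obtain ⟨h1, h3, h4⟩ := spec0 h2 fun A hA hc' hn => by
    have e := h.ab A (hA.trans hX) (hR.trans hn) hc' (h.two (IsPGroup.le' h2 hA))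
    have := three_subgroups (X := X) (Y := A) (Z := R)
      (comm_eq_bot_iff.2 ((comm_le_right (le_normalizer.trans hn)).trans e))
      (by rw [comm_eq_bot_iff.2 e, commutator_bot_left])
    rw [commutator_comm R, hc] at this
    exact comm_eq_bot_iff'.1 this
  have h5 : zent X ≤ 𝐂(R) := h.ab _ ((zent_le X).trans hX) (hR.trans (norm_le_norm_zent X))
    (le_cent_self (zent_comm X)) (h.two (IsPGroup.le' h2 (zent_le X)))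
  have h6 : ⁅X, X⁆ ≤ 𝐂(R) := (le_zent (der1_le X) h1).trans h5
  have h7 := cent_le_der hR (h.cp hX) hc
  exact ⟨le_antisymm (le_inf inf_le_left h5) (le_inf inf_le_left (h7.trans h1)),
    fun x hx => h5 ⟨mul_mem hx hx, h3 x hx⟩, h6, fun a ha => h4 a (h7 ha), h4⟩

theorem exists_z (t : Th G R X) : ∃ z ∈ zent G, z * z = 1 ∧ z ≠ 1 ∧ z ∈ ⁅X, X⁆ ∧
    ∀ x ∈ X ⊓ 𝐂(R), x = 1 ∨ x = z := by
  obtain ⟨-, -, -, h4, h5⟩ := h.spec t.le t.two t.nr t.cm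
  have h6 := le_zent ((der1_le X).trans t.le) t.der
  obtain ⟨z, hz, h1⟩ := exists_mem_ne_one (H := ⁅X, X⁆) fun e => t.ne (t.cm ▸ comm_eq_bot_iff.2
    (h.ab X t.le t.nr (comm_eq_bot_iff.1 e) (h.two t.two)))
  exact ⟨z, h6 hz, h5 z hz, h1, hz, fun x hx =>
    h.inv h.zR z (h6 hz) x (h6 (cent_le_der t.nr (h.cp t.le) t.cm hx)) (h5 z hz) (h4 x hx) h1⟩

theorem thR (t : Th G R X) : #|X| ≤ 2 * (#|R| - 1) ^ 2 ∧ G ⊓ 𝐂(X) ≤ 𝐂(R) := by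
  obtain ⟨h1, -, h3, -⟩ := h.spec t.le t.two t.nr t.cm
  obtain ⟨z, a, b, c, d, e⟩ := h.exists_z t
  exact h.rep h.zR X t.le z a b c t.two t.nr t.cm (der1_le X d) e h3 h1

theorem thC (t : Th G R X) (hg : g ∈ G) (hc : ∀ x ∈ X, ⁅x, g⁆ ∈ 𝐂(G)) : ∃ y ∈ X, ∃ c ∈ 𝐂(R), g = y * c := by
  obtain ⟨h1, h2, h3, -⟩ := h.spec t.le t.two t.nr t.cm
  obtain ⟨z, a, b, c, d, e⟩ := h.exists_z t
  obtain ⟨y, hy, h4⟩ := exists_inn (g := g) t.two (cent_anti t.le a.2) b (fun a ha => e a ⟨der1_le X ha, h3 ha⟩)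
    (h1 ▸ cent_le_der t.nr (h.cp t.le) t.cm) fun x hx => by
      refine h.inv h.zR z a _ ⟨comm_le_of_le t.le le_rfl (commutator_mem_commutator hx hg), hc x hx⟩ b ?_ c
      rw [← cmul_left (hc x hx x (t.le hx)), commutatorElement_eq_one_iff_mul_comm]
      rcases e _ ⟨mul_mem hx hx, h2 x hx⟩ with e | e <;> rw [e]
      · simp
      · exact (a.2 g hg).symm
  exact ⟨y, hy, _, (h.thR t).2 ⟨G.mul_mem (G.inv_mem (t.le hy)) hg, h4⟩, (mul_inv_cancel_left y g).symm⟩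

theorem thM (t : Th G R X) (hY : Y ≤ X) (hR : R ≤ 𝐍(Y)) : Y ≤ 𝐂(R) ∨ Y = X := by
  have h1 := comm_le_left hR
  refine or_iff_not_imp_left.2 fun e => hY.antisymm (t.cm.ge.trans (le_trans
    (commutator_le_of_mul_centralizer fun g hg => h.thC (X := ⁅Y, R⁆) ⟨(h1.trans hY).trans t.le,
      IsPGroup.le' t.two (h1.trans hY), right_le_norm_comm Y R,
      commutator_commutator_eq hR (h.cp (hY.trans t.le)) h.sol, mt comm_eq_bot_iff.1 e,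
      (der1_mono (h1.trans hY)).trans t.der⟩ (t.le hg) fun x hx => t.der (commutator_mem_commutator (hY (h1 hx)) hg))
    ((comm_le_left (right_le_norm_comm Y R)).trans h1)))

theorem thN (t : Th G R X) : ⁅X, G ⊓ 𝐂(R) ⊓ 𝐍(X)⁆ ≤ X ⊓ 𝐂(R) := by
  obtain ⟨h1, h2, h3, h4, -⟩ := h.spec t.le t.two t.nr t.cm
  obtain ⟨z, a, b, c, d, e⟩ := h.exists_z t
  refine (le_centMod_iff.1 (le_of_forall_isSylowIn fun s hs => ?_)).2.2
  obtain ⟨T, hT⟩ := exists_isSylowIn s ↑(G ⊓ 𝐂(R) ⊓ 𝐍(X))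
  obtain ⟨⟨t1, t2⟩, t3⟩ := (le_inf_iff.1 hT.le).imp_left le_inf_iff.1
  have t4 : R ≤ 𝐍(T) := le_norm_of_le_cent (le_cent_symm t2)
  refine ⟨T, hT, le_centMod_iff.2 ⟨t3, le_norm_subcent t3 (le_norm_of_le_cent t2), le_inf (comm_le_left t3) ?_⟩⟩
  by_cases s2 : s = 2
  · subst s2
    refine (h.thM t (comm_le_left t3) (le_normalizer_commutator t.nr t4)).resolve_right fun e => t.ne ?_
    exact eq_bot_iff.2 (B1.le_of_le_sup_comm (NormalIn.bot _) (NormalIn.refl (X ⊔ T))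
      (pgroup_nil Nat.prime_two (pgroup_sup t.two hT.isPGroup (.inr t3))) le_sup_left
      (le_sup_of_le_right (e.ge.trans (commutator_mono le_rfl le_sup_right))))
  refine (h.thM t (Y := X ⊓ 𝐂(T)) inf_le_left (le_norm_subcent t.nr t4)).elim (fun h5 => ?_) fun h5 =>
    comm_eq_bot_iff.2 (inf_eq_left.1 h5) ▸ bot_le
  by_cases hT1 : T = ⊥
  · rw [hT1, commutator_bot_right]; exact bot_le
  exfalso
  have hZ : #|X ⊓ 𝐂(R)| = 2 := by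
    rw [show X ⊓ 𝐂(R) = zpowers z from le_antisymm (fun x hx => by rcases e x hx with rfl | rfl <;> simp)
      (zpowers_le.2 ⟨der1_le X d, h3 d⟩), Nat.card_zpowers, orderOf_eq_prime (by rwa [sq]) c]
  obtain ⟨Rd, -, r1, r2⟩ := gauss (E := X) (A := X ⊓ 𝐂(R)) (B := ⊥) (h1 ▸ inf_le_right)
    (by rwa [relIndex_bot_left]) (fun x hx => ⟨mul_mem hx hx, h2 x hx⟩) (le_inf (der1_le X) h3)
  obtain rfl : Rd = X ⊓ 𝐂(R) := h1 ▸ Subgroup.ext fun y => by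
    simp only [r1, mem_bot, commutatorElement_eq_one_iff_mul_comm, mem_inf, mem_cent]
  obtain ⟨m, hm⟩ := pgroup_card Nat.prime_two t.two
  refine r2.elim (fun r2 => num1 (m := m) h.rp hs (fun e => ?_) h.r2 (hs.odd_of_ne_two s2)
    (dvd_card_sq h.rp (pgroup_of_card_prime rfl) t.nr h4) (dvd_card_sq hs hT.isPGroup t3 fun x hx => h4 x ⟨hx.1, h5 hx⟩)
    (fun e => c ?_) ?_ (hm ▸ (h.thR t).1) (hm ▸ hZ ▸ r2)) fun ⟨_, y, hy, r3⟩ => r3 (h4 y hy)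
  · exact (h.rp.coprime_iff_not_dvd.1 (h.cp t1)) (e ▸ pgroup_dvd_card hs hT.isPGroup hT1)
  · have h6 : ∀ x ∈ X, x * x = 1 := fun x hx => by
      by_contra e'
      exact (Nat.card_eq_zero.1 e).elim (fun h => h.false ⟨x, hx, e'⟩) fun h => h.false
    refine (commutator_le (H₃ := ⊥)).2 (fun x hx y hy => ?_) d
    rw [mem_bot, commutatorElement_def, inv_eq_of_mul_eq_one_right (h6 x hx), inv_eq_of_mul_eq_one_right (h6 y hy),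
      mul_assoc _ x, h6 _ (mul_mem hx hy)]
  · classical
    rw [← hm, ← Nat.card_sum]
    exact Nat.card_congr (((Equiv.subtypeSubtypeEquivSubtypeInter (· ∈ X) fun x => x * x ∈ (⊥ : Subgroup Γ)).symm.sumCongr
      (Equiv.subtypeSubtypeEquivSubtypeInter (· ∈ X) fun x => x * x ∉ (⊥ : Subgroup Γ)).symm).trans
      (Equiv.sumCompl fun x : X => (x : Γ) * x ∈ (⊥ : Subgroup Γ)))

end Pre

end Cfsg.Agent.Fl.Rb
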