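import Cfsg.Agent.Fl.RB2

/-! Slice RB, part 3: invariant normal subgroups are central. -/

set_option autoImplicit false
set_option linter.style.haveILetI false

namespace Cfsg.Agent.Fl.Rb

open Subgroup Cfsg.Agent.H1 Cfsg.Agent.L Cfsg.Agent.FT
open scoped Pointwise commutatorElement

theorem num2 {r n c e : ℕ} (hr : 0 < r) (h1 : 2 ^ r * n = c ^ r * 2) (h2 : n * 2 = c * e) (h3 : e ≤ 2 * (r - 1) ^ 2)
    (h4 : 8 ≤ c) : False := by
  obtain ⟨k, rfl⟩ : ∃ k, r = k + 1 := ⟨r - 1, by omega⟩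
  have h5 : c * (2 ^ k * e) = c * (c ^ k * 2) := by rw [pow_succ, pow_succ] at h1; linear_combination h1 - 2 ^ k * h2
  have h6 := Nat.pow_le_pow_left h4 k
  rw [show 8 = 2 * 2 * 2 by rfl, mul_pow, mul_pow] at h6
  have h7 := Nat.eq_of_mul_eq_mul_left (by omega) h5
  have h8 := Nat.lt_two_pow_self (n := k)
  rw [Nat.add_sub_cancel] at h3
  generalize 2 ^ k = a at *
  have : a * e ≤ a * (2 * k ^ 2) := Nat.mul_le_mul_left a h3
  have : a * (k * k) < a * (a * a) := Nat.mul_lt_mul_of_pos_left (Nat.mul_self_lt_mul_self h8) (by omega)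
  nlinarith

variable {Γ : Type} [Group Γ] [Finite Γ] {p : ℕ} {G K R S T : Subgroup Γ}

namespace Pre

variable (h : Pre p G R)
include h

theorem two_case (hT : T ⊴ G) (h2 : IsPGroup 2 T) (hR : R ≤ 𝐍(T)) (hS : S ≤ G) (pS : IsPGroup p S)
    (hRS : R ≤ 𝐍(S)) (e : ⁅T, S⁆ = T) : T ≤ 𝐂(R) := by
  by_contra hc
  have ab : ∀ A ≤ T, A ≤ 𝐂(A) → 𝐍(T) ≤ 𝐍(A) → A ≤ 𝐂(G) := fun A h1 h3 h4 => h.cz (hT.norm.trans h4)
    (h.ab A (h1.trans hT.le) (hR.trans h4) h3 (h.two (IsPGroup.le' h2 h1)))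
  obtain ⟨h1, -, h3⟩ := spec0 h2 fun A a b c => (ab A a b c).trans (cent_anti hT.le)
  have zT : zent T ≤ 𝐂(G) := ab _ (zent_le T) (le_cent_self (zent_comm T)) (norm_le_norm_zent T)
  have dT : ⁅T, T⁆ ≤ zent G := le_zent ((der1_le T).trans hT.le) ((le_zent (der1_le T) h1).trans zT)
  have hE := comm_le_left hR
  have t : Th G R ⁅T, R⁆ := ⟨hE.trans hT.le, IsPGroup.le' h2 hE, right_le_norm_comm T R,
    commutator_commutator_eq hR (h.cp hT.le) h.sol, mt comm_eq_bot_iff.1 hc,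
    (der1_mono hE).trans (dT.trans (zent_le_cent G))⟩
  obtain ⟨z, a, b, c, d, f⟩ := h.exists_z t
  have cS : (#|S|).Coprime #|T| := pgroup_coprime_pgroup h.pp Nat.prime_two h.p2 pS h2
  have hz : #|zpowers z| = 2 := by rw [Nat.card_zpowers, orderOf_eq_prime (by rwa [sq]) c]
  have h4 : T ⊓ 𝐂(S) ≤ zpowers z := fun x hx => by
    have := cent_le_der (hS.trans hT.norm) cS e hx
    rcases h.inv h.zR z a x (dT this) b (h3 x this) c with rfl | rfl <;> simp
  have zE := der1_le _ d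
  have h5 : zpowers z ≤ T ⊓ 𝐂(S ⊔ R) := zpowers_le.2 ⟨hE zE, (cent_sup S R).ge ⟨cent_anti hS a.2, h.zR a⟩⟩
  have h6 := inf_le_inf_left T (cent_anti (le_sup_left : S ≤ S ⊔ R))
  have w := B3.wielandt hRS (B3.semiReg_of_prime h.rp (by
      by_contra e
      exact h.pC ((pgroup_dvd_card h.pp (IsPGroup.le' pS inf_le_left) e).trans (card_dvd_of_le' (inf_le_inf_right _ hS)))))
    (sol_of_pgroup h.pp pS) (sup_le (hS.trans hT.norm) hR)
    (((cS.mul_left (h.cp hT.le)).symm.coprime_dvd_right (by rw [sup_comm, mul_comm]; exact card_sup_dvd hRS)))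
    (sol_of_pgroup Nat.prime_two h2)
  rw [(h6.trans h4).antisymm h5, h4.antisymm (h5.trans h6), hz] at w
  have h7 := commutator_sup_centralizer hR (h.cp hT.le) h.sol
  have h8 := card_sup_mul_card_inf (H := T ⊓ 𝐂(R)) (N := ⁅T, R⁆) (inf_le_left.trans (left_le_norm_comm T R))
  rw [sup_comm, h7, show T ⊓ 𝐂(R) ⊓ ⁅T, R⁆ = zpowers z from le_antisymm (fun x hx => by
    rcases f x ⟨hx.2, hx.1.2⟩ with rfl | rfl <;> simp) (zpowers_le.2 ⟨⟨hE zE, h.zR a⟩, zE⟩), hz] at h8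
  obtain ⟨j, hj⟩ := pgroup_card Nat.prime_two (IsPGroup.le' h2 (inf_le_left : T ⊓ 𝐂(R) ≤ T))
  rcases le_or_gt 3 j with h9 | h9
  · exact num2 h.rp.pos w h8 (h.thR t).1 (hj ▸ Nat.pow_le_pow_right two_pos h9)
  have h10 : IsMulCommutative ↥(T ⊓ 𝐂(R)) := by
    interval_cases j
    · exact card_eq_one.1 hj ▸ inferInstance
    · exact comm_of_cyclic (cyclic_of_prime (hj ▸ Nat.prime_two))
    · exact IsPGroup.isMulCommutative_of_card_eq_prime_sq hj
  have h11 := three_subgroups (X := T) (Y := T ⊓ 𝐂(R)) (Z := R) (comm_eq_bot_iff.2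
    ((commutator_mono le_rfl inf_le_left).trans (dT.trans h.zR))) (by rw [comm_eq_bot_iff.2 inf_le_right, commutator_bot_left])
  rw [commutator_comm R] at h11
  have h12 : T ⊓ 𝐂(R) ≤ zpowers z := le_trans (le_inf inf_le_left ((le_zent inf_le_left (by
    rw [← h7, cent_sup, h7]; exact le_inf (comm_eq_bot_iff'.1 h11) (le_cent_self h10))).trans (zT.trans (cent_anti hS)))) h4
  have h13 := Nat.pow_le_pow_left (hz ▸ card_le_of_le' h12) #|R|
  rw [← eq_of_le_of_card_le (h5.trans inf_le_left) (hz ▸ Nat.le_of_mul_le_mul_left (w.le.trans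
    (Nat.mul_le_mul_right 2 h13)) (by positivity))] at hc
  exact hc (zpowers_le.2 (h.zR a))

theorem nrm (hK : K ⊴ G) (hR : R ≤ 𝐍(K)) (h1 : K ≠ G) : K ≤ 𝐂(G) := by
  haveI := Fact.mk h.pp
  obtain ⟨S, hS, hRS⟩ := exists_invariant_isSylowIn p h.nG h.cop h.sol
  have key : ∀ L ≤ G, ¬ p ∣ #|L| → S ≤ 𝐍(L) → R ≤ 𝐍(L) → L ⊔ S ≠ G → L ≤ 𝐂(S) := fun L a b c d e => by
    obtain ⟨P, hP, hn⟩ := h.pcl _ ((sup_le a hS.le).lt_of_ne e) (le_normalizer_sup d hRS)
    obtain rfl := hS.maximal P hP.isPGroup (sylow_le_of_norm h.pp hP le_sup_right hS.isPGroup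
      (.inr (le_sup_right.trans hn))) (hP.le.trans (sup_le a hS.le))
    exact le_cent_of_disjoint c (le_sup_left.trans hn) (inf_eq_bot_of_coprime' (pgroup_coprime h.pp hS.isPGroup b).symm)
  by_contra hc
  have pK := h.np hK hR h1
  have cK : (#|S ⊔ R|).Coprime #|K| := ((pgroup_coprime h.pp hS.isPGroup pK).mul_left (h.cp hK.le)).coprime_dvd_left
    (by rw [sup_comm, mul_comm]; exact card_sup_dvd hRS)
  obtain ⟨t, ht, T, hT, hn, hTS⟩ : ∃ t : ℕ, t.Prime ∧ ∃ T, IsSylowIn t T K ∧ S ⊔ R ≤ 𝐍(T) ∧ ¬ T ≤ 𝐂(S) := by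
    by_contra! e
    refine h.np (NormalIn.subcent hK.norm) (le_norm_subcent h.nG hR) (fun e => hc (le_cent_symm (e.ge.trans inf_le_right)))
      ((pgroup_dvd_card h.pp hS.isPGroup (sylow_ne_bot h.pp hS h.pd)).trans (card_dvd_of_le' (le_inf hS.le
        (le_cent_symm (le_of_forall_isSylowIn fun t ht => ?_)))))
    haveI := Fact.mk ht
    obtain ⟨T, a, b⟩ := exists_invariant_isSylowIn t (sup_le (hS.le.trans hK.norm) hR) cK (.inl
      ((SDProd.mk_sup hRS (inf_eq_bot_of_coprime' (h.cp hS.le).symm)).sol (sol_of_pgroup h.pp hS.isPGroup)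
        (h.sol.elim id False.elim)))
    exact ⟨T, a, e t ht T a b⟩
  obtain ⟨n1, n2⟩ := sup_le_iff.1 hn
  have TG := hT.le.trans hK.le
  have pT : ¬ p ∣ #|T| := fun e => pK (e.trans (card_dvd_of_le' hT.le))
  have cT := pgroup_coprime h.pp hS.isPGroup pT
  have hE := comm_le_left n1
  have hG : ⁅T, S⁆ ⊔ S = G := by_contra fun e => hTS (le_cent_symm (le_centralizer_of_commutator_commutator n1 cT
    (.inl (sol_of_pgroup h.pp hS.isPGroup)) (key _ (hE.trans TG) (fun e => pT (e.trans (card_dvd_of_le' hE)))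
      (right_le_norm_comm T S) (le_normalizer_commutator n2 hRS) e)))
  have TN : G ≤ 𝐍(T) := hG ▸ sup_le (hE.trans le_normalizer) n1
  have e : ⁅T, S⁆ = T := by
    have := sup_inf_modular (B := S) hE (.inl (right_le_norm_comm T S))
    rwa [hG, inf_eq_right.2 TG, inf_eq_bot_of_coprime' cT, sup_bot_eq, eq_comm] at this
  refine hTS ((h.cz TN ?_).trans (cent_anti hS.le))
  by_cases t2 : t = 2
  · exact h.two_case ⟨TG, TN⟩ (t2 ▸ hT.isPGroup) n2 hS.le hS.isPGroup hRS e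
  · obtain ⟨m, hm⟩ := pgroup_card ht hT.isPGroup
    exact h.odd T TG n2 (hm ▸ (ht.odd_of_ne_two t2).pow) pT

end Pre

end Cfsg.Agent.Fl.Rb
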