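import Cfsg.Agent.Fl.RB3

/-! Slice RB, part 4: the central quotient is a core configuration. -/

set_option autoImplicit false
set_option linter.style.haveILetI false

namespace Cfsg.Agent.Fl.Rb

open Subgroup Cfsg.Agent.H1 Cfsg.Agent.L Cfsg.Agent.FT
open scoped Pointwise commutatorElement

variable {Γ : Type} [Group Γ] [Finite Γ] {p : ℕ} {G K R S T : Subgroup Γ}

theorem simple_of (hp : p.Prime) (rp : (#|R|).Prime) (nG : R ≤ 𝐍(G)) (cop : (#|R|).Coprime #|G|) (pd : p ∣ #|G|)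
    (pC : ¬ p ∣ #|G ⊓ 𝐂(R)|) (np : ¬ IsPGroup p G) (hi : ∀ N, N ⊴ G → R ≤ 𝐍(N) → N = ⊥ ∨ N = G) :
    IsSimpleGroup G := by
  haveI := Fact.mk hp
  haveI : Nontrivial G := G.nontrivial_iff_ne_bot.2 fun e => np (e ▸ IsPGroup.of_bot)
  refine ⟨fun N _ => ?_⟩
  by_contra! hN
  obtain ⟨K, k1, hK⟩ := exists_minNormal_le (mt (map_eq_bot_iff_of_injective N G.subtype_injective).1 hN.1)
    (NormalIn.map_subtype N).norm
  have kG : K ⊴ G := ⟨k1.trans (map_subtype_le N), hK.norm⟩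
  have k2 : ∀ a ∈ R, a ≠ 1 → a ⋆ K ≤ 𝐂(K) := fun a ha a1 => by
    have n : a ⋆ K ⊴ G := by simpa only [conj_of_mem_norm (nG ha)] using kG.conj a
    refine le_cent_of_disjoint (kG.le.trans n.norm) (n.le.trans kG.norm) (by_contra fun e => ?_)
    have := eq_of_le_of_card_le (inf_eq_right.1 (hK.min _ inf_le_right e (n.inf kG).norm)) (card_conj a K).le
    refine (hi K kG (zpowers_eq_of_prime rp ha a1 ▸ zpowers_le.2 (conj_eq_self_iff.1 this.symm))).elim hK.ne_bot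
      fun e => hN.2 (eq_top_iff.2 fun x _ => ?_)
    obtain ⟨y, hy, e'⟩ := k1 (e.ge x.2)
    exact (Subtype.ext e' : y = x) ▸ hy
  have co : ∀ π, ∀ L, L ⊴ G → L ≠ ⊥ → PiGrp π L → PiGrp π G := fun π L a b c =>
    (hi _ (core_normal π G) (le_norm_core nG π)).resolve_left (ne_bot_of_le b (le_core a c)) ▸ core_pi π G
  obtain ⟨S, hS, hRS⟩ := exists_invariant_isSylowIn p nG cop (.inl (sol_of_comm (comm_of_cyclic (cyclic_of_prime rp))))
  have h1 := sylow_inf_normal' hp hS kG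
  obtain ⟨x, ⟨(xS : x ∈ S), (xK : x ∈ K)⟩, hx⟩ := exists_mem_orderOf_eq hp (pgroup_dvd_card hp h1.isPGroup (sylow_ne_bot hp h1
    (by_contra fun e => (piGrp_compl_iff hp).1 (co _ K kG hK.ne_bot ((piGrp_compl_iff hp).2 e)) pd)))
  obtain ⟨a, ha, a0⟩ := exists_mem_orderOf_eq rp dvd_rfl
  have a1 : a ≠ 1 := fun e => rp.one_lt.ne (by rw [← a0, e, orderOf_one])
  let φ : S →* S := (S.normalizerMonoidHom ⟨a, hRS ha⟩).toMonoidHom
  have h2 : ∀ k (y : S), (φ^[k] y : Γ) = a ^ k * y * (a ^ k)⁻¹ := fun k y => by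
    induction k with
    | zero => simp
    | succ k ih =>
      rw [Function.iterate_succ_apply']
      change a * (φ^[k] y : Γ) * a⁻¹ = _
      rw [ih]; group
  obtain ⟨n, hn⟩ : ∃ n, #|R| = n + 1 := ⟨_, (Nat.succ_pred_eq_of_pos rp.pos).symm⟩
  have h3 := MonoidHom.FixedPointFree.prod_pow_eq_one (G := S) (φ := φ) (fun y hy => by
    by_contra e
    refine pC ((pgroup_dvd_card hp (IsPGroup.le' hS.isPGroup (inf_le_left (b := 𝐂(R)))) (ne_bot_of_mem (x := (y : Γ)) ⟨y.2, ?_⟩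
      fun e' => e (Subtype.ext e'))).trans (card_dvd_of_le' (inf_le_inf_right 𝐂(R) hS.le)))
    rw [← cent1_eq_cent_of_prime rp ha a1]
    exact mem_cent1.2 (mul_inv_eq_iff_eq_mul.1 (congrArg Subtype.val hy : a * y * a⁻¹ = y)).symm)
    (n := n + 1) (funext fun y => Subtype.ext (by rw [h2, ← hn, ← a0, pow_orderOf_eq_one]; simp)) ⟨x, xS⟩
  rw [List.range_succ_eq_map, List.map_cons, List.prod_cons, mul_eq_one_iff_eq_inv] at h3
  have h4 : (⟨x, xS⟩ : S) ∈ (𝐂(K)).subgroupOf S := by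
    rw [show (⟨x, xS⟩ : S) = _ from h3]
    refine inv_mem (list_prod_mem fun y hy => ?_)
    simp only [List.map_map, List.mem_map, List.mem_range, Function.comp] at hy
    obtain ⟨k, hk, rfl⟩ := hy
    rw [mem_subgroupOf, h2]
    exact k2 _ (pow_mem ha _) (pow_ne_one_of_lt_orderOf k.succ_ne_zero (by omega)) (conj_mem_conj _ xK)
  exact np ((co {p} _ (kG.zent.omega p) (ne_bot_of_mem (mem_omega (x := x) ⟨xK, h4⟩ (hx ▸ pow_orderOf_eq_one x))
    fun e => hp.one_lt.ne (by rw [← hx, e, orderOf_one]))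
    ((piGrp_iff_isPGroup hp).2 (abelem_pgroup (omega_zent_abelem p K)))).isPGroup hp)

namespace Pre

variable {Γ' : Type} [Group Γ'] [Finite Γ'] {f : Γ →* Γ'} {X : Subgroup Γ'} (h : Pre p G R)
  (hs : Function.Surjective f) (hk : f.ker = zent G)
include h hs hk

omit [Finite Γ'] in
theorem comap_cent : (𝐂(R.map f)).comap f = 𝐂(R) := by
  rw [← map_centralizer_eq hs (hk ▸ h.cp (zent_le G)) h.sol, comap_map_eq_self (hk ▸ h.zR)]

omit [Finite Γ] [Finite Γ'] h hs in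
theorem pre (hX : X ≤ G.map f) (hR : R.map f ≤ 𝐍(X)) : X.comap f ≤ G ∧ R ≤ 𝐍(X.comap f) :=
  ⟨(comap_mono hX).trans (comap_map_eq_self (hk ▸ zent_le G)).le, (le_comap_map f R).trans (comap_le_norm f hR)⟩

omit [Finite Γ'] in
theorem lift (hX : X ≤ G.map f) (h2 : IsPGroup 2 X) (hR : R.map f ≤ 𝐍(X)) (hc : ⁅X, R.map f⁆ = X) :
    ∃ Y ≤ G, IsPGroup 2 Y ∧ R ≤ 𝐍(Y) ∧ ⁅Y, R⁆ = Y ∧ Y.map f = X := by
  obtain ⟨a, b⟩ := pre hk hX hR
  obtain ⟨T, hT, c⟩ := exists_invariant_isSylowIn 2 b (h.cp a) h.sol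
  have := hT.map f
  rw [map_comap_eq_self_of_surjective hs] at this
  exact ⟨⁅T, R⁆, (comm_le_left c).trans (hT.le.trans a), IsPGroup.le' hT.isPGroup (comm_le_left c),
    right_le_norm_comm T R, commutator_commutator_eq c (h.cp (hT.le.trans a)) h.sol,
    by rw [Subgroup.map_commutator, this.eq_of_isPGroup h2, hc]⟩

omit [Finite Γ'] in
theorem lift_th (t : Thin (G.map f) (R.map f) X) : ∃ Y, Th G R Y ∧ Y.map f = X := by
  obtain ⟨Y, a, b, c, d, rfl⟩ := h.lift hs hk t.le t.two t.nr t.cm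
  refine ⟨Y, ⟨a, b, c, d, fun e => t.ne (e ▸ map_bot f), le_trans ?_ (zent_le_cent G)⟩, rfl⟩
  rw [← hk, ← Subgroup.map_eq_bot_iff, Subgroup.map_commutator, comm_eq_bot_iff]; exact t.ab

theorem core : Core p (G.map f) (R.map f) := by
  haveI := Fact.mk h.pp
  have hR : #|R.map f| = #|R| := by
    rw [← card_map_mul_card_inf_ker f R, hk, inf_eq_bot_of_coprime' (h.cp (zent_le G)).symm, card_bot, mul_one]
  have hC := h.comap_cent hs hk
  have mC : ∀ Y : Subgroup Γ, Y.map f ≤ 𝐂(R.map f) ↔ Y ≤ 𝐂(R) := fun Y => by rw [map_le_iff_le_comap, hC]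
  have cop : (#|R.map f|).Coprime #|G.map f| := hR ▸ h.cop.coprime_dvd_right (card_map_dvd _ f)
  have pC : ¬ p ∣ #|G.map f ⊓ 𝐂(R.map f)| := fun e => h.pC (e.trans (by
    rw [← map_inf_centralizer_eq (hk ▸ zent_le G) (hk ▸ h.cp (zent_le G)) h.sol]; exact card_map_dvd _ f))
  have np : ¬ IsPGroup p (G.map f) := fun e => by
    obtain ⟨P, hP⟩ := exists_isSylowIn p G
    refine h.ncl ⟨P, hP, le_trans ?_ (sup_le le_normalizer (le_norm_of_le_cent ((zent_le_cent G).trans (cent_anti hP.le))))⟩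
    rw [← hk, ← comap_map_eq, (hP.map f).eq_of_isPGroup e]; exact le_comap_map f G
  have ne : ∀ {X : Subgroup Γ'}, X ≠ G.map f → X.comap f ≠ G := fun e e' =>
    e (by rw [← e', map_comap_eq_self_of_surjective hs])
  refine ⟨h.pp, h.p2, hR ▸ h.rp, hR ▸ h.r2, by rw [← Subgroup.map_sup, h.top, map_top_of_surjective f hs],
    map_le_norm f h.nG, cop, simple_of h.pp (hR ▸ h.rp) (map_le_norm f h.nG) cop ?_ pC np fun N a b => ?_,
    by rw [← Subgroup.map_commutator, h.gen], np, pC, fun H a b => ?_, fun K a b c d => ?_, fun X a b c d => ?_,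
    fun X t => ?_, fun X t => ?_⟩
  · have := h.pd
    rw [← card_map_mul_card_inf_ker f G, hk, inf_eq_left.2 (zent_le G)] at this
    exact ((Nat.Prime.dvd_mul h.pp).1 this).resolve_right h.zp
  · obtain ⟨c, d⟩ := pre hk a.le b
    refine or_iff_not_imp_right.2 fun e => ?_
    rw [← map_comap_eq_self_of_surjective hs N, Subgroup.map_eq_bot_iff, hk]
    exact le_zent c (h.nrm ⟨c, (le_comap_map f G).trans (comap_le_norm f a.norm)⟩ d (ne e))
  · obtain ⟨c, d⟩ := pre hk a.le b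
    obtain ⟨P, hP, e⟩ := h.pcl _ (c.lt_of_ne (ne a.ne)) d
    exact map_comap_eq_self_of_surjective hs H ▸ ⟨_, hP.map f, map_le_norm f e⟩
  · obtain ⟨a', b'⟩ := pre hk a b
    rw [← map_comap_eq_self_of_surjective hs K, mC]
    refine le_of_forall_isSylowIn fun t ht => ?_
    haveI := Fact.mk ht
    obtain ⟨T, hT, e⟩ := exists_invariant_isSylowIn t b' (h.cp a') h.sol
    refine ⟨T, hT, ?_⟩
    obtain ⟨m, hm⟩ := pgroup_card ht hT.isPGroup
    by_cases t2 : t = 2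
    · subst t2
      have := hT.map f
      rw [map_comap_eq_self_of_surjective hs] at this
      exact (hk ▸ (Subgroup.map_eq_bot_iff T).1 ((sylow_eq_bot_iff ht this).2 c.not_two_dvd_nat)).trans h.zR
    · refine h.odd T (hT.le.trans a') e (hm ▸ (ht.odd_of_ne_two t2).pow) fun e' => ?_
      have := e'.trans (card_dvd_of_le' hT.le)
      rw [card_comap_of_surjective hs, hk] at this
      exact ((Nat.Prime.dvd_mul h.pp).1 this).elim d h.zp
  · obtain ⟨Y, a', b', c', d', rfl⟩ := h.lift hs hk a b c d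
    obtain ⟨h1, h2, h3, h4, -⟩ := h.spec a' b' c' d'
    have e : Y.map f ⊓ 𝐂(R.map f) = (Y ⊓ 𝐂(R)).map f := le_antisymm (by
      rintro _ ⟨⟨x, hx, rfl⟩, e⟩
      exact mem_map_of_mem f ⟨hx, hC.le e⟩) (le_inf (map_mono inf_le_left) (map_le_cent f inf_le_right))
    refine ⟨e ▸ map_le_cent f (h1 ▸ inf_le_right), ?_, by rw [← Subgroup.map_commutator, mC]; exact h3, ?_⟩
    · rintro _ ⟨x, hx, rfl⟩
      rw [← map_mul, ← mem_comap, hC]; exact h2 x hx
    · rw [e]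
      rintro _ ⟨x, hx, rfl⟩
      rw [← map_mul, h4 x hx, map_one]
  · obtain ⟨Y, t', rfl⟩ := h.lift_th hs hk t
    refine (commutator_le_of_mul_centralizer ?_).trans (comm_le_left t.nr)
    rintro _ ⟨⟨g, hg, rfl⟩, e⟩
    obtain ⟨y, hy, c, hc, rfl⟩ := h.thC t' hg fun x hx => zent_le_cent G (hk ▸ by
      rw [MonoidHom.mem_ker, map_commutatorElement, commutatorElement_eq_one_iff_mul_comm]
      exact e _ (mem_map_of_mem f hx))
    exact ⟨_, mem_map_of_mem f hy, f c, by rwa [← mem_comap, hC], map_mul f y c⟩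
  · obtain ⟨Y, t', rfl⟩ := h.lift_th hs hk t
    rintro _ ⟨⟨⟨g, hg, rfl⟩, c⟩, n⟩
    replace c : g ∈ 𝐂(R) := hC.le c
    have e : ⁅(Y.map f).comap f, R⁆ = Y := le_antisymm ((commutator_le_of_mul_centralizer fun k hk' => by
      rw [comap_map_eq, hk] at hk'
      obtain ⟨y, hy, z, hz, rfl⟩ := (H1.mem_sup_of_le_normalizer' (le_norm_of_le_cent
        ((zent_le_cent G).trans (cent_anti t'.le)))).1 hk'
      exact ⟨y, hy, z, h.zR hz, rfl⟩).trans t'.cm.le) (t'.cm.ge.trans (commutator_mono (le_comap_map f Y) le_rfl))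
    have n' : g ∈ 𝐍(Y) := e ▸ le_normalizer_commutator (A := zpowers g) ((le_comap_map f _).trans (comap_le_norm f
      (by rw [MonoidHom.map_zpowers]; exact zpowers_le.2 n))) (zpowers_le.2 (cent_le_norm R c)) (mem_zpowers g)
    rintro _ ⟨x, hx, rfl⟩
    rw [← commutatorElement_eq_one_iff_mul_comm, ← map_commutatorElement, ← MonoidHom.mem_ker, hk]
    exact (le_zent ((der1_le Y).trans t'.le) t'.der) (cent_le_der t'.nr (h.cp t'.le) t'.cm
      (h.thN t' (commutator_mem_commutator hx ⟨⟨hg, c⟩, n'⟩)))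

end Pre

theorem Pre.elim [CoreF] (h : Pre p G R) : False :=
  haveI : (zent G).Normal := NormalIn.top_iff.1 (NormalIn.of_le_cent le_top
    (h.top ▸ (cent_sup G R).ge.trans' (le_inf (zent_le_cent G) h.zR)))
  CoreF.out (h.core (QuotientGroup.mk'_surjective (zent G)) (QuotientGroup.ker_mk' _))

end Cfsg.Agent.Fl.Rb
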