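import Cfsg.Agent.Fl.RB4

/-! Slice RB, part 5: reduction to the minimal counterexample. -/

set_option autoImplicit false
set_option linter.style.haveILetI false

namespace Cfsg.Agent.Fl.Rb

open Subgroup Cfsg.Agent.H1 Cfsg.Agent.L Cfsg.Agent.FT Cfsg.Agent.FT.Rp Module
open scoped Pointwise commutatorElement

variable {F : Type} [Field F] {p : ℕ}

section
variable {Γ W : Type} [Group Γ] [AddCommGroup W] [Module F W]

def PC (p : ℕ) (ρ : Representation F Γ W) (G : Subgroup Γ) : Prop :=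
  ∀ x ∈ G, ∀ y ∈ G, ∀ i j : ℕ, x ^ p ^ i = 1 → y ^ p ^ j = 1 → ∃ k : ℕ, ρ ((x * y) ^ p ^ k) = 1

structure Hy (p : ℕ) (G R : Subgroup Γ) : Prop where
  rp : (#|R|).Prime
  ne : #|R| ≠ p
  nG : R ≤ 𝐍(G)
  cop : (#|R|).Coprime #|G|
  pC : ¬ p ∣ #|G ⊓ 𝐂(R)|

variable {ρ : Representation F Γ W} {G H R : Subgroup Γ}

theorem PC.pcl (h : PC p ρ H) (hf : H ⊓ MonoidHom.ker ρ = ⊥) : PCl p H := by
  let P : Subgroup Γ :=
    { carrier := {x | x ∈ H ∧ ∃ i, x ^ p ^ i = 1}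
      mul_mem' := fun {x y} ⟨hx, i, a⟩ ⟨hy, j, b⟩ => ⟨mul_mem hx hy, (h x hx y hy i j a b).imp fun k e =>
        hf.le ⟨pow_mem (mul_mem hx hy) _, e⟩⟩
      one_mem' := ⟨one_mem _, 0, one_pow _⟩
      inv_mem' := fun {x} ⟨hx, i, a⟩ => ⟨inv_mem hx, i, by rw [inv_pow, a, inv_one]⟩ }
  exact ⟨P, ⟨fun x hx => hx.1, fun x => x.2.2.imp fun k e => Subtype.ext e, fun Q a b c => le_antisymm
    (fun x hx => ⟨c hx, (a ⟨x, hx⟩).imp fun k e => congrArg Subtype.val e⟩) b⟩,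
    le_norm_iff.2 fun a ha x ⟨hx, i, e⟩ => ⟨mul_mem (mul_mem ha hx) (inv_mem ha), i, by rw [conj_pow, e]; simp⟩⟩

theorem PCl.pc (h : PCl p H) (hp : p.Prime) [Finite Γ] (ρ : Representation F Γ W) : PC p ρ H := fun x hx y hy i j a b => by
  obtain ⟨P, hP, hn⟩ := h
  have : ∀ x ∈ H, ∀ i, x ^ p ^ i = 1 → x ∈ P := fun x hx i a => zpowers_le.1 (sylow_le_of_norm hp hP (zpowers_le.2 hx)
    (by rintro ⟨_, k, rfl⟩; exact ⟨i, Subtype.ext (by
      change (x ^ k) ^ p ^ i = 1; rw [← zpow_natCast, zpow_comm, zpow_natCast, a, one_zpow])⟩)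
    (.inr ((zpowers_le.2 hx).trans hn)))
  obtain ⟨k, e⟩ := hP.isPGroup ⟨_, mul_mem (this x hx i a) (this y hy j b)⟩
  exact ⟨k, by rw [show (x * y) ^ p ^ k = 1 from congrArg Subtype.val e, map_one]⟩

theorem PC.of_sub [CharP F p] (U : Submodule F W) (hU : ∀ g, U ≤ U.comap (ρ g))
    (h1 : PC p (ρ.subrepresentation U hU) G) (h2 : PC p (ρ.quotient U hU) G) : PC p ρ G := fun x hx y hy i j a b => by
  obtain ⟨k, e⟩ := h1 x hx y hy i j a b
  obtain ⟨l, e'⟩ := h2 x hx y hy i j a b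
  refine ⟨k + l + 1, LinearMap.ext fun v => ?_⟩
  rw [pow_succ, pow_mul]
  replace e : ρ.subrepresentation U hU ((x * y) ^ p ^ (k + l)) = 1 := by rw [pow_add, pow_mul, map_pow, e, one_pow]
  replace e' : ρ.quotient U hU ((x * y) ^ p ^ (k + l)) = 1 := by rw [pow_add, pow_mul', map_pow, e', one_pow]
  generalize (x * y) ^ p ^ (k + l) = g at e e'
  have h3 : ρ g (ρ g v - v) = ρ g v - v := congrArg Subtype.val (LinearMap.congr_fun e
    ⟨_, (Submodule.Quotient.eq U).1 (LinearMap.congr_fun e' (Submodule.Quotient.mk v))⟩)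
  have : ∀ n : ℕ, ρ (g ^ n) v = v + n • (ρ g v - v) := fun n => by
    induction n with
    | zero => simp
    | succ n ih => rw [pow_succ', map_mul, End.mul_apply, ih, map_add, map_nsmul, h3, succ_nsmul]; abel
  rw [this, ← Nat.cast_smul_eq_nsmul F, CharP.cast_eq_zero, zero_smul, add_zero, End.one_apply]

theorem fixS_quot [Finite Γ] (U : Submodule F W) (hU : ∀ g, U ≤ U.comap (ρ g)) (hR : (#|R| : F) ≠ 0)
    (h0 : fixS ρ R = ⊥) : fixS (ρ.quotient U hU) R = ⊥ := eq_bot_iff.2 fun v hv => by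
  obtain ⟨v, rfl⟩ := U.mkQ_surjective v
  haveI := Fintype.ofFinite R
  have h1 := prj_self hR (eig_one.ge hv)
  have h2 : prj ρ R 1 v = 0 := h0.le (eig_one.le (prj_mem 1 v))
  rw [prj_apply] at h1 h2
  rw [← h1, Submodule.mem_bot, ← map_zero U.mkQ, ← h2]
  simp only [map_smul, map_sum]; rfl

end

variable [IsAlgClosed F] [CharP F p] [RepT] [CoreF]

theorem step (hp : p.Prime) (p2 : p ≠ 2) (n : ℕ)
    (ih : ∀ {Γ : Type} [Group Γ] [Finite Γ] {G R : Subgroup Γ}, #|G| < n → Hy p G R →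
      ∀ {W : Type} [AddCommGroup W] [Module F W] [FiniteDimensional F W]
        (ρ : Representation F Γ W), fixS ρ R = ⊥ → PC p ρ G)
    {Γ : Type} [Group Γ] [Finite Γ] {G R : Subgroup Γ} (hn : #|G| = n) (h : Hy p G R) (top : G ⊔ R = ⊤) (d : ℕ) :
    ∀ {W : Type} [AddCommGroup W] [Module F W] [FiniteDimensional F W]
      (ρ : Representation F Γ W), finrank F W = d → fixS ρ R = ⊥ → PC p ρ G := by
  induction d using Nat.strong_induction_on with
  | _ d ihd =>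
  intro W _ _ _ ρ hd h0
  haveI := Fact.mk hp
  have cz : ∀ {m : ℕ}, ¬ p ∣ m → (m : F) ≠ 0 := fun e => mt (CharP.cast_eq_zero_iff F p _).1 e
  have hR : (#|R| : F) ≠ 0 := cz fun e => h.ne ((Nat.prime_dvd_prime_iff_eq hp h.rp).1 e).symm
  have sol : ∀ {Q : Prop}, Group.IsSolvable R ∨ Q := .inl (sol_of_comm (comm_of_cyclic (cyclic_of_prime h.rp)))
  have hGn : G ⊴ ⊤ := top ▸ NormalIn.sup_left h.nG
  by_cases hirr : ∀ U : Submodule F W, (∀ g, ∀ v ∈ U, ρ g v ∈ U) → U = ⊥ ∨ U = ⊤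
  swap
  · push Not at hirr
    obtain ⟨U, h1, h2, h3⟩ := hirr
    exact PC.of_sub U h1 (ihd _ (hd ▸ Submodule.finrank_lt h3) _ rfl (eq_bot_iff.2 fun w hw =>
      Subtype.ext (h0.le fun a ha => congrArg Subtype.val (hw a ha))))
      (ihd _ (hd ▸ U.finrank_quotient_add_finrank ▸ Nat.lt_add_of_pos_right
        (Nat.pos_of_ne_zero (mt Submodule.finrank_eq_zero.1 h2))) _ rfl (fixS_quot U h1 hR h0))
  rcases subsingleton_or_nontrivial W with hW | hW
  · exact fun _ _ _ _ _ _ _ _ => ⟨0, Subsingleton.elim _ _⟩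
  by_cases hf : G ⊓ MonoidHom.ker ρ = ⊥
  swap
  · haveI : (G ⊓ MonoidHom.ker ρ).Normal := haveI := NormalIn.top_iff.1 hGn; inferInstance
    let π := QuotientGroup.mk' (G ⊓ MonoidHom.ker ρ)
    have hRπ : #|R.map π| = #|R| := by
      rw [← card_map_mk'_mul (G ⊓ MonoidHom.ker ρ) R, inf_right_comm, inf_eq_bot_of_coprime' h.cop.symm,
        bot_inf_eq, card_bot, mul_one]
    have hk : π.ker ≤ G := (QuotientGroup.ker_mk' _).trans_le inf_le_left
    have h1 := ih (G := G.map π) (R := R.map π) (hn ▸ (by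
      rw [← card_map_mk'_mul (G ⊓ MonoidHom.ker ρ) G, inf_right_comm, inf_idem]
      exact lt_mul_of_one_lt_right Nat.card_pos ((one_lt_card_iff_ne_bot _).2 hf)))
      ⟨hRπ ▸ h.rp, hRπ ▸ h.ne, map_le_norm π h.nG, hRπ ▸ h.cop.coprime_dvd_right (card_map_dvd _ π), fun e =>
        h.pC (e.trans (by
          rw [← map_inf_centralizer_eq hk (coprime_of_le h.cop le_rfl hk) sol]; exact card_map_dvd _ π))⟩
      (QuotientGroup.lift _ ρ inf_le_right) ((fixS_comp π R).symm.trans h0)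
    exact fun x hx y hy i j a b => h1 _ (mem_map_of_mem π hx) _ (mem_map_of_mem π hy) i j
      (by rw [← map_pow, a, map_one]) (by rw [← map_pow, b, map_one])
  have inj : ∀ {a b}, a ∈ G → b ∈ G → ρ a = ρ b → a = b := fun {a b} ha hb e => inv_mul_eq_one.1 (hf.le
    ⟨G.mul_mem (G.inv_mem ha) hb, show ρ _ = 1 by rw [map_mul, ← e, ← map_mul, inv_mul_cancel, map_one]⟩)
  have kc : ∀ K ≤ G, R ≤ 𝐍(K) → ⁅K, R⁆ ≤ MonoidHom.ker ρ → K ≤ 𝐂(R) := fun K a b c =>
    comm_eq_bot_iff.1 (eq_bot_iff.2 (hf ▸ le_inf ((comm_le_left b).trans a) c))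
  by_contra hcon
  have r2 : Odd #|R| := h.rp.odd_of_ne_two fun e => by
    obtain ⟨a, ha, a0⟩ := exists_mem_orderOf_eq h.rp dvd_rfl
    have a1 : a ≠ 1 := fun e => h.rp.one_lt.ne (by rw [← a0, e, orderOf_one])
    have aa : a * a = 1 := by rw [← sq, ← e, ← a0, pow_orderOf_eq_one]
    have h1 : ρ a = -1 := LinearMap.ext fun v => eq_neg_of_add_eq_zero_left (h0.le (mem_fixS_iff_le.2
      (zpowers_eq_of_prime h.rp ha a1 ▸ zpowers_le.2 (show ρ a (ρ a v + v) = ρ a v + v by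
        rw [map_add, ← End.mul_apply, ← map_mul, aa, map_one, End.one_apply, add_comm]))))
    have h2 : G ≤ 𝐂(R) := cent1_eq_cent_of_prime h.rp ha a1 ▸ fun g hg => mem_cent1.2 (mul_inv_eq_iff_eq_mul.1
      (inj (conj_mem_of_mem_normalizer (h.nG ha) hg) hg (by
        rw [inv_eq_of_mul_eq_one_right aa, map_mul, map_mul, h1]; simp))).symm
    obtain ⟨P, hP⟩ := exists_isSylowIn p G
    exact hcon (PCl.pc ⟨P, hP, (sylow_eq_bot_iff hp hP).2 (inf_eq_left.2 h2 ▸ h.pC) ▸ norm_bot.ge.trans' le_top⟩ hp ρ)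
  have neg : zent G ≤ 𝐂(R) → ∀ z ∈ zent G, z * z = 1 → z ≠ 1 → ρ z = -1 := fun e z hz zz z1 => by
    obtain ⟨c, hc⟩ := schur hirr (f := ρ z) fun g _ => by
      rw [linHom_rho, (top ▸ (cent_sup G R).ge ⟨hz.2, e hz⟩ : z ∈ 𝐂((⊤ : Subgroup Γ))) g trivial, mul_inv_cancel_right]
    have : (c * c) • (1 : End F W) = (1 : F) • 1 := by
      rw [one_smul, ← smul_smul, ← hc, ← smul_one_mul, ← hc, ← map_mul, zz, map_one]
    rcases mul_self_eq_one_iff.1 (smul_left_injective F one_ne_zero this) with rfl | rfl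
    · exact (z1 (inj hz.1 G.one_mem (by rw [hc, one_smul, map_one]))).elim
    · rw [hc, neg_smul, one_smul]
  refine Pre.elim (p := p) (G := G) (R := R) ⟨hp, p2, h.rp, r2, top, h.nG, h.cop, h.pC, fun H a b => PC.pcl (ρ := ρ)
    (ih (hn ▸ card_lt_of_lt a) ⟨h.rp, h.ne, b, coprime_of_le h.cop le_rfl a.le, fun e => h.pC
      (e.trans (card_dvd_of_le' (inf_le_inf_right _ a.le)))⟩ ρ h0) (eq_bot_iff.2 (hf ▸ inf_le_inf_right _ a.le)),
    fun e => hcon (PCl.pc e hp ρ), fun N a b c d => ?_, fun K a b c d => kc K a b ?_, fun K a b c d => kc K a b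
      (odd_sdprod_le_ker b c h.rp r2 (coprime_of_le h.cop le_rfl a) (cz d) hR ρ h0),
    fun e a ha b hb aa bb a1 => or_iff_not_imp_left.2 fun b1 =>
      inj hb.1 ha.1 ((neg e b hb bb b1).trans (neg e a ha aa a1).symm), fun e X a z b c d t1 t2 t3 t4 t5 t6 t7 => ?_⟩
  · letI := DistribMulAction.compHom W ((ρ : Γ →* End F W).comp N.subtype)
    obtain ⟨v, v0⟩ := exists_ne (0 : W)
    obtain ⟨w, -, w0, hw⟩ := H5.exists_ne_zero_fixed b (fun v : W => by
      rw [← Nat.cast_smul_eq_nsmul F, CharP.cast_eq_zero, zero_smul]) ⊤ (fun _ _ _ => trivial) v0 trivial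
    refine eq_bot_iff.2 (hf ▸ le_inf a (fixS_eq_top_iff.1 ((hirr _ fun g v hv => apply_mem_fixS
      ((top.ge.trans (sup_le c d)) trivial) hv).resolve_left fun e => w0 (e.le fun u hu => hw ⟨u, hu⟩))))
  · have h1 := comm_le_left b
    haveI := comm_iff_le_cent.2 c
    have h5 := inf_centralizer_inf_commutator_eq_bot b (coprime_of_le h.cop le_rfl a)
    rw [inf_assoc, inf_eq_right.2 (inf_le_right.trans h1), inf_comm] at h5
    refine fixS_eq_top_iff.1 (eq_top_iff.2 fun v _ => ?_)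
    have := card_smul_mem_fixS (right_le_norm_comm K R) (B3.semiReg_of_prime h.rp h5) h0 v
    rwa [← Nat.cast_smul_eq_nsmul F, Submodule.smul_mem_iff _ (cz fun e => d (e.trans (card_dvd_of_le' h1)))] at this
  · obtain ⟨e1, e2⟩ := RepT.out ρ (by exact_mod_cast cz fun e => p2 ((Nat.prime_dvd_prime_iff_eq hp Nat.prime_two).1 e))
      h.rp r2 hR t1 t2 t3 t4 (neg e z b c d) t5 t6 t7 h0
    exact ⟨e1, fun g hg a ha => mul_inv_eq_iff_eq_mul.1
      (inj (conj_mem_of_mem_normalizer (h.nG ha) hg.1) hg.1 (e2 g hg.2 a ha))⟩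

theorem rb_main (hp : p.Prime) (p2 : p ≠ 2) {Γ : Type} [Group Γ] [Finite Γ] {G R : Subgroup Γ} (h : Hy p G R)
    {W : Type} [AddCommGroup W] [Module F W] [FiniteDimensional F W] (ρ : Representation F Γ W)
    (h0 : fixS ρ R = ⊥) : PC p ρ G := by
  generalize hn : #|G| = n
  induction n using Nat.strong_induction_on generalizing Γ W with
  | _ n ih =>
  have h1 : G ≤ G ⊔ R := le_sup_left
  have h2 : R ≤ G ⊔ R := le_sup_right
  have h3 := step hp p2 n (fun a b _ _ _ _ ρ h0 => ih _ a b ρ h0 rfl)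
    (G := G.subgroupOf (G ⊔ R)) (R := R.subgroupOf (G ⊔ R)) ((H1.card_subgroupOf_of_le h1).trans hn)
    ⟨H1.card_subgroupOf_of_le h2 ▸ h.rp, H1.card_subgroupOf_of_le h2 ▸ h.ne, subOf_norm h1 ▸ comap_mono h.nG,
      H1.card_subgroupOf_of_le h1 ▸ H1.card_subgroupOf_of_le h2 ▸ h.cop, by
        rw [← subOf_cent h2, ← subOf_inf, H1.card_subgroupOf_of_le (inf_le_left.trans h1)]; exact h.pC⟩
    (by rw [← subgroupOf_sup h1 h2, subgroupOf_self]) _
    (ρ.comp (G ⊔ R).subtype) rfl (by rw [fixS_comp, subOf_map h2, h0])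
  exact fun x hx y hy i j a b => h3 ⟨x, h1 hx⟩ hx ⟨y, h1 hy⟩ hy i j (Subtype.ext a) (Subtype.ext b)

instance instRB : RB where
  out _ _ ρ _ _ a b c d e f g h := rb_main a b ⟨c, d, e, f, h⟩ ρ g

end Cfsg.Agent.Fl.Rb
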