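import Cfsg.Agent.Fl.I

/-! Slice `RepT` of `S5277`. -/

set_option autoImplicit false
set_option linter.style.haveILetI false
set_option linter.unusedSectionVars false

namespace Cfsg.Agent.Fl

open Subgroup Cfsg.Agent.H1 Cfsg.Agent.L Cfsg.Agent.FT Cfsg.Agent.FT.Rp Module
open scoped Pointwise commutatorElement

theorem numeric_le {Λ : Type*} [CommGroup Λ] [Fintype Λ] [DecidableEq Λ] {m : Λ → ℕ} {r : ℕ}
    (hr : 0 < r) (h0 : m 1 = 0) (h : ∀ μ, r * (∑ ν, m ν * m (μ * ν)) + 1 =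
      r * (if μ = 1 then 1 else 0) + (∑ ν, m ν) * ∑ ν, m ν) :
    ∀ μ, m μ ≤ 1 := by
  have h1 := h 1
  simp only [one_mul, if_true] at h1
  intro μ
  by_cases hμ : μ = 1
  · rw [hμ, h0]; exact Nat.zero_le _
  have h3 := h μ
  rw [if_neg hμ] at h3
  have h4 : ∑ ν, m ν * m ν = ∑ ν, m ν * m (μ * ν) + 1 := Nat.eq_of_mul_eq_mul_left hr (by
    rw [mul_add]; omega)
  have h5 : ∑ ν, ((m ν : ℤ) - m (μ * ν)) ^ 2 = 2 := by
    have := Fintype.sum_equiv (Equiv.mulLeft μ) (fun ν => (m (μ * ν) : ℤ) * m (μ * ν))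
      (fun ν => (m ν : ℤ) * m ν) fun _ => rfl
    zify at h4
    simp only [sub_sq, Finset.sum_add_distrib, Finset.sum_sub_distrib, mul_assoc,
      ← Finset.mul_sum]
    simp only [sq, this, h4]
    ring
  have h6 := Finset.single_le_sum (f := fun ν => ((m ν : ℤ) - m (μ * ν)) ^ 2)
    (fun ν _ => sq_nonneg _) (Finset.mem_univ 1)
  simp only [h5, h0, mul_one, Nat.cast_zero] at h6
  by_contra! h7
  zify at h7
  nlinarith

section
variable {F G W : Type*} [Field F] [Group G] [AddCommGroup W] [Module F W]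
  {ρ : Representation F G W} {K R : Subgroup G}

theorem exists_eig {v : W} (hv : v ≠ 0) (h : ∀ k ∈ K, ∃ c : F, ρ k v = c • v) :
    ∃ l : K →* Fˣ, v ∈ eig ρ K l := by
  choose c hc using h
  have h0 : ∀ k hk, c k hk ≠ 0 := fun k hk e => hv (by
    rw [← ρ.inv_self_apply k v, hc k hk, e, zero_smul, map_zero])
  refine ⟨MonoidHom.mk' (fun k => Units.mk0 _ (h0 k k.2)) fun a b => Units.ext
    (smul_left_injective F hv ?_), fun k => hc k k.2⟩
  show c _ _ • v = (c a a.2 * c b b.2) • v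
  rw [← hc, coe_mul, map_mul, Module.End.mul_apply, hc b b.2, map_smul, hc a a.2, smul_smul, mul_comm]

variable [Finite G] [IsAlgClosed F] [FiniteDimensional F W]

theorem card_le_sq [Nontrivial W] (hK : (#|K| : F) ≠ 0) (hf : K ⊓ MonoidHom.ker ρ = ⊥)
    (hs : ∀ z ∈ ⁅K, K⁆, ∃ c : F, ρ z = c • 1) : #|K| ≤ #|K ⊓ 𝐂(K)| * finrank F W ^ 2 := by
  classical
  haveI := Fintype.ofFinite (K →* Fˣ)
  set E := ρ.linHom ρ with hE
  have hder : fixS E ⁅K, K⁆ = ⊤ := eq_top_iff.2 fun f _ z hz => by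
    obtain ⟨c, h3⟩ := hs z hz
    refine LinearMap.ext fun v => ?_
    show ρ z (f (ρ z⁻¹ v)) = f v
    conv_rhs => rw [← ρ.self_inv_apply z v]
    simp [h3]
  have hne : ∀ y : G, ρ y ≠ 0 := fun y e => by
    obtain ⟨v, hv⟩ := exists_ne (0 : W)
    exact hv (by rw [← ρ.inv_self_apply y v, e, LinearMap.zero_apply, map_zero])
  have hl : ∀ y : K, ∃ l : K →* Fˣ, ρ y ∈ eig E K l := fun y => exists_eig (hne y) fun k hk => by
    obtain ⟨c, h3⟩ := hs _ (commutator_mem_commutator hk y.2)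
    exact ⟨c, by rw [linHom_rho, show k * y * k⁻¹ = ⁅k, (y : G)⁆ * y by group, map_mul, h3,
      smul_mul_assoc, one_mul]⟩
  choose l hl using hl
  let Φ : K →* (K →* Fˣ) := MonoidHom.mk' l fun a b => MonoidHom.ext fun k => Units.ext
    (smul_left_injective F (hne (a * b : K)) (by
      show _ • _ = ((l a k : F) * l b k) • _
      rw [← hl (a * b) k, coe_mul, map_mul, linHom_mul, hl a k, hl b k, smul_mul_smul_comm]))
  have h2 : #|Φ.ker| ≤ #|K ⊓ 𝐂(K)| := by
    rw [← card_map_inj K.subtype_injective]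
    refine card_le_of_le' ?_
    rintro _ ⟨y, hy, rfl⟩
    refine ⟨y.2, fun k hk => commutatorElement_eq_one_iff_mul_comm.1 (mem_bot.1 (hf ▸
      ⟨der1_le K (commutator_mem_commutator hk y.2), ?_⟩))⟩
    have h3 := hl y ⟨k, hk⟩
    rw [linHom_rho, show l y = 1 from hy] at h3
    show ρ (k * y * k⁻¹ * (y : G)⁻¹) = 1
    rw [map_mul, h3]
    simp [← map_mul]
  have h3 : #|Φ.range| ≤ finrank F W ^ 2 := by
    have h4 := finrank_fixS_der (ρ := E) hK
    rw [hder, finrank_top, finrank_linearMap] at h4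
    rw [sq, h4, Nat.card_eq_fintype_card, Fintype.card_subtype,
      Finset.card_eq_sum_ones]
    refine (Finset.sum_le_sum fun μ hμ => ?_).trans
      (Finset.sum_le_sum_of_subset (Finset.filter_subset _ _))
    obtain ⟨y, rfl⟩ := (Finset.mem_filter.1 hμ).2
    exact Nat.pos_of_ne_zero fun e => hne y ((Submodule.finrank_eq_zero.1 e).le (hl y))
  rw [← Φ.ker.card_mul_index, index_ker]
  exact Nat.mul_le_mul h2 h3

theorem rep_core [Nontrivial W]
    (hirr : ∀ U : Submodule F W, (∀ g, ∀ v ∈ U, ρ g v ∈ U) → U = ⊥ ∨ U = ⊤) (htop : K ⊔ R = ⊤)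
    (hn : R ≤ 𝐍(K)) (hK : (#|K| : F) ≠ 0) (hR : (#|R| : F) ≠ 0)
    (hp : (#|R|).Prime) (hc : (#|R|).Coprime #|K|)
    (hf : K ⊓ MonoidHom.ker ρ = ⊥) (hZ : K ⊓ 𝐂(K) = K ⊓ 𝐂(R)) (hd : ⁅K, K⁆ ≤ 𝐂(R))
    (hKR : K ≤ ⁅K, R⁆) (h0 : fixS ρ R = ⊥) (K1 : K ≠ ⊥) :
    (∀ U : Submodule F W, (∀ g ∈ K, ∀ v ∈ U, ρ g v ∈ U) → U = ⊥ ∨ U = ⊤) ∧
      (∀ μ ≠ 1, eig ρ R μ ≠ ⊥) ∧ #|K| ≤ #|K ⊓ 𝐂(K)| * (#|R| - 1) ^ 2 := by
  classical
  haveI := Fintype.ofFinite K
  haveI := Fintype.ofFinite (K →* Fˣ)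
  haveI := Fintype.ofFinite (R →* Fˣ)
  set E := ρ.linHom ρ with hE
  have hKn : K ⊴ ⊤ := htop ▸ NormalIn.sup_left hn
  have hZc : ∀ z ∈ K ⊓ 𝐂(R), ρ z ∈ fixS E ⊤ := fun z hz g _ => by
    have : (⊤ : Subgroup G) ≤ 𝐂[z] := htop ▸ sup_le (le_cent1_iff.2 (hZ.ge hz).2) (le_cent1_iff.2 hz.2)
    rw [linHom_rho, mem_cent1.1 (this (mem_top g)), mul_inv_cancel_right]
  have hP : ∀ y ∈ K, y ∉ 𝐂(R) → prj E K 1 (ρ y) = 0 := fun y hy hy' => by
    obtain ⟨g, hg, h1⟩ : ∃ g ∈ K, ⁅g, y⁆ ≠ 1 := by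
      by_contra! h
      exact hy' (hZ.le ⟨hy, fun g hg => commutatorElement_eq_one_iff_mul_comm.1 (h g hg)⟩).2
    have h2 := commutator_mem_commutator hg hy
    obtain ⟨c, h3⟩ := schur hirr (hZc _ ⟨der1_le K h2, hd h2⟩)
    have h4 := prj_one_apply (ρ := E) hg (ρ y)
    rw [linHom_rho, show g * y * g⁻¹ = ⁅g, y⁆ * y by group, map_mul, h3, smul_mul_assoc, one_mul,
      map_smul] at h4
    refine (smul_eq_zero.1 (show (c - 1) • prj E K 1 (ρ y) = 0 by
      rw [sub_smul, h4, one_smul, sub_self])).resolve_left fun h5 => h1 (mem_bot.1 (hf ▸ ⟨der1_le K h2, ?_⟩))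
    show ρ _ = 1
    rw [h3, sub_eq_zero.1 h5, one_smul]
  have hspan : ∀ g, ρ g ∈ Submodule.span F (ρ '' K) := by
    have h1 : ∀ x ∈ R, ρ x ∈ Submodule.span F (ρ '' K) := fun x hx => by
      by_cases hx1 : x = 1
      · exact Submodule.subset_span ⟨x, hx1 ▸ K.one_mem, rfl⟩
      have hzp := zpowers_eq_of_prime hp (R.inv_mem hx) (inv_ne_one.2 hx1)
      obtain ⟨c, h2⟩ := schur hirr (f := ∑ k : K, ρ (k * x⁻¹ * (k : G)⁻¹)) (by
        rw [← htop, fixS_sup]
        refine ⟨fun g hg => ?_, fun g hg => ?_⟩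
        · rw [map_sum]
          exact Fintype.sum_equiv (Equiv.mulLeft (⟨g, hg⟩ : K)) _ _ fun k => by
            rw [linHom_rho]; simp [mul_assoc]
        · rw [map_sum]
          refine Fintype.sum_equiv (K.normalizerMonoidHom ⟨g, hn hg⟩).toEquiv _ _ fun k => ?_
          have := mem_cent1.1 (zpowers_le_cent1 _ (hzp.ge hg))
          rw [linHom_rho]
          congr 1
          calc _ = g * k * g⁻¹ * (g * x⁻¹) * (k : G)⁻¹ * g⁻¹ := by group
            _ = _ := by rw [this]; simp [mul_assoc])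
      have h3 : ∑ k : K, ρ ⁅(k : G), x⁻¹⁆ = c • ρ x := by
        rw [← one_mul (ρ x), ← smul_mul_assoc, ← h2, Finset.sum_mul]
        exact Finset.sum_congr rfl fun k _ => by rw [← map_mul, commutatorElement_def, inv_inv]
      have h4 : ∀ k : K, ⁅(k : G), x⁻¹⁆ ∈ K := fun k =>
        hKn.comm_le_left le_top (commutator_mem_commutator k.2 (mem_top _))
      have h5 : c ≠ 0 := fun e => by
        have h6 := congrArg (prj E K 1) h3
        rw [e, zero_smul, map_zero, map_sum, Finset.sum_congr rfl (g := fun k : K =>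
          if (k : G) ∈ 𝐂(R) then (1 : W →ₗ[F] W) else 0), ← Finset.sum_filter, Finset.sum_const,
          ← Nat.cast_smul_eq_nsmul F, smul_eq_zero, ← Fintype.card_subtype,
          ← Nat.card_eq_fintype_card] at h6
        · exact h6.elim (cast_ne_zero_of_dvd hK (card_subgroup_dvd_card ((𝐂(R)).subgroupOf K)))
            one_ne_zero
        intro k _
        split_ifs with hk
        · rw [commutatorElement_eq_one_iff_mul_comm.2 (hk _ (R.inv_mem hx)).symm, map_one]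
          exact prj_self hK (eig_one (ρ := E) ▸ fun g _ => by ext v; simp [hE])
        · refine hP _ (h4 k) fun h => hk ?_
          have h7 : ⁅(k : G), x⁻¹⁆ ^ #|R| = 1 := by
            have h8 : x⁻¹ ^ #|R| = 1 := orderOf_dvd_iff_pow_eq_one.1
              (R.orderOf_dvd_natCard (R.inv_mem hx))
            rw [← mul_one (_ ^ _), ← h8, ← (show Commute _ _ from (h _ (R.inv_mem hx)).symm).mul_pow,
              commutatorElement_def, inv_mul_cancel_right, conj_pow, h8, mul_one, mul_inv_cancel]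
          rw [← hzp, cent_zpowers, mem_cent1, ← commutatorElement_eq_one_iff_mul_comm,
            ← orderOf_eq_one_iff]
          exact Nat.eq_one_of_dvd_coprimes hc (orderOf_dvd_of_pow_eq_one h7)
            (K.orderOf_dvd_natCard (h4 k))
      rw [← inv_smul_smul₀ h5 (ρ x), ← h3]
      exact Submodule.smul_mem _ _ (Submodule.sum_mem _ fun k _ =>
        Submodule.subset_span ⟨_, h4 k, rfl⟩)
    intro g
    obtain ⟨k, hk, x, hx, rfl⟩ := (hKn.mem_sup le_top).1 (htop.ge (mem_top g))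
    rw [map_mul]
    refine Submodule.span_induction (p := fun f _ => ρ k * f ∈ _) ?_ (by simp) (fun _ _ _ _ h h' =>
      mul_add (ρ k) _ _ ▸ add_mem h h') (fun c _ _ h => mul_smul_comm c (ρ k) _ ▸
        Submodule.smul_mem _ c h) (h1 x hx)
    rintro _ ⟨y, hy, rfl⟩
    exact Submodule.subset_span ⟨_, K.mul_mem hk hy, map_mul _ _ _⟩
  have hinv : ∀ U : Submodule F W, (∀ g ∈ K, ∀ v ∈ U, ρ g v ∈ U) → U = ⊥ ∨ U = ⊤ := fun U hU =>
    hirr U fun g v hv => Submodule.span_induction (p := fun f _ => f v ∈ U)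
      (by rintro _ ⟨y, hy, rfl⟩; exact hU y hy v hv) U.zero_mem (fun _ _ _ _ => U.add_mem)
      (fun c _ _ => U.smul_mem c) (hspan g)
  have h1K : ∀ (g : G), E g 1 = 1 := fun g => by ext v; simp [hE]
  have hfix : fixS E K = F ∙ 1 := le_antisymm (fun f hf' => by
    obtain ⟨c, rfl⟩ := schur hirr (f := f) (eig_one (ρ := E) ▸ mem_eig_linHom.2 fun g v =>
      Submodule.span_induction (p := fun φ _ => φ (f v) = ((1 : (⊤ : Subgroup G) →* Fˣ) g : F) • f (φ v))
        (by rintro _ ⟨y, hy, rfl⟩; exact mem_eig_linHom.1 (eig_one (ρ := E) ▸ hf') ⟨y, hy⟩ v)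
        (by simp) (fun _ _ _ _ h h' => by simp [h, h']) (fun c _ _ h => by simp [h]) (hspan g))
    exact Submodule.smul_mem _ _ (Submodule.mem_span_singleton_self _))
    ((Submodule.span_singleton_le_iff_mem _ _).2 fun g _ => h1K g)
  have hder : fixS E ⁅K, K⁆ = ⊤ := eq_top_iff.2 fun f _ z hz => by
    obtain ⟨c, h3⟩ := schur hirr (hZc _ ⟨der1_le K hz, hd hz⟩)
    refine LinearMap.ext fun v => ?_
    show ρ z (f (ρ z⁻¹ v)) = f v
    conv_rhs => rw [← ρ.self_inv_apply z v]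
    simp [h3]
  have hcR := comm_of_cyclic (cyclic_of_prime hp)
  have hW : finrank F W = ∑ ν, finrank F (eig ρ R ν) := by
    rw [← finrank_fixS_der hR, comm_self_eq_bot_iff.2 hcR, fixS_bot, finrank_top]
  have hm0 : finrank F (eig ρ R 1) = 0 := by rw [eig_one, h0, finrank_bot]
  have hform : ∀ μ, #|R| * (∑ ν, finrank F (eig ρ R ν) * finrank F (eig ρ R (μ * ν))) + 1 =
      #|R| * (if μ = 1 then 1 else 0) + (∑ ν, finrank F (eig ρ R ν)) * ∑ ν, finrank F (eig ρ R ν) :=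
    fun μ => by
      have h1 := wielandt_step (ρ := E) hK hn (fun x hx hx1 => zpowers_eq_of_prime hp hx hx1 ▸ hKR) μ
      rw [hder, top_inf_eq, finrank_eig_linHom hR hcR, finrank_top, finrank_linearMap, hW, hfix,
        finrank_span_singleton one_ne_zero] at h1
      rw [h1]
      congr 2
      split_ifs with hμ
      · rw [hμ, eig_one, inf_eq_left.2 ((Submodule.span_singleton_le_iff_mem _ (fixS E R)).2
          fun g _ => h1K g),
          finrank_span_singleton one_ne_zero]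
      · rw [Submodule.finrank_eq_zero, eq_bot_iff]
        intro f hf
        exact (prj_self hR hf.2).symm.trans (prj_of_ne hμ (eig_one (ρ := E) ▸
          (Submodule.span_singleton_le_iff_mem _ (fixS E R)).2 (fun g _ => h1K g) hf.1))
  have hnum := numeric_step (m := fun ν => finrank F (eig ρ R ν)) hp.pos hm0 hform
  have hle := numeric_le (m := fun ν => finrank F (eig ρ R ν)) hp.pos hm0 hform
  rw [← hW] at hnum
  rcases hnum with h1 | h1
  · exact (K1 (eq_bot_iff.2 (hf ▸ le_inf le_rfl (hKR.trans ((commutator_mono le_top le_top).trans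
      (fixS_eq_top_iff.1 (eq_top_iff.2 (le_fixS_of_finrank_le_one (by rw [finrank_top, h1])
        fun _ _ _ _ => trivial)))))))).elim
  refine ⟨hinv, fun μ hμ e => ?_, (card_le_sq hK hf fun z hz =>
    schur hirr (hZc _ ⟨der1_le K hz, hd hz⟩)).trans_eq (by rw [Nat.eq_sub_of_add_eq h1])⟩
  · have h2 : Fintype.card (R →* Fˣ) = #|R| := by
      rw [← Nat.card_eq_fintype_card, (card_lin hR).1,
        show _root_.commutator R = ⊥ from (map_eq_bot_iff_of_injective _ R.subtype_injective).1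
          ((der1_eq_commutator R).symm.trans (comm_self_eq_bot_iff.2 hcR)), index_bot]
    rw [hW, ← Finset.add_sum_erase _ _ (Finset.mem_univ 1), ← Finset.add_sum_erase _ _
      (Finset.mem_erase.2 ⟨hμ, Finset.mem_univ μ⟩), hm0, e, finrank_bot] at h1
    have h3 := Finset.sum_le_card_nsmul ((Finset.univ.erase 1).erase μ) _ 1 fun ν _ => hle ν
    rw [Finset.card_erase_of_mem (Finset.mem_erase.2 ⟨hμ, Finset.mem_univ μ⟩),
      Finset.card_erase_of_mem (Finset.mem_univ _), Finset.card_univ, h2, smul_eq_mul] at h3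
    have := hp.two_le
    omega

theorem hom_comm {V : Type*} [AddCommGroup V] [Module F V] {σ : Representation F G V}
    (hn : R ≤ 𝐍(K)) (hR : (#|R| : F) ≠ 0) (hc : IsMulCommutative R)
    (hi : ∀ U : Submodule F W, (∀ g ∈ K, ∀ v ∈ U, ρ g v ∈ U) → U = ⊥ ∨ U = ⊤)
    (he : ∀ μ ≠ 1, eig ρ R μ ≠ ⊥) (h0 : fixS σ R = ⊥) {f : W →ₗ[F] V}
    (hf : ∀ k ∈ K, ∀ w, σ k (f w) = f (ρ k w)) {a : G} (ha : a ∈ R) (w : W) :
    σ a (f w) = f (ρ a w) := by
  have h1 : f ∈ fixS (ρ.linHom σ) K := fun k hk => LinearMap.ext fun w => by simp [hf k hk]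
  have h2 : f ∈ fixS (ρ.linHom σ) R := fixS_der_induction (ρ := ρ.linHom σ) hR (by
    rw [comm_self_eq_bot_iff.2 hc, fixS_bot]; trivial) fun μ => by
    by_cases hμ : μ = 1
    · exact eig_one (ρ := ρ.linHom σ) ▸ hμ ▸ prj_mem μ f
    have h3 := prj_mem (ρ := ρ.linHom σ) μ f
    have h4 : prj (ρ.linHom σ) R μ f ∈ fixS (ρ.linHom σ) K :=
      prj_mem_of_inv μ fun b hb => apply_mem_fixS (hn hb) h1
    generalize prj (ρ.linHom σ) R μ f = φ at h3 h4
    obtain ⟨u, hu, u0⟩ := (Submodule.ne_bot_iff _).1 (he μ⁻¹ fun e => hμ (MonoidHom.ext fun b =>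
      inv_eq_one.1 (DFunLike.congr_fun e b)))
    have h5 : φ u = 0 := h0.le fun b hb => by
      have := LinearMap.congr_fun (h3 ⟨b, hb⟩) (ρ b u)
      simp only [Representation.linHom_apply, LinearMap.comp_apply, ρ.inv_self_apply,
        LinearMap.smul_apply] at this
      rw [this, hu ⟨b, hb⟩, map_smul, smul_smul]
      simp
    rcases hi (LinearMap.ker φ) (fun k hk v hv => by
      have := LinearMap.congr_fun (h4 k hk) (ρ k v)
      simp only [Representation.linHom_apply, LinearMap.comp_apply, ρ.inv_self_apply] at this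
      rw [LinearMap.mem_ker, ← this, show φ v = 0 from hv, map_zero]) with h | h
    · exact (u0 (h.le h5)).elim
    · rw [LinearMap.ker_eq_top.1 h]; exact zero_mem _
  simpa using LinearMap.congr_fun (h2 a ha) (ρ a w)

omit [Finite G] [IsAlgClosed F] in
theorem exists_irr {T : Submodule F W} (hT : ∀ g, ∀ v ∈ T, ρ g v ∈ T) (T0 : T ≠ ⊥) :
    ∃ U : Subrepresentation ρ, U.toSubmodule ≤ T ∧ U.toSubmodule ≠ ⊥ ∧ ∀ V : Submodule F U.toSubmodule,
      (∀ g, ∀ v ∈ V, U.toRepresentation g v ∈ V) → V = ⊥ ∨ V = ⊤ := by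
  obtain ⟨U, hU, hm⟩ := exists_minimal_of_wellFoundedLT
    (fun U : Submodule F W => U ≤ T ∧ U ≠ ⊥ ∧ ∀ g, ∀ v ∈ U, ρ g v ∈ U) ⟨T, le_rfl, T0, hT⟩
  refine ⟨⟨U, fun g v => hU.2.2 g v⟩, hU.1, hU.2.1, fun V hV => or_iff_not_imp_left.2 fun V0 =>
    eq_top_iff.2 fun v _ => ?_⟩
  obtain ⟨w, hw, e⟩ := hm (y := V.map U.subtype) ⟨(Submodule.map_subtype_le U V).trans hU.1,
    fun e => V0 (eq_bot_iff.2 fun x hx => Subtype.ext (e.le ⟨x, hx, rfl⟩)), by
      rintro g _ ⟨w, hw, rfl⟩; exact ⟨_, hV g w hw, rfl⟩⟩ (Submodule.map_subtype_le U V) v.2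
  exact (Subtype.ext e : w = v) ▸ hw

end

instance instRepT : RepT := ⟨fun {F Γ W} _ _ _ _ _ _ _ _ ρ {X R z} h2 hp ho hR hX hn hXR hz hρ hC hd hZ h0 => by
  have h1 : X ≤ X ⊔ R := le_sup_left
  have h3 : R ≤ X ⊔ R := le_sup_right
  let σ : Representation F ↥(X ⊔ R) W := ρ.comp (X ⊔ R).subtype
  have hK : (#|X| : F) ≠ 0 := by
    obtain ⟨n, hn⟩ := pgroup_card Nat.prime_two hX
    rw [hn]; exact_mod_cast pow_ne_zero n h2
  have hc : (#|R|).Coprime #|X| :=
    (pgroup_coprime Nat.prime_two hX (fun h => (Nat.not_even_iff_odd.2 ho) (even_iff_two_dvd.2 h))).symm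
  have hz1 : ∀ v : W, ρ z v = v → v = 0 := fun v e => by
    rw [hρ, LinearMap.neg_apply, Module.End.one_apply, neg_eq_iff_add_eq_zero, ← two_smul F] at e
    exact (smul_eq_zero.1 e).resolve_left h2
  have X1 : X ≠ ⊥ := ne_bot_of_mem hz fun e => by
    obtain ⟨v, hv⟩ := exists_ne (0 : W)
    exact hv (hz1 v (by rw [e, map_one]; rfl))
  have hn' : R.subgroupOf (X ⊔ R) ≤ 𝐍(X.subgroupOf (X ⊔ R)) := subOf_norm h1 ▸ comap_mono hn
  have hR' := H1.card_subgroupOf_of_le h3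
  have hX' := H1.card_subgroupOf_of_le h1
  have h0' : fixS σ (R.subgroupOf (X ⊔ R)) = ⊥ := by rw [fixS_comp, subOf_map h3, h0]
  have key : ∀ T : Submodule F W, (∀ g, ∀ v ∈ T, σ g v ∈ T) → T ≠ ⊥ → #|X| ≤ 2 * (#|R| - 1) ^ 2 ∧
      ∃ u ∈ T, u ≠ 0 ∧ ∀ g ∈ 𝐂(X), ∀ a ∈ R, ρ (a * g * a⁻¹) u = ρ g u := fun T hT T0 => by
    obtain ⟨U, hU, U0, hirr⟩ := exists_irr hT T0
    haveI := Submodule.nontrivial_iff_ne_bot.2 U0
    obtain ⟨c1, c2, c3⟩ := rep_core (K := X.subgroupOf (X ⊔ R)) (R := R.subgroupOf (X ⊔ R)) hirr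
      (by rw [← subgroupOf_sup h1 h3, subgroupOf_self]) hn' (hX' ▸ hK) (hR' ▸ hR) (hR' ▸ hp)
      (hX' ▸ hR' ▸ hc) (by
        by_contra hk
        obtain ⟨x, hx, x1⟩ := exists_mem_ne_one (inf_cent_ne_bot_of_nil
          (pgroup_nil Nat.prime_two (hX.comap_subtype (K := X ⊔ R))) (NormalIn.inf_of_norm
            (N := MonoidHom.ker U.toRepresentation) (by rw [normalizer_eq_top]; exact le_top)) hk)
        have hx' : (x : Γ) ∈ X ⊓ 𝐂(X) := ⟨hx.1.1, fun y hy => congrArg Subtype.val (hx.2 ⟨y, h1 hy⟩ hy)⟩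
        obtain ⟨v, hv⟩ := exists_ne (0 : U.toSubmodule)
        refine hv (Subtype.ext (hz1 v ?_))
        rw [← (hC x (hZ.le hx')).resolve_left fun e => x1 (Subtype.ext e)]
        exact congrArg Subtype.val (LinearMap.congr_fun (MonoidHom.mem_ker.1 hx.1.2) v))
      (by rw [← subOf_cent h1, ← subOf_cent h3, ← subOf_inf, ← subOf_inf, hZ])
      (by rw [← subOf_comm h1 h1, ← subOf_cent h3]; exact comap_mono hd)
      (by rw [← subOf_comm h1 h3, hXR]) (eq_bot_iff.2 fun w hw =>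
        Subtype.ext (h0'.le fun a ha => congrArg Subtype.val (hw a ha)))
      (fun e => X1 ((subOf_eq_bot_iff h1).1 e))
    obtain ⟨u, hu⟩ := exists_ne (0 : U.toSubmodule)
    refine ⟨?_, u, hU u.2, fun e => hu (Subtype.ext e), fun g hg a ha => ?_⟩
    · rw [hX', hR', ← subOf_cent h1, ← subOf_inf, H1.card_subgroupOf_of_le (inf_le_left.trans h1),
        hZ] at c3
      refine c3.trans (Nat.mul_le_mul_right _ ?_)
      exact (Set.ncard_le_ncard (t := {1, z}) hC).trans ((Set.ncard_insert_le _ _).trans (by simp))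
    · have := hom_comm (σ := σ) hn' (hR' ▸ hR) (comm_of_cyclic (cyclic_of_prime (hR' ▸ hp))) c1 c2 h0'
        (f := ρ g ∘ₗ U.toSubmodule.subtype) (fun k hk w => by
          show ρ k (ρ g w) = ρ g (ρ k w)
          rw [← Module.End.mul_apply, ← map_mul, hg k hk, map_mul, Module.End.mul_apply])
        (a := ⟨a, h3 ha⟩) ha (U.toRepresentation ⟨a, h3 ha⟩⁻¹ u)
      rw [map_mul, map_mul]
      exact this.trans (congrArg (ρ g) (ρ.self_inv_apply a u))
  refine ⟨(key ⊤ (fun _ _ _ => trivial) top_ne_bot).1, ?_⟩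
  let T : Submodule F W := ⨅ g ∈ 𝐂(X), ⨅ a ∈ R, LinearMap.eqLocus (ρ (a * g * a⁻¹)) (ρ g)
  have mT : ∀ v, v ∈ T ↔ ∀ g ∈ 𝐂(X), ∀ a ∈ R, ρ (a * g * a⁻¹) v = ρ g v := fun v => by
    simp [T, Submodule.mem_iInf]
  have hT : ∀ g, ∀ v ∈ T, σ g v ∈ T := fun y v hv => (mT _).2 fun g hg a ha => by
    obtain ⟨x, hx, b, hb, e⟩ := (mem_sup_of_le_normalizer' hn).1 y.2
    have e1 := (mT v).1 hv g hg _ (R.mul_mem (R.inv_mem hb) ha)
    have e2 := (mT v).1 hv g hg _ (R.inv_mem hb)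
    have e3 := conj_mem_of_mem_normalizer (le_norm_cent hn ha) hg x hx
    show ρ _ (ρ y v) = ρ g (ρ y v)
    rw [← Module.End.mul_apply, ← Module.End.mul_apply, ← map_mul, ← map_mul, ← e, ← mul_assoc,
      ← e3, ← mul_assoc g, ← hg x hx,
      show x * (a * g * a⁻¹) * b = x * b * (b⁻¹ * a * g * (b⁻¹ * a)⁻¹) by group,
      show x * g * b = x * b * (b⁻¹ * g * b⁻¹⁻¹) by group, map_mul, map_mul _ (x * b),
      Module.End.mul_apply, Module.End.mul_apply, e1, e2]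
  haveI : NeZero (Nat.card ↥(X ⊔ R) : F) := ⟨by
    rw [(SDProd.mk hn (inf_eq_bot_of_coprime' hc.symm) rfl).card, Nat.cast_mul]
    exact mul_ne_zero hK hR⟩
  obtain ⟨T', h4⟩ := exists_isCompl (⟨T, fun g v => hT g v⟩ : Subrepresentation σ)
  have h5 : T'.toSubmodule = ⊥ := by
    by_contra T0
    obtain ⟨-, u, hu, u0, h⟩ := key _ (fun g v hv => T'.apply_mem_toSubmodule g hv) T0
    exact u0 ((congrArg Subrepresentation.toSubmodule h4.inf_eq_bot).le ⟨(mT u).2 h, hu⟩)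
  have h6 := congrArg Subrepresentation.toSubmodule h4.sup_eq_top
  rw [Subrepresentation.toSubmodule_sup, h5, sup_bot_eq] at h6
  exact fun g hg a ha => LinearMap.ext fun v => (mT v).1 (h6.ge trivial) g hg a ha⟩

end Cfsg.Agent.Fl
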