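import Cfsg.Agent.Fl.I

/-! Slices `TB` and `TS` of `S5277`. -/

set_option autoImplicit false
set_option linter.style.haveILetI false
set_option linter.unusedSectionVars false

namespace Cfsg.Agent.Fl

open Subgroup Cfsg.Agent.H1 Cfsg.Agent.L Cfsg.Agent.FT Cfsg.Agent.FT.Rp Module
open scoped Pointwise commutatorElement

universe u

theorem exists_rep0 {Q : Type} [Group Q] [Finite Q] {p : ℕ} [Fact p.Prime] (hQ : IsPGroup p Q)
    (F : Type) [Field F] [Algebra (ZMod p) F] :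
    ∃ (W : Type) (_ : AddCommGroup W) (_ : Module F W) (_ : FiniteDimensional F W)
      (ρ : Representation F (MulAut Q) W), (∀ g, ρ g = 1 → ∃ k, g ^ p ^ k = 1) ∧
      ∀ a : MulAut Q, (∀ x, a x = x → x = 1) → fixS ρ (zpowers a) = ⊥ := by
  have hp : p.Prime := Fact.out
  letI : CommGroup (Q ⧸ frattini Q) := { (inferInstance : Group _) with
    mul_comm := fun a b => QuotientGroup.induction_on a fun x => QuotientGroup.induction_on b fun y =>
      QuotientGroup.eq.2 (commutator_le_frattini_of_isPGroup hQ (by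
        have := commutator_mem_commutator (mem_top y⁻¹) (mem_top x⁻¹)
        simpa [commutatorElement_def, mul_assoc, _root_.commutator_def] using this)) }
  let φ : MulAut Q → Additive (Q ⧸ frattini Q) →+ Additive (Q ⧸ frattini Q) := fun g =>
    MonoidHom.toAdditive (QuotientGroup.map _ _ g.toMonoidHom fun x hx =>
      aut_apply_mem_of_characteristic _ g hx)
  obtain ⟨W, _, _, _, ρ, h⟩ := exists_dualRep_aux (V := Additive (Q ⧸ frattini Q)) (p := p)
    (fun v => QuotientGroup.induction_on v.toMul (C := fun w => w ^ p = 1) fun x =>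
      (QuotientGroup.eq_one_iff _).2 (pow_mem_frattini hQ x)) φ
    (fun v => QuotientGroup.induction_on v fun _ => rfl)
    (fun a b v => QuotientGroup.induction_on v fun _ => rfl) F
  refine ⟨W, _, _, ‹_›, ρ, fun g hg => aut_pow_eq_one_of_frattini hQ g fun x => ?_, fun a ha => ?_⟩
  · have h1 := h ⊥ ⊥ fun N => ⟨fun _ a ha v => by
      rw [mem_bot.1 ha, show φ 1 v = v from QuotientGroup.induction_on v fun _ => rfl, neg_add_cancel]
      exact N.zero_mem, fun _ => bot_le⟩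
    have h2 := h (zpowers g) (AddSubgroup.closure {w | ∃ a ∈ zpowers g, ∃ v, w = -v + φ a v}) fun N =>
      (AddSubgroup.closure_le _).trans ⟨fun h a ha v => h ⟨a, ha, v, rfl⟩,
        fun h _ ⟨a, ha, v, e⟩ => e ▸ h a ha v⟩
    rw [fixS_eq_top_iff.2 (zpowers_le.2 hg), ← fixS_bot (ρ := ρ), h1, AddSubgroup.index_bot,
      ← AddSubgroup.card_mul_index (AddSubgroup.closure _), mul_eq_right₀
        AddSubgroup.index_ne_zero_of_finite, AddSubgroup.card_eq_one] at h2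
    exact (QuotientGroup.eq_one_iff _).1 (AddSubgroup.mem_bot.1 (h2.le (AddSubgroup.subset_closure
      ⟨g, mem_zpowers g, Additive.ofMul (x : Q ⧸ frattini Q), rfl⟩)))
  · have h1 := h (zpowers a) ⊤ fun N => ⟨fun h _ _ _ => h trivial, fun h v _ => by
      obtain ⟨x, rfl⟩ := QuotientGroup.mk_surjective (s := frattini Q) v
      obtain ⟨y, rfl⟩ := MonoidHom.FixedPointFree.commutatorMap_surjective (φ := a) ha x
      have := N.neg_mem (h a (mem_zpowers a) (Additive.ofMul (y : Q ⧸ frattini Q)))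
      rw [neg_add', neg_neg] at this
      exact this⟩
    rwa [AddSubgroup.index_top, Nat.pow_eq_one, or_iff_right hp.ne_one, Submodule.finrank_eq_zero] at h1

theorem exists_rep {Q : Type u} [Group Q] [Finite Q] {p : ℕ} (hp : p.Prime) (hQ : IsPGroup p Q) :
    ∃ (F : Type) (_ : Field F) (_ : IsAlgClosed F) (_ : CharP F p) (Γ : Type) (_ : Group Γ)
      (_ : Finite Γ) (e : MulAut Q ≃* Γ) (W : Type) (_ : AddCommGroup W) (_ : Module F W)
      (_ : FiniteDimensional F W) (ρ : Representation F Γ W),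
      (∀ g, ρ (e g) = 1 → ∃ k, g ^ p ^ k = 1) ∧
      ∀ a : MulAut Q, (∀ x, a x = x → x = 1) → fixS ρ ((zpowers a).map e.toMonoidHom) = ⊥ := by
  haveI := Fact.mk hp
  let f : Q ≃* Shrink.{0} Q := Shrink.mulEquiv.symm
  haveI : Finite (Shrink.{0} Q) := Finite.of_equiv _ f.toEquiv
  obtain ⟨W, _, _, _, ρ, h1, h2⟩ := exists_rep0 (hQ.of_equiv f) (AlgebraicClosure (ZMod p))
  refine ⟨_, _, inferInstance, inferInstance, _, _, inferInstance, MulAut.congr f, W, _, _, ‹_›, ρ,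
    fun g hg => (h1 _ hg).imp fun k hk => (MulAut.congr f).injective (by rw [map_pow, hk, map_one]),
    fun a ha => ?_⟩
  rw [MonoidHom.map_zpowers]
  refine h2 _ fun x hx => f.symm.injective ((ha _ (f.injective ?_)).trans (map_one _).symm)
  rw [f.apply_symm_apply]; exact hx

section
variable {Q : Type u} [Group Q] [Finite Q] {p r : ℕ} {a : MulAut Q}

theorem card_modEq (hr : r.Prime) (ha : a ^ r = 1) (fpf : ∀ x, a x = x → x = 1) {Y : Subgroup Q}
    (hY : ∀ y ∈ Y, a y ∈ Y) : #|Y| ≡ 1 [MOD r] := by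
  classical
  haveI := Fact.mk hr
  haveI := Fintype.ofFinite Y
  let f : Function.End Y := fun y => ⟨a y, hY y y.2⟩
  have h1 : ∀ n (y : Y), ((f ^ n) y : Q) = (a ^ n) y := fun n => by
    induction n with
    | zero => exact fun _ => rfl
    | succ n ih => exact fun y => by rw [pow_succ, pow_succ]; exact ih _
  have := Equiv.Perm.card_fixedPoints_modEq (f := f) (p := r) (n := 1)
    (funext fun y => Subtype.ext (by rw [h1, pow_one, ha]; rfl))
  rwa [← Nat.card_eq_fintype_card, (Fintype.card_eq_one_iff (α := f.fixedPoints)).2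
    ⟨⟨1, Subtype.ext (map_one a)⟩, fun y =>
      Subtype.ext (Subtype.ext (fpf _ (congrArg Subtype.val y.2)))⟩] at this

theorem card_zp (hr : r.Prime) (ha : a ^ r = 1) (a1 : a ≠ 1) : #|zpowers a| = r := by
  haveI := Fact.mk hr
  rw [Nat.card_zpowers, orderOf_eq_prime ha a1]

theorem ne_of_fpf (hp : p.Prime) (hQ : IsPGroup p Q) (ha : a ^ r = 1) (fpf : ∀ x, a x = x → x = 1)
    (a1 : a ≠ 1) : r ≠ p := by
  rintro rfl
  have h1 := card_modEq hp ha fpf (Y := ⊤) fun _ _ => trivial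
  have h2 := pgroup_dvd_card hp (H := (⊤ : Subgroup Q)) (hQ.to_subgroup ⊤) fun e =>
    a1 (MulEquiv.ext fun x => (mem_bot.1 (e.le (mem_top _))).trans (mem_bot.1 (e.le (mem_top _))).symm)
  exact hp.one_lt.ne' (Nat.dvd_one.1 ((h1.dvd_iff dvd_rfl).1 h2))

theorem zp_le_norm {G : Type*} [Group G] {a : G} {K : Subgroup G} (h : a ∈ 𝐍(K)) : zpowers a ≤ 𝐍(K) :=
  zpowers_le.2 h

/-- invariant odd or abelian `p'`-subgroups are centralised -/
theorem cent_of_fpf (hp : p.Prime) (hQ : IsPGroup p Q) (hr : r.Prime) (ha : a ^ r = 1)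
    (fpf : ∀ x, a x = x → x = 1) {K : Subgroup (MulAut Q)} (hn : a ∈ 𝐍(K)) (hrK : ¬ r ∣ #|K|)
    (hpK : ¬ p ∣ #|K|) (h : Odd #|K| ∨ K ≤ 𝐂(K)) : K ≤ 𝐂[a] := by
  by_cases a1 : a = 1
  · rw [a1, cent1_one]; exact le_top
  by_cases r2 : r = 2
  · have := MonoidHom.FixedPointFree.coe_eq_inv_of_involutive (φ := a) fpf fun x => by
      rw [← MulAut.mul_apply, ← sq, ← r2, ha]; rfl
    exact fun k _ => mem_cent1.2 (MulEquiv.ext fun x => by simp [this])
  obtain ⟨F, _, _, _, Γ, _, _, e, W, _, _, _, ρ, h1, h2⟩ := exists_rep hp hQ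
  have hR := card_zp hr ha a1
  have hc : (#|zpowers a|).Coprime #|K| := hR ▸ (Nat.Prime.coprime_iff_not_dvd hr).2 hrK
  have hN := zp_le_norm hn
  have key : ∀ L ≤ K, L.map e.toMonoidHom ≤ MonoidHom.ker ρ → L = ⊥ := fun L hL h => eq_bot_iff.2
    fun g hg => by
      obtain ⟨k, hk⟩ := h1 g (h (mem_map_of_mem _ hg))
      exact orderOf_eq_one_iff.1 (Nat.eq_one_of_dvd_coprimes (Nat.Coprime.pow_left k
        ((Nat.Prime.coprime_iff_not_dvd hp).2 hpK)) (orderOf_dvd_of_pow_eq_one hk)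
        (K.orderOf_dvd_natCard (hL hg)))
  have hF : ∀ L ≤ K, (#|L.map e.toMonoidHom| : F) ≠ 0 := fun L hL => by
    rw [card_map_inj e.injective, Ne, CharP.cast_eq_zero_iff F p]
    exact fun h => hpK (h.trans (card_dvd_of_le hL))
  have hR' : #|(zpowers a).map e.toMonoidHom| = r := (card_map_inj e.injective _).trans hR
  rw [← cent_zpowers, ← comm_eq_bot_iff]
  refine key _ (comm_le_left hN) ?_
  rcases h with h | h
  · rw [Subgroup.map_commutator]
    exact odd_sdprod_le_ker (map_le_norm _ hN) (card_map_inj (f := e.toMonoidHom) e.injective K ▸ h)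
      (hR' ▸ hr) (hR' ▸ hr.odd_of_ne_two r2)
      (by rwa [card_map_inj e.injective, card_map_inj e.injective]) (hF K le_rfl) (by
        rw [hR', Ne, CharP.cast_eq_zero_iff F p, Nat.prime_dvd_prime_iff_eq hp hr]
        exact (ne_of_fpf hp hQ ha fpf a1).symm) ρ (h2 a fpf)
  · haveI := comm_iff_le_cent.2 h
    refine fixS_eq_top_iff.1 (eq_top_iff.2 fun v _ => ?_)
    have := card_smul_mem_fixS (map_le_norm e.toMonoidHom (right_le_norm_comm K (zpowers a)))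
      (fun x hx hx1 => by
        rw [cent1_eq_cent_of_prime (hR' ▸ hr) hx hx1, ← map_inf_cent_inj e.injective,
          eq_bot_iff.2 ((le_inf (inf_le_inf_right _ (comm_le_left hN)) inf_le_left).trans
            (inf_centralizer_inf_commutator_eq_bot hN hc).le), Subgroup.map_bot]) (h2 a fpf) v
    rwa [← Nat.cast_smul_eq_nsmul F, Submodule.smul_mem_iff _ (hF _ (comm_le_left hN))] at this

end

instance instTB [RB] : TB.{u} := ⟨fun {Q} _ _ {p r} A a hp p2 hQ hr ha hn hrA fpf hC => by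
  let P : Subgroup (MulAut Q) :=
    { carrier := {x | x ∈ A ∧ ∃ k, x ^ p ^ k = 1}
      one_mem' := ⟨one_mem _, 0, one_pow _⟩
      inv_mem' := fun ⟨h, k, hk⟩ => ⟨inv_mem h, k, by rw [inv_pow, hk, inv_one]⟩
      mul_mem' := fun {x y} ⟨hx, i, hi⟩ ⟨hy, j, hj⟩ => ⟨mul_mem hx hy, by
        by_cases a1 : a = 1
        · exact ⟨0, MulEquiv.ext fun q => (fpf _ (by rw [a1]; rfl)).trans (fpf _ (by rw [a1]; rfl)).symm⟩
        obtain ⟨F, _, _, _, Γ, _, _, e, W, _, _, _, ρ, h1, h2⟩ := exists_rep hp hQ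
        have hR : #|(zpowers a).map e.toMonoidHom| = r :=
          (card_map_inj e.injective _).trans (card_zp hr ha a1)
        obtain ⟨k, hk⟩ := RB.out p ρ (G := A.map e.toMonoidHom) hp p2 (hR ▸ hr)
          (hR ▸ ne_of_fpf hp hQ ha fpf a1) (map_le_norm _ (zp_le_norm hn))
          (by rw [hR, card_map_inj e.injective]; exact (Nat.Prime.coprime_iff_not_dvd hr).2 hrA)
          (h2 a fpf) (by
            rwa [← map_inf_cent_inj e.injective, card_map_inj e.injective, cent_zpowers])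
          _ (mem_map_of_mem _ hx) _ (mem_map_of_mem _ hy) i j (by rw [← map_pow, hi, map_one])
          (by rw [← map_pow, hj, map_one])
        rw [← map_mul, ← map_pow] at hk
        obtain ⟨l, hl⟩ := h1 _ hk
        exact ⟨k + l, by rw [pow_add, pow_mul, hl]⟩⟩ }
  exact ⟨P, ⟨fun x hx => hx.1, fun x => x.2.2.imp fun k hk => Subtype.ext hk, fun X hX h1 h2 =>
    le_antisymm (fun x hx => ⟨h2 hx, (hX ⟨x, hx⟩).imp fun k hk => congrArg Subtype.val hk⟩) h1⟩,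
    le_norm_iff.2 fun g hg x ⟨hx, k, hk⟩ => ⟨mul_mem (mul_mem hg hx) (inv_mem hg), k, by
      rw [conj_pow, hk, mul_one, mul_inv_cancel]⟩⟩⟩

section
variable {T : Type u} [CommGroup T] [Finite T] {p r : ℕ} {a g k : MulAut T}

/-- `[T, g]` -/
def cm (g : MulAut T) : Subgroup T where
  carrier := {x | ∃ t, x = g t * t⁻¹}
  one_mem' := ⟨1, by simp⟩
  mul_mem' := by
    rintro _ _ ⟨s, rfl⟩ ⟨t, rfl⟩
    exact ⟨s * t, by rw [map_mul, mul_inv, mul_mul_mul_comm]⟩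
  inv_mem' := by
    rintro _ ⟨s, rfl⟩
    exact ⟨s⁻¹, by rw [map_inv, mul_inv]⟩

theorem cm_conj (y : MulAut T) {x : T} : x ∈ cm g → y x ∈ cm (y * g * y⁻¹) := by
  rintro ⟨t, rfl⟩
  exact ⟨y t, by simp⟩

theorem cm_inv (h : Commute a g) : ∀ x ∈ cm g, a x ∈ cm g := fun x hx => by
  have := cm_conj a hx
  rwa [h.eq, mul_inv_cancel_right] at this

/-- the automorphisms trivial on `T / Y` -/
def trv (Y : Subgroup T) : Subgroup (MulAut T) where
  carrier := {g | cm g ≤ Y}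
  one_mem' := by rintro _ ⟨t, rfl⟩; simp
  mul_mem' := by
    rintro g h hg hh _ ⟨t, rfl⟩
    have := Y.mul_mem (hg ⟨h t, rfl⟩) (hh ⟨t, rfl⟩)
    rwa [mul_assoc, inv_mul_cancel_left] at this
  inv_mem' := by
    rintro g hg _ ⟨t, rfl⟩
    simpa [mul_comm] using Y.inv_mem (hg ⟨g⁻¹ t, rfl⟩)

theorem cm_le (h : g ∈ zpowers k) : cm g ≤ cm k := zpowers_le.2 (show k ∈ trv (cm k) from le_refl (cm k)) h

theorem cm_ne (h : g ≠ 1) : cm g ≠ ⊥ := fun e =>
  h (MulEquiv.ext fun t => mul_inv_eq_one.1 (mem_bot.1 (e.le ⟨t, rfl⟩)))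

/-- the Singer property -/
def Sing (k : MulAut T) : Prop :=
  k ≠ 1 ∧ ∀ b ∈ cm k, ∀ c ∈ cm k, b ≠ 1 → c ≠ 1 → ∃ ψ ∈ zpowers k, ψ b = c

theorem Sing.conj (h : Sing k) (y : MulAut T) : Sing (y * k * y⁻¹) :=
  ⟨fun e => h.1 (by simpa using e), fun b hb c hc b1 c1 => by
    have e : y⁻¹ * (y * k * y⁻¹) * y⁻¹⁻¹ = k := by group
    obtain ⟨ψ, hψ, e⟩ := h.2 _ (e ▸ cm_conj y⁻¹ hb) _ (e ▸ cm_conj y⁻¹ hc) (by simpa using b1)
      (by simpa using c1)
    exact ⟨y * ψ * y⁻¹, conj_zpowers y k ▸ conj_mem_conj y hψ, by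
      rw [MulAut.mul_apply, MulAut.mul_apply, e, MulAut.apply_inv_self]⟩⟩

theorem Sing.cm_eq (h : Sing k) (g1 : g ≠ 1) (hle : cm g ≤ cm k) (hc : Commute g k) : cm g = cm k :=
  le_antisymm hle fun c hc' => by
    by_cases c1 : c = 1
    · rw [c1]; exact one_mem _
    obtain ⟨b, hb, b1⟩ := exists_mem_ne_one (cm_ne g1)
    obtain ⟨_, ⟨n, rfl⟩, rfl⟩ := h.2 b (hle hb) c hc' b1 c1
    exact cm_inv (hc.zpow_right n).symm b hb

theorem Sing.dvd (h : Sing k) : #|cm k| - 1 ∣ orderOf k := by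
  obtain ⟨b, hb, b1⟩ := exists_mem_ne_one (cm_ne h.1)
  have h1 := index_dvd_card (MulAction.stabilizer (zpowers k) b)
  rw [MulAction.index_stabilizer, Nat.card_zpowers, show MulAction.orbit (zpowers k) b =
    (cm k : Set T) \ {1} from Set.ext fun c => ⟨?_, fun hc => ?_⟩,
    Set.ncard_sdiff_singleton_of_mem (one_mem _)] at h1
  · exact h1
  · rintro ⟨⟨_, n, rfl⟩, rfl⟩
    exact ⟨cm_inv ((Commute.refl k).zpow_left n) b hb, fun e => b1 ((k ^ n).injective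
      (e.trans (map_one _).symm))⟩
  · obtain ⟨ψ, hψ, e⟩ := h.2 b hb c hc.1 b1 hc.2
    exact ⟨⟨ψ, hψ⟩, e⟩

theorem ts_aux {H : Subgroup (MulAut T)} (hp : p.Prime) (p2 : p ≠ 2) (hT : IsPGroup p T) (hr : r.Prime)
    (ha : a ^ r = 1) (hn : a ∈ 𝐍(H)) (hrH : ¬ r ∣ #|H|) (hpH : ¬ p ∣ #|H|)
    (fpf : ∀ x, a x = x → x = 1) (hk : k ∈ H) (h : Sing k) : False := by
  have md : ∀ g, Commute a g → r ∣ #|cm g| - 1 := fun g hg =>
    (Nat.modEq_iff_dvd' Nat.card_pos).1 (card_modEq hr ha fpf (cm_inv hg)).symm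
  have no : ∀ k ∈ H, Sing k → ∀ g, Commute a g → cm g ≠ cm k := fun k hk h g hg e =>
    hrH ((e ▸ md g hg).trans (h.dvd.trans (H.orderOf_dvd_natCard hk)))
  have ck : ∀ K ≤ H, a ∈ 𝐍(K) → Odd #|K| ∨ K ≤ 𝐂(K) → ∀ g ∈ K, Commute a g := fun K hK h1 h2 g hg =>
    (mem_cent1.1 (cent_of_fpf hp hT hr ha fpf h1 (fun h => hrH (h.trans (card_dvd_of_le hK)))
      (fun h => hpH (h.trans (card_dvd_of_le hK))) h2 hg)).symm
  have a1 : a ≠ 1 := fun e => h.1 (MulEquiv.ext fun q =>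
    (fpf _ (by rw [e]; rfl)).trans (fpf _ (by rw [e]; rfl)).symm)
  have syl : ∀ t : ℕ, t.Prime → ∀ g ∈ H, IsPGroup t (zpowers g) →
      ∃ P, IsSylowIn t P H ∧ a ∈ 𝐍(P) ∧ ∃ y ∈ H, y * g * y⁻¹ ∈ P := fun t ht g hg h => by
    haveI := Fact.mk ht
    obtain ⟨P, h1, h2⟩ := exists_invariant_isSylowIn t (zp_le_norm hn)
      (card_zp hr ha a1 ▸ (Nat.Prime.coprime_iff_not_dvd hr).2 hrH)
      (Or.inl (sol_of_comm (comm_of_cyclic (cyclic_zpowers a))))
    obtain ⟨y, hy, h3⟩ := sylow_exists_conj_le ht h1 (zpowers_le.2 hg) h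
    exact ⟨P, h1, h2 (mem_zpowers a), y, hy, h3 (conj_mem_conj y (mem_zpowers g))⟩
  by_cases h2 : IsPGroup 2 (zpowers k)
  swap
  · obtain ⟨t, ht, hd, t2⟩ : ∃ t : ℕ, t.Prime ∧ t ∣ #|zpowers k| ∧ t ≠ 2 := by
      by_contra! hc
      exact h2 (PiGrp.isPGroup Nat.prime_two fun t ht hd => hc t ht hd)
    obtain ⟨g, hg, ho⟩ := exists_mem_orderOf_eq ht hd
    obtain ⟨P, h1, h3, y, hy, h4⟩ := syl t ht g (zpowers_le.2 hk hg)
      (pgroup_of_card_prime ((Nat.card_zpowers g).trans ho))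
    obtain ⟨n, e⟩ := pgroup_card ht h1.isPGroup
    have h5 : y * g * y⁻¹ ∈ zpowers (y * k * y⁻¹) := conj_zpowers y k ▸ conj_mem_conj y hg
    exact no _ (mul_mem (mul_mem hy hk) (inv_mem hy)) (h.conj y) _
      (ck P h1.le h3 (Or.inl (e ▸ (ht.odd_of_ne_two t2).pow)) _ h4) ((h.conj y).cm_eq
        (fun e => ht.one_lt.ne' (by rw [← ho, ← orderOf_conj' y, e, orderOf_one])) (cm_le h5)
        (mem_cent1.1 (zpowers_le_cent1 _ h5)))
  obtain ⟨P, h1, h3, y, hy, h4⟩ := syl 2 Nat.prime_two k hk h2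
  let N := closure {k | k ∈ P ∧ Sing k}
  have hNP : N ≤ P := (closure_le _).2 fun _ h => h.1
  have haN : a ∈ 𝐍(N) := le_norm_closure (A := zpowers a) (fun b hb s hs => Subgroup.subset_closure
    (And.intro (conj_mem_of_mem_normalizer (zp_le_norm h3 hb) hs.1) (hs.2.conj b))) (mem_zpowers a)
  have hZ : ∀ g ∈ zent N, Commute a g := ck _ ((zent_le N).trans (hNP.trans h1.le))
    (norm_le_norm_zent N haN) (Or.inr (le_cent_self (zent_comm N)))
  by_cases hab : N ≤ zent N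
  · exact no _ (h1.le h4) (h.conj y) _ (hZ _ (hab (subset_closure ⟨h4, h.conj y⟩))) rfl
  have hN := IsPGroup.le' h1.isPGroup hNP
  obtain ⟨x, hx, x1, x2⟩ := exists_central_mod (pgroup_nil Nat.prime_two hN) le_rfl le_normalizer hab
  have hex : ∃ n, x ^ 2 ^ n ∈ zent N := (hN ⟨x, hx⟩).imp fun n e => by
    rw [show x ^ 2 ^ n = 1 from congrArg Subtype.val e]; exact one_mem _
  classical
  obtain ⟨i, hi⟩ := Nat.exists_eq_succ_of_ne_zero (n := Nat.find hex) fun e => x1 (by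
    simpa [e] using Nat.find_spec hex)
  have u1 : x ^ 2 ^ i ∉ zent N := Nat.find_min hex (by omega)
  have u2 : (x ^ 2 ^ i) ^ 2 ∈ zent N := by
    have := Nat.find_spec hex
    rwa [hi, pow_succ, pow_mul] at this
  have u3 : x ^ 2 ^ i ∈ N ⊓ centMod N (zent N) := (N ⊓ centMod N (zent N)).pow_mem ⟨hx, mem_centMod.2
    ⟨⟨le_normalizer hx, (zent_normal N).norm hx⟩, fun u hu => by simpa using inv_mem (x2 u hu)⟩⟩ _
  generalize x ^ 2 ^ i = u at u1 u2 u3
  obtain ⟨l, hl, w1⟩ : ∃ l, (l ∈ P ∧ Sing l) ∧ ⁅u, l⁆ ≠ 1 := by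
    by_contra! hc
    exact u1 ⟨u3.1, le_cent1_iff.1 ((closure_le _).2 fun l hl =>
      mem_cent1.2 (commutatorElement_eq_one_iff_mul_comm.1 (hc l hl)).symm)⟩
  have hlN : l ∈ N := subset_closure hl
  have hw : ⁅u, l⁆ ∈ zent N := by simpa using inv_mem ((mem_centMod.1 u3.2).2 l hlN)
  have e1 : u * l * u⁻¹ = ⁅u, l⁆ * l := by group
  have hle : ∀ Y, cm (u * l * u⁻¹) ≤ Y → cm l ≤ Y → cm ⁅u, l⁆ ≤ Y := fun Y h h' =>
    (trv Y).mul_mem h ((trv Y).inv_mem h')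
  have hwl : Commute ⁅u, l⁆ l := (hw.2 l hlN).symm
  by_cases l2 : l ^ 2 = 1
  · have c3 : ∀ m, Sing m → m ^ 2 = 1 → #|cm m| = 3 ∧ p = 3 := fun m hm m2 => by
      obtain ⟨n, e⟩ := pgroup_card hp (hT.to_subgroup (cm m))
      have h5 := Nat.le_of_dvd two_pos (hm.dvd.trans (orderOf_dvd_of_pow_eq_one m2))
      have h6 := Nat.le_of_dvd Nat.card_pos (pgroup_dvd_card hp (hT.to_subgroup _) (cm_ne hm.1))
      have := hp.two_le
      omega
    obtain ⟨c1, rfl⟩ := c3 l hl.2 l2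
    obtain ⟨c2, -⟩ := c3 _ (hl.2.conj u) (by rw [conj_pow, l2, mul_one, mul_inv_cancel])
    have h5 : #|cm ⁅u, l⁆| ∣ 3 ^ 2 := (card_dvd_of_le (hle _ le_sup_left le_sup_right)).trans
      (Dvd.intro _ ((setProd_sup (Or.inl (by rw [normalizer_eq_top]; exact le_top))).card.trans
        (by rw [c1, c2]; rfl)))
    obtain ⟨j, hj, e⟩ := (Nat.dvd_prime_pow Nat.prime_three).1 h5
    have h6 := md _ (hZ _ hw)
    have h7 := (one_lt_card_iff_ne_bot _).2 (cm_ne w1)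
    rw [e] at h6 h7
    have h8 : r ∣ 2 ^ 3 := by interval_cases j <;> simp_all; exact h6.trans (by norm_num)
    refine hrH ((Nat.prime_dvd_prime_iff_eq hr Nat.prime_two).1 (hr.dvd_of_dvd_pow h8) ▸
      (pgroup_dvd_card Nat.prime_two h2 fun e => h.1 (mem_bot.1 (e.le (mem_zpowers k)))).trans
        (card_dvd_of_le (zpowers_le.2 hk)))
  have w2 : ⁅u, l⁆ * ⁅u, l⁆ = 1 := by
    have e2 := u2.2 l hlN
    have e3 := hw.2 u u3.1
    calc _ = ⁅u, l⁆ * (⁅u, l⁆ * l) * l⁻¹ := by group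
      _ = ⁅u, l⁆ * u * l * u⁻¹ * l⁻¹ := by rw [← e1]; simp only [mul_assoc]
      _ = u ^ 2 * l * (u ^ 2)⁻¹ * l⁻¹ := by rw [← e3, mul_assoc u, ← e1, sq]; group
      _ = 1 := by rw [← e2]; group
  have e4 : (u * l * u⁻¹) ^ 2 = l ^ 2 := by rw [e1, hwl.mul_pow, sq ⁅u, l⁆, w2, one_mul]
  have e5 : ∀ m, Sing m → m ^ 2 = l ^ 2 → cm m = cm (l ^ 2) := fun m hm e =>
    e ▸ (hm.cm_eq (e ▸ l2) (cm_le (pow_mem (mem_zpowers m) 2)) ((Commute.refl m).pow_left 2)).symm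
  exact no l (h1.le hl.1) hl.2 _ (hZ _ hw) (hl.2.cm_eq w1 (hle _
    ((e5 _ (hl.2.conj u) e4).trans (e5 l hl.2 rfl).symm).le le_rfl) hwl)

end

instance instTS : TS.{u} := ⟨fun {T} _ _ {p r} H X a hp p2 hT hc hr ha hn hrH hpH fpf hX X1 cy tr => by
  letI : CommGroup T := { ‹Group T› with mul_comm := hc }
  obtain ⟨k, rfl⟩ := cyclic_iff.1 cy
  exact ts_aux hp p2 hT hr ha hn hrH hpH fpf (hX (mem_zpowers k))
    ⟨fun e => X1 (by rw [e, zpowers_one_eq_bot]), fun b ⟨s, hs⟩ c ⟨t, ht⟩ =>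
      tr b c (subset_closure ⟨k, mem_zpowers k, s, hs⟩) (subset_closure ⟨k, mem_zpowers k, t, ht⟩)⟩⟩

end Cfsg.Agent.Fl
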